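import Cfsg.Agent.H33.SmallFus
import Cfsg.Agent.S0093
import Cfsg.Agent.S0121
import Cfsg.Agent.Fus.Crit
import Cfsg.Agent.Transfer.Residual
import Cfsg.Prelude.Def_KGroupFacts

set_option autoImplicit false
set_option linter.all false

/-! Critical subgroups inside `[P, O^p(G)]` (helper33). -/

open scoped commutatorElement

namespace Cfsg.Agent.H33

variable {P : Type*} [Group P] {p : ℕ}

theorem mulAut_eq_of_small [Finite P] [hp : Fact p.Prime] (H : Subgroup P) (hH : IsPGroup p H)
    (a : MulAut P) (ha : (orderOf a).Coprime p) (haH : ∀ h ∈ H, a h ∈ H)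
    (hs : ∀ x ∈ H, Small p x → a x = x) : ∀ x ∈ H, a x = x := by
  let X := P ⋊[MonoidHom.id (MulAut P)] MulAut P
  haveI : Finite X := Finite.of_equiv _ SemidirectProduct.equivProd.symm
  let i : P →* X := SemidirectProduct.inl
  let g : X := SemidirectProduct.inr a
  have hi : Function.Injective i := SemidirectProduct.inl_injective
  have hconj : ∀ x : P, g * i x * g⁻¹ = i (a x) := by
    intro x
    have := SemidirectProduct.inl_aut (φ := MonoidHom.id (MulAut P)) a x
    rw [MonoidHom.id_apply, map_inv] at this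
    exact this.symm
  have hg : (orderOf g).Coprime p := by
    have : orderOf g = orderOf a :=
      orderOf_injective (SemidirectProduct.inr (φ := MonoidHom.id (MulAut P)))
        SemidirectProduct.inr_injective a
    rw [this]; exact ha
  have h1 := centralize_of_small hg _ (H.map i) rfl (hH.map i) (by
      rintro _ ⟨x, hx, rfl⟩
      rw [hconj]; exact ⟨_, haH x hx, rfl⟩) (by
      rintro _ ⟨x, hx, rfl⟩ hsx
      rw [hconj, hs x hx]
      rcases hsx with h | ⟨h2, h⟩
      · exact Or.inl (hi (by rw [map_pow, h, map_one]))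
      · exact Or.inr ⟨h2, hi (by rw [map_pow, h, map_one])⟩)
  intro x hx
  have := h1 (i x) ⟨x, hx, rfl⟩
  rw [hconj] at this
  exact hi this

/-- the elements of order `p` (or `4`) of a critical subgroup -/
theorem exists_omega [Finite P] [hp : Fact p.Prime] (hP : IsPGroup p P) :
    ∃ W : Subgroup P, W.Characteristic ∧ (∀ x ∈ W, Small p x) ∧
      ⁅W, (⊤ : Subgroup P)⁆ ≤ Subgroup.centralizer (W : Set P) ∧
      ∀ a : MulAut P, (orderOf a).Coprime p → (∀ x ∈ W, a x = x) → a = 1 := by
  obtain ⟨H, hHc, hfr, hcom, hcen⟩ := Cfsg.Agent.S0093.result hP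
  have hHp : IsPGroup p H := hP.to_subgroup H
  have hpw : ∀ x ∈ H, ∀ h ∈ H, h * x ^ p = x ^ p * h := by
    intro x hx h hh
    have h1 : (⟨x, hx⟩ : H) ^ p ∈ frattini H :=
      Cfsg.Agent.Solv.pow_mem_frattini_of_pGroup hHp ⟨x, hx⟩
    have h2 : x ^ p ∈ (frattini H).map H.subtype := ⟨_, h1, rfl⟩
    exact Subgroup.mem_centralizer_iff.mp (hfr h2) h hh
  have hz : ∀ a ∈ H, ∀ b ∈ H, ∀ h ∈ H, h * (b⁻¹ * a⁻¹ * b * a) = (b⁻¹ * a⁻¹ * b * a) * h := by
    intro a ha b hb h hh
    have h1 : ⁅b⁻¹, a⁻¹⁆ ∈ H ⊓ Subgroup.centralizer (H : Set P) :=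
      hcom (Subgroup.commutator_mem_commutator (H.inv_mem hb) (Subgroup.mem_top _))
    rw [commutatorElement_def, inv_inv, inv_inv] at h1
    exact Subgroup.mem_centralizer_iff.mp h1.2 h hh
  have hmul : ∀ a ∈ H, ∀ b ∈ H, Small p a → Small p b → Small p (a * b) := by
    intro a ha b hb hsa hsb
    set z := b⁻¹ * a⁻¹ * b * a with hzd
    have hzH : z ∈ H := mul_mem (mul_mem (mul_mem (inv_mem hb) (inv_mem ha)) hb) ha
    have hza : z * a = a * z := (hz a ha b hb a ha).symm
    have hzb : z * b = b * z := (hz a ha b hb b hb).symm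
    have hba : b * a = a * b * z := by rw [hzd]; group
    have hzp : z ^ p = 1 := by
      have h1 : a⁻¹ * b * a = b * z := by rw [hzd]; group
      have h2 : (a⁻¹ * b * a) ^ p = b ^ p := by
        have h3 : (a⁻¹ * b * a) ^ p = a⁻¹ * b ^ p * a := by
          have := conj_pow (i := p) (a := a⁻¹) (b := b)
          rwa [inv_inv] at this
        rw [h3, mul_assoc, ← hpw b hb a ha]; group
      rw [h1, (show Commute z b from hzb).symm.mul_pow] at h2
      exact mul_eq_left.1 h2
    have hf := mul_pow_class_two hba hza hzb p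
    by_cases h2 : p = 2
    · right
      refine ⟨h2, ?_⟩
      subst h2
      have ha4 : a ^ 4 = 1 := by
        rcases hsa with h | ⟨-, h⟩
        · calc a ^ 4 = (a ^ 2) ^ 2 := by rw [← pow_mul]
            _ = 1 := by rw [h, one_pow]
        · exact h
      have hb4 : b ^ 4 = 1 := by
        rcases hsb with h | ⟨-, h⟩
        · calc b ^ 4 = (b ^ 2) ^ 2 := by rw [← pow_mul]
            _ = 1 := by rw [h, one_pow]
        · exact h
      rw [Nat.choose_self, pow_one] at hf
      have c1 : Commute (a ^ 2) (b ^ 2) := hpw b hb _ (pow_mem ha 2)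
      have c2 : Commute (a ^ 2 * b ^ 2) z :=
        (hz a ha b hb _ (mul_mem (pow_mem ha 2) (pow_mem hb 2)))
      calc (a * b) ^ 4 = ((a * b) ^ 2) ^ 2 := by rw [← pow_mul]
        _ = (a ^ 2 * b ^ 2 * z) ^ 2 := by rw [hf]
        _ = (a ^ 2 * b ^ 2) ^ 2 * z ^ 2 := c2.mul_pow 2
        _ = (a ^ 2) ^ 2 * (b ^ 2) ^ 2 * z ^ 2 := by rw [c1.mul_pow]
        _ = a ^ 4 * b ^ 4 * z ^ 2 := by rw [← pow_mul, ← pow_mul]
        _ = 1 := by rw [ha4, hb4, hzp]; simp
    · left
      have h3 : p ∣ p.choose 2 := by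
        apply Nat.Prime.dvd_choose_self hp.out (by norm_num)
        exact lt_of_le_of_ne hp.out.two_le (Ne.symm h2)
      obtain ⟨k, hk⟩ := h3
      rw [hk, pow_mul, hzp, one_pow, mul_one] at hf
      rw [hf]
      have ha1 : a ^ p = 1 := by
        rcases hsa with h | ⟨h, -⟩
        · exact h
        · exact absurd h h2
      have hb1 : b ^ p = 1 := by
        rcases hsb with h | ⟨h, -⟩
        · exact h
        · exact absurd h h2
      rw [ha1, hb1, one_mul]
  let W : Subgroup P :=
    { carrier := {x | x ∈ H ∧ Small p x}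
      one_mem' := ⟨one_mem H, Or.inl (one_pow p)⟩
      mul_mem' := fun {a b} ha hb => ⟨mul_mem ha.1 hb.1, hmul a ha.1 b hb.1 ha.2 hb.2⟩
      inv_mem' := fun {a} ha => ⟨inv_mem ha.1, by
        rcases ha.2 with h | ⟨h2, h⟩
        · exact Or.inl (by rw [inv_pow, h, inv_one])
        · exact Or.inr ⟨h2, by rw [inv_pow, h, inv_one]⟩⟩ }
  have hW : ∀ x, x ∈ W ↔ x ∈ H ∧ Small p x := fun x => Iff.rfl
  have hWH : W ≤ H := fun x hx => hx.1
  refine ⟨W, ?_, fun x hx => hx.2, ?_, ?_⟩
  · rw [Subgroup.characteristic_iff_le_comap]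
    intro φ x hx
    rw [Subgroup.mem_comap]
    refine ⟨?_, ?_⟩
    · exact (Subgroup.characteristic_iff_le_comap.1 hHc φ) hx.1
    · rcases hx.2 with h | ⟨h2, h⟩
      · exact Or.inl (by rw [← map_pow, h, map_one])
      · exact Or.inr ⟨h2, by rw [← map_pow, h, map_one]⟩
  · refine (Subgroup.commutator_mono hWH le_rfl).trans (hcom.trans (inf_le_right.trans ?_))
    exact Subgroup.centralizer_le hWH
  · intro a ha hfix
    apply Cfsg.Agent.S0121.result hP H hHc hfr hcom hcen a ha
    apply mulAut_eq_of_small H hHp a ha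
    · intro h hh
      exact (Subgroup.characteristic_iff_le_comap.1 hHc a) hh
    · intro x hx hs
      exact hfix x ⟨hx, hs⟩

end Cfsg.Agent.H33
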