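import Cfsg.Agent.H33.GF12
import Cfsg.Agent.SuzGF
import Cfsg.Agent.H14.GFPsl
import Cfsg.Agent.H14.GFPslAut
import Cfsg.Agent.Asch.PaQb
import Cfsg.Agent.Dk.ListOdd

set_option autoImplicit false
set_option linter.unusedVariables false
set_option linter.style.haveILetI false

/-!
The simple groups `Sz(q)`, `PSL₂(3^(2n+1))`.
-/

namespace Cfsg.Agent.H33.GF

open Subgroup Cfsg

universe u

theorem innerTwo_congr {L L' : Type u} [Group L] [Group L'] (e : L ≃* L') (h : InnerTwo.{u, u} L') : InnerTwo.{u, u} L := by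
  rintro Y _ _ K hK ⟨f⟩ hS3 a ha
  exact h Y K hK ⟨f.trans e⟩ hS3 a ha

theorem gi : GI.{u} := by
  intro L _ _ hs hna hp
  rcases hp with h | ⟨F, i1, i2, n, h1, ⟨f⟩⟩
  · exact ⟨SuzGF.good_of_isoSuzuki h, SuzGF.innerTwo_of_isoSuzuki h⟩
  · haveI : Finite (Matrix.ProjectiveSpecialLinearGroup (Fin 2) F) := Finite.of_equiv L f.toEquiv
    rcases Nat.eq_zero_or_pos n with hn | hn
    · exfalso
      have h2 : Nat.card F = 3 := by rw [Nat.card_eq_fintype_card, h1, hn]; norm_num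
      have h3 : 2 * Nat.card (Matrix.ProjectiveSpecialLinearGroup (Fin 2) F) = 24 := by
        have := Dk.card_psl_odd (F := F) (by rw [h2]; decide)
        rw [this, h2]
      have h4 : Nat.card L = 2 ^ 2 * 3 ^ 1 := by
        rw [Nat.card_congr f.toEquiv]; omega
      haveI := Asch.PaQb.isSolvable (G := L) 2 3 2 1 Nat.prime_two Nat.prime_three h4
      exact hna (IsSimpleGroup.comm_iff_isSolvable.2 this)
    · refine ⟨SuzGF.good_congr f (H14.GFP.good_psl hn h1), ?_⟩
      intro Y _ _ K hK ⟨g⟩ hS3 a ha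
      exact H14.GFP.innerTwo_psl h1 Y K hK ⟨g.trans f⟩ hS3 a ha

end Cfsg.Agent.H33.GF
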