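import Mathlib.GroupTheory.Index
import Mathlib.GroupTheory.GroupAction.Quotient
import Mathlib.GroupTheory.Coset.Card
import Mathlib.GroupTheory.Complement
import Mathlib.GroupTheory.OrderOfElement
import Mathlib.Tactic

set_option autoImplicit false
set_option linter.all false

/-! Relative trace on an abelian group (helper33). -/

namespace Cfsg.Agent.H33

variable {Γ V : Type*} [Group Γ] [CommGroup V]

/-- fixed points -/
def fixS (φ : Γ →* MulAut V) (H : Subgroup Γ) : Subgroup V where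
  carrier := {v | ∀ h ∈ H, φ h v = v}
  one_mem' := fun h _ => map_one _
  mul_mem' := fun {a b} ha hb h hh => by rw [map_mul, ha h hh, hb h hh]
  inv_mem' := fun {a} ha h hh => by rw [map_inv, ha h hh]

theorem mem_fixS {φ : Γ →* MulAut V} {H : Subgroup Γ} {v : V} :
    v ∈ fixS φ H ↔ ∀ h ∈ H, φ h v = v := Iff.rfl

open Classical in
/-- relative trace -/
noncomputable def rtr (φ : Γ →* MulAut V) (H : Subgroup Γ) [Fintype (Γ ⧸ H)] : V →* V where
  toFun v := ∏ q : Γ ⧸ H, φ q.out v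
  map_one' := by simp
  map_mul' := fun a b => by simp [Finset.prod_mul_distrib]

theorem rtr_apply (φ : Γ →* MulAut V) (H : Subgroup Γ) [Fintype (Γ ⧸ H)] (v : V) :
    rtr φ H v = ∏ q : Γ ⧸ H, φ q.out v := rfl

theorem rtr_fix (φ : Γ →* MulAut V) (H : Subgroup Γ) [Fintype (Γ ⧸ H)] {v : V} (hv : v ∈ fixS φ H)
    (g : Γ) : φ g (rtr φ H v) = rtr φ H v := by
  rw [rtr_apply, map_prod]
  have h1 : ∀ q : Γ ⧸ H, φ g (φ q.out v) = φ (g • q).out v := by
    intro q
    have h2 : ((g * q.out : Γ) : Γ ⧸ H) = (((g • q).out : Γ) : Γ ⧸ H) := by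
      rw [QuotientGroup.out_eq']
      conv_rhs => rw [← QuotientGroup.out_eq' q]
      rfl
    have h3 : (g * q.out)⁻¹ * (g • q).out ∈ H := QuotientGroup.eq.1 h2
    have h4 := hv _ h3
    have h5 : (g • q).out = (g * q.out) * ((g * q.out)⁻¹ * (g • q).out) := by group
    rw [h5, map_mul φ, MulAut.mul_apply, h4, map_mul φ, MulAut.mul_apply]
  rw [Finset.prod_congr rfl (fun q _ => h1 q)]
  exact Fintype.prod_equiv (MulAction.toPerm g) _ _ (fun q => rfl)

theorem exists_compl_fixed [Finite Γ] [Finite V] (φ : Γ →* MulAut V) (H : Subgroup Γ)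
    (hco : (Nat.card V).Coprime H.index) :
    ∃ K : Subgroup V, K ≤ fixS φ H ∧ fixS φ ⊤ ⊓ K = ⊥ ∧ fixS φ ⊤ ⊔ K = fixS φ H := by
  classical
  haveI : Fintype (Γ ⧸ H) := Fintype.ofFinite _
  have htop : ∀ v ∈ fixS φ (⊤ : Subgroup Γ), rtr φ H v = v ^ H.index := by
    intro v hv
    rw [rtr_apply, Finset.prod_congr rfl (fun q _ => hv _ (Subgroup.mem_top _)), Finset.prod_const,
      Finset.card_univ, Subgroup.index, Nat.card_eq_fintype_card]
  have hle : fixS φ ⊤ ≤ fixS φ H := fun v hv h _ => hv h (Subgroup.mem_top h)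
  refine ⟨fixS φ H ⊓ (rtr φ H).ker, inf_le_left, ?_, le_antisymm ?_ ?_⟩
  · rw [eq_bot_iff]
    rintro v ⟨hv, -, hv2⟩
    have hv3 : rtr φ H v = 1 := hv2
    rw [htop v hv] at hv3
    rw [Subgroup.mem_bot]
    have h1 : orderOf v ∣ H.index := orderOf_dvd_of_pow_eq_one hv3
    have h2 : orderOf v ∣ Nat.card V := orderOf_dvd_natCard v
    have h3 := Nat.eq_one_of_dvd_coprimes hco h2 h1
    exact orderOf_eq_one_iff.1 h3
  · exact sup_le hle inf_le_left
  · intro v hv
    have h1 : rtr φ H v ∈ fixS φ ⊤ := fun g _ => rtr_fix φ H hv g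
    -- the inverse of the power map
    have hpow : ∃ w ∈ fixS φ ⊤, w ^ H.index = rtr φ H v := by
      have h2 : (Nat.card (Subgroup.zpowers (rtr φ H v))).Coprime H.index :=
        Nat.Coprime.coprime_dvd_left (Subgroup.card_subgroup_dvd_card _) hco
      obtain ⟨w, hw⟩ := (powCoprime h2).surjective ⟨rtr φ H v, Subgroup.mem_zpowers _⟩
      refine ⟨w, ?_, congrArg Subtype.val hw⟩
      exact (Subgroup.zpowers_le.2 h1) w.2
    obtain ⟨w, hw, hwe⟩ := hpow
    have h3 : w⁻¹ * v ∈ fixS φ H ⊓ (rtr φ H).ker := by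
      refine Subgroup.mem_inf.2 ⟨Subgroup.mul_mem _ (Subgroup.inv_mem _ (hle hw)) hv, ?_⟩
      rw [MonoidHom.mem_ker, map_mul, map_inv, htop w hw, hwe, inv_mul_cancel]
    have h4 := Subgroup.mul_mem_sup hw h3
    rwa [mul_inv_cancel_left] at h4

end Cfsg.Agent.H33
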