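import Cfsg.Agent.H33.SFImp

/-! The level theorem, first part: exactly one bad orbit. -/

set_option autoImplicit false
set_option linter.unusedSectionVars false
set_option linter.unusedVariables false

namespace Cfsg.Agent.H33.SF

open scoped Pointwise

universe u

theorem num1 {p i f f3 s s3 : ℤ} (hp : 2 ≤ p) (hi : 1 ≤ i) (hi' : i ≤ p - 1) (hf : f3 ≤ f)
    (hf3 : 1 ≤ f3) (hs3 : 1 ≤ s3) (hb : f3 ≤ (p - 1) * s3)
    (he : f * (f3 + s3 * (p + i)) = f3 * (i * s)) (hd : (p - 1) * s - f ≤ 2 * p - 3) : False := by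
  have hf3' : (0 : ℤ) < f3 := by linarith
  have hX : 0 < f3 + s3 * (p + i) := by nlinarith
  have h1 : f3 + s3 * (p + i) ≤ i * s := by
    have : f3 * (f3 + s3 * (p + i)) ≤ f3 * (i * s) := by
      rw [← he]; exact mul_le_mul_of_nonneg_right hf hX.le
    exact le_of_mul_le_mul_left this hf3'
  have h2 : 3 ≤ s := by
    by_contra hlt
    have hs2 : s ≤ 2 := by omega
    have a1 : i * s ≤ i * 2 := mul_le_mul_of_nonneg_left hs2 (by linarith)
    have a2 : 1 * (p + i) ≤ s3 * (p + i) := mul_le_mul_of_nonneg_right hs3 (by linarith)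
    linarith
  have h3 : f * (2 * p - 1 + i) ≤ (p - 1) * (i * s) := by
    have b1 : f3 * (2 * p - 1 + i) ≤ (p - 1) * (f3 + s3 * (p + i)) := by
      have := mul_le_mul_of_nonneg_right hb (show (0 : ℤ) ≤ p + i by linarith)
      nlinarith
    have b2 : f * (f3 * (2 * p - 1 + i)) ≤ f * ((p - 1) * (f3 + s3 * (p + i))) :=
      mul_le_mul_of_nonneg_left b1 (by linarith)
    have b3 : f * ((p - 1) * (f3 + s3 * (p + i))) = f3 * ((p - 1) * (i * s)) := by
      linear_combination (p - 1) * he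
    have b4 : f3 * (f * (2 * p - 1 + i)) ≤ f3 * ((p - 1) * (i * s)) := by
      rw [← b3]; linarith
    exact le_of_mul_le_mul_left b4 hf3'
  have h4 : f * (3 * p - 2) ≤ (p - 1) * ((p - 1) * s) := by
    have c1 : (3 * p - 2) * i ≤ (2 * p - 1 + i) * (p - 1) := by nlinarith
    have c2 : f * ((3 * p - 2) * i) ≤ f * ((2 * p - 1 + i) * (p - 1)) :=
      mul_le_mul_of_nonneg_left c1 (by linarith)
    have c3 : f * (2 * p - 1 + i) * (p - 1) ≤ (p - 1) * (i * s) * (p - 1) :=
      mul_le_mul_of_nonneg_right h3 (by linarith)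
    have c4 : i * (f * (3 * p - 2)) ≤ i * ((p - 1) * ((p - 1) * s)) := by linarith
    exact le_of_mul_le_mul_left c4 (by linarith)
  have h5 : (3 * p - 2) * ((p - 1) * s - f) ≤ (3 * p - 2) * (2 * p - 3) :=
    mul_le_mul_of_nonneg_left hd (by linarith)
  have h6 : (p - 1) * (2 * p - 1) * 3 ≤ (p - 1) * (2 * p - 1) * s :=
    mul_le_mul_of_nonneg_left h2 (by nlinarith)
  nlinarith

variable {G : Type u} [Group G] {p : ℕ} [Finite G] [Fact p.Prime]

theorem INV_iff {Ω : Type*} [MulAction G Ω] {T : Subgroup G} {S : Set Ω} :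
    INV T S ↔ T ≤ MulAction.stabilizer G S := by
  constructor
  · intro h t ht
    rw [MulAction.mem_stabilizer_iff]
    apply Set.Subset.antisymm
    · rintro _ ⟨x, hx, rfl⟩
      exact h t ht x hx
    · intro x hx
      refine ⟨t⁻¹ • x, h _ (T.inv_mem ht) x hx, smul_inv_smul _ _⟩
  · intro h t ht x hx
    have := MulAction.mem_stabilizer_iff.1 (h ht)
    rw [← this]
    exact ⟨x, hx, rfl⟩

/-- comparison of conjugate orbits -/
theorem conj_orb {Ω : Type*} [MulAction G Ω] [Finite Ω] {T P : Subgroup G} {g : G} {x : Ω}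
    (h1 : Syl p P T) (h2 : Syl p P (g • T)) :
    (orb (g • T) (g • x)).ncard = (orb T x).ncard ∧
    (fx P (orb (g • T) (g • x))).ncard = (fx P (orb T x)).ncard := by
  have e1 : (orb (g • T) (g • x)).ncard = (orb T x).ncard := by
    rw [ncard_orb, ncard_orb, ← cj_st, relIndex_cj]
  refine ⟨e1, ?_⟩
  have f1 := FIX h1 x
  have f2 := FIX h2 (g • x)
  rw [← cj_st, nu_cj, nu_cj, e1, ← f1] at f2
  exact Nat.eq_of_mul_eq_mul_right (nu_pos h1.1) f2

theorem conj_orb_D {Ω : Type*} [MulAction G Ω] [Finite Ω] {T P : Subgroup G} {g : G} {x : Ω}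
    (h1 : Syl p P T) (h2 : Syl p P (g • T)) :
    D p P (orb (g • T) (g • x)) = D p P (orb T x) := by
  have := conj_orb h1 h2 (x := x)
  unfold D W
  rw [this.1, this.2]

namespace Ctx
variable {K : Subgroup G} {Γ : Set (Subgroup G)} (c : Ctx p K Γ)

/-- the level hypothesis -/
def LH (p : ℕ) (K : Subgroup G) (Γ : Set (Subgroup G)) : Prop :=
  ∀ P, Syl p P K → D p P Γ ≤ p * (2 * p - 4)

variable (p) in
/-- the bad points -/
def Θ (Γ : Set (Subgroup G)) (A : Subgroup G) : Set (Subgroup G) :=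
  {B | B ∈ Γ ∧ B ≠ A ∧ ¬ Pt p A (mt p A B)}

theorem Pt_cj_iff {A B : Subgroup G} (k : G) :
    Pt p (k • A) (mt p (k • A) (k • B)) ↔ Pt p A (mt p A B) := by
  constructor
  · intro h
    have := h.cj k⁻¹
    rwa [cj_mt, inv_smul_smul, inv_smul_smul] at this
  · intro h
    have := h.cj k
    rwa [cj_mt] at this

include c

theorem Θ_smul {A B : Subgroup G} {k : G} (hk : k ∈ K) (h : B ∈ Θ p Γ A) :
    k • B ∈ Θ p Γ (k • A) := by
  refine ⟨c.inv k hk B h.1, fun e => h.2.1 (smul_left_cancel _ e), ?_⟩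
  rw [Pt_cj_iff]; exact h.2.2

theorem Θ_smul_set {A : Subgroup G} {k : G} (hk : k ∈ K) : k • Θ p Γ A = Θ p Γ (k • A) := by
  apply Set.Subset.antisymm
  · rintro _ ⟨B, hB, rfl⟩
    exact c.Θ_smul hk hB
  · intro B hB
    refine ⟨k⁻¹ • B, ?_, smul_inv_smul _ _⟩
    have := c.Θ_smul (K.inv_mem hk) hB
    rwa [inv_smul_smul] at this

theorem Θ_inv {A : Subgroup G} : INV (st K A) (Θ p Γ A) := by
  intro k hk B hB
  have := c.Θ_smul (mem_st.1 hk).1 hB
  rwa [(mem_st.1 hk).2] at this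

theorem A_le_st {A : Subgroup G} (hA : A ∈ Γ) : A ≤ st K A := le_inf (c.le hA) c.stabA

theorem Θ_invA {A : Subgroup G} (hA : A ∈ Γ) : INV A (Θ p Γ A) := c.Θ_inv.mono (c.A_le_st hA)

theorem Θ_sub {A : Subgroup G} : Θ p Γ A ⊆ Γ \ {A} := fun B hB => ⟨hB.1, hB.2.1⟩

theorem Dtot (hD : LH p K Γ) {A P : Subgroup G} (hA : A ∈ Γ) (hP : Syl p P K) (h : P ≤ A) :
    D p P (Γ \ {A}) ≤ p * (2 * p - 3) := by
  rw [c.D_diff hA h]
  have := hD P hP
  linarith

variable (ih : ThB G p Γ.ncard)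
include ih

theorem Dsub (hD : LH p K Γ) {A P : Subgroup G} (hA : A ∈ Γ) (hP : Syl p P K) (h : P ≤ A)
    {S : Set (Subgroup G)} (hS : S ⊆ Γ \ {A}) (hS' : INV A S) :
    D p P S ≤ p * (2 * p - 3) := by
  refine le_trans (D_le (c.INV_diff hA) hS' hS fun B hB => ?_) (c.Dtot hD hA hP h)
  exact (c.IH ih hA hB.1.1 hB.1.2 le_rfl (c.genA hA) (c.syl_le hP hA h)
    (c.ne_of hA hB.1.1 hB.1.2)).1

theorem D_bad {A P : Subgroup G} (hA : A ∈ Γ) (hP : Syl p P K) (h : P ≤ A) {B : Subgroup G}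
    (hB : B ∈ Θ p Γ A) : (p : ℤ) * (p - 1) ≤ D p P (orb A B) := by
  by_contra hlt
  push Not at hlt
  exact hB.2.2 ((c.IH ih hA hB.1 hB.2.1 le_rfl (c.genA hA) (c.syl_le hP hA h)
    (c.ne_of hA hB.1 hB.2.1)).2 hlt)

theorem bad_unique (hD : LH p K Γ) {A B C : Subgroup G} (hA : A ∈ Γ) (hB : B ∈ Θ p Γ A)
    (hC : C ∈ Θ p Γ A) : C ∈ orb A B := by
  by_contra hno
  obtain ⟨P, hP, hPA⟩ := c.exists_syl hA
  have hdis : Disjoint (orb A B) (orb A C) := by
    rw [Set.disjoint_left]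
    intro z hz hz'
    exact hno (orb_trans hz (orb_symm hz'))
  have h1 := c.Dsub ih hD hA hP hPA (S := orb A B ∪ orb A C)
    (Set.union_subset (c.orb_sub hA hB.1 hB.2.1) (c.orb_sub hA hC.1 hC.2.1))
    ((INV_orb _ _).union (INV_orb _ _))
  rw [D_union p P hdis] at h1
  have h2 := c.D_bad ih hA hP hPA hB
  have h3 := c.D_bad ih hA hP hPA hC
  have hp : (2 : ℤ) ≤ p := by exact_mod_cast (Fact.out : p.Prime).two_le
  nlinarith

theorem Θ_eq (hD : LH p K Γ) {A B : Subgroup G} (hA : A ∈ Γ) (hB : B ∈ Θ p Γ A) :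
    Θ p Γ A = orb A B :=
  Set.Subset.antisymm (fun _ hC => c.bad_unique ih hD hA hB hC)
    ((c.Θ_invA hA).orb_subset hB)

theorem bad_max (hD : LH p K Γ) {A B : Subgroup G} (hA : A ∈ Γ) (hB : B ∈ Θ p Γ A) :
    ∀ C, st A B ≤ C → C ≤ A → C = st A B ∨ C = A := by
  intro C h1 h2
  by_contra hno
  push Not at hno
  obtain ⟨P, hP, hPA⟩ := c.exists_syl hA
  have h3 := (IMP (c.genA hA) (c.syl_le hP hA hPA) (x := B)
    (ih.mono (c.orb_lt hA hB.1 hB.2.1 le_rfl).le) h1 h2 hno.1 hno.2).2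
  have h4 := c.Dsub ih hD hA hP hPA (c.orb_sub hA hB.1 hB.2.1) (INV_orb _ _)
  have hp : (2 : ℤ) ≤ p := by exact_mod_cast (Fact.out : p.Prime).two_le
  have h5 := h3 (by nlinarith)
  rw [c.O_st hB.1 (c.le hA)] at h5
  exact hB.2.2 h5

/-- symmetry of badness -/
theorem bad_symm (hD : LH p K Γ) {A B : Subgroup G} (hA : A ∈ Γ) (hB : B ∈ Θ p Γ A) :
    A ∈ Θ p Γ B := by
  by_contra hno
  obtain ⟨P, hP, hPA⟩ := c.exists_syl hA
  obtain ⟨k, hk, hkB⟩ := c.trans A hA B hB.1
  have hk' := K.inv_mem hk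
  set C := k⁻¹ • A with hC
  have hkC : k • C = A := smul_inv_smul _ _
  have hCΓ : C ∈ Γ := c.inv _ hk' _ hA
  have hCA : C ≠ A := by
    intro e
    apply hB.2.1
    rw [← hkB]
    rw [e] at hkC
    exact hkC
  -- `(C, A)` is bad
  have hbad : A ∈ Θ p Γ C := by
    have := c.Θ_smul hk' hB
    rwa [← hC, ← hkB, inv_smul_smul] at this
  have hnbad : C ∉ Θ p Γ A := by
    intro h
    obtain ⟨a, ha, haC⟩ := c.bad_unique ih hD hA hB h
    apply hno
    have := c.Θ_smul (K.inv_mem (c.le hA ha)) hbad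
    rw [← haC, inv_smul_smul, cj_self (A.inv_mem ha)] at this
    exact this
  have hPK := hP.of_le (hPA.trans (c.A_le_st hA)) (st_le _ _)
  have hdis : Disjoint (orb (st K A) C) (orb (st K A) B) := by
    rw [Set.disjoint_left]
    intro z hz hz'
    obtain ⟨l, hl, hl'⟩ := orb_trans hz' (orb_symm hz)
    apply hnbad
    rw [← hl']
    exact c.Θ_inv l hl B hB
  have hst : st (st K A) B = k • st (st K A) C := by
    ext g
    rw [mem_cj]
    simp only [mem_st, mul_smul, hkB, hkC, inv_smul_eq_iff]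
    have hiff : k⁻¹ * g * k ∈ K ↔ g ∈ K := by
      constructor
      · intro h
        have := K.mul_mem (K.mul_mem hk h) hk'
        convert this using 1; group
      · intro h; exact K.mul_mem (K.mul_mem hk' h) hk
    tauto
  have hcard : (orb (st K A) C).ncard = (orb (st K A) B).ncard := by
    rw [ncard_orb, ncard_orb]
    have h1 := card_relIndex (st_le (st K A) C)
    have h2 := card_relIndex (st_le (st K A) B)
    rw [hst, card_cj, ← h1] at h2
    have := Nat.eq_of_mul_eq_mul_left Nat.card_pos h2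
    rw [hst]; exact this.symm
  have hfx : (fx P (orb (st K A) C)).ncard = (fx P (orb (st K A) B)).ncard := by
    have f1 := FIX hPK C
    have f2 := FIX hPK B
    rw [hst, nu_cj, ← hcard, ← f1] at f2
    exact (Nat.eq_of_mul_eq_mul_right (nu_pos hPK.1) f2).symm
  have hDD : D p P (orb (st K A) C) = D p P (orb (st K A) B) := by
    unfold D W; rw [hcard, hfx]
  have hB1 : orb (st K A) B = orb A B := by
    apply Set.Subset.antisymm
    · rintro z ⟨l, hl, rfl⟩
      exact c.bad_unique ih hD hA hB (c.Θ_inv l hl B hB)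
    · exact orb_mono (c.A_le_st hA) B
  have hsub : ∀ X ∈ Γ, X ≠ A → orb (st K A) X ⊆ Γ \ {A} := by
    rintro X hX hXA z ⟨l, hl, rfl⟩
    refine ⟨c.inv l (mem_st.1 hl).1 X hX, fun e => hXA ?_⟩
    have e' : l • X = A := e
    have : l • X = l • A := by rw [e', (mem_st.1 hl).2]
    exact smul_left_cancel _ this
  have h1 := c.Dsub ih hD hA hP hPA (S := orb (st K A) C ∪ orb (st K A) B)
    (Set.union_subset (hsub C hCΓ hCA) (hsub B hB.1 hB.2.1))
    (((INV_orb _ _).union (INV_orb _ _)).mono (c.A_le_st hA))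
  rw [D_union p P hdis, hDD, hB1] at h1
  have h2 := c.D_bad ih hA hP hPA hB
  have hp : (2 : ℤ) ≤ p := by exact_mod_cast (Fact.out : p.Prime).two_le
  nlinarith

/-- the meet with a bad point is in no point -/
theorem NL (hD : LH p K Γ) {A B P T : Subgroup G} (hA : A ∈ Γ) (hB : B ∈ Θ p Γ A)
    (hP : Syl p P K) (hPA : P ≤ A) (hPB : P ≤ B) (hT : Pt p A T) : ¬ mt p A B ≤ T := by
  intro hle
  have hPN : P ≤ mt p A B := le_mt hP.gen hPA hPB
  have hPT : P ≤ T := hPN.trans hle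
  have hTA := hT.le
  have hTK := hTA.trans (c.le hA)
  have hsA := c.syl_le hP hA hPA
  have hsT := hsA.of_le hPT hTA
  have hN : mt p T B = mt p A B :=
    le_antisymm (le_mt (O_mt _ _) ((mt_le_left _ _).trans hTA) (mt_le_right _ _))
      (le_mt (O_mt _ _) hle (mt_le_right _ _))
  have hnT : ¬ T ≤ B := by
    intro h
    apply hB.2.2
    have : mt p A B = T := le_antisymm hle (le_mt hT.gen hTA h)
    rw [this]; exact hT
  have i1 := (c.IH ih hA hB.1 hB.2.1 hTA hT.gen hsT hnT).1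
  have hnA : ¬ A ≤ MulAction.stabilizer G B := c.not_stab hA hB.1 hB.2.1
  have hnT' : ¬ T ≤ MulAction.stabilizer G B := fun h => hnT (c.le_of_stab hB.1 hTK hT.gen h)
  obtain ⟨s, hs1, hs⟩ := orb_long (c.genA hA) hsA hnA
  obtain ⟨s3, hs31, hs3⟩ := orb_long hT.gen hsT hnT'
  have f1 := FIX hsA B
  have f2 := FIX hsT B
  have f3 := NU (c.genA hA) hT hsA
  have hc := hT.card_lt (c.genA hA)
  rw [← nu_O hsA.2.1 (st A B), c.O_st hB.1 (c.le hA)] at f1
  rw [← nu_O hsA.2.1 (st T B), c.O_st hB.1 hTK, hN] at f2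
  obtain ⟨i, hi⟩ : ∃ i : ℕ, (orb A T).ncard = p + i := ⟨_, (Nat.add_sub_cancel' hc.1.le).symm⟩
  rw [hi, Nat.add_sub_cancel_left] at f3
  have hfle : (fx P (orb T B)).ncard ≤ (fx P (orb A B)).ncard :=
    Set.ncard_le_ncard (fx_mono P (orb_mono hTA B)) (Set.toFinite _)
  have hf3 : 1 ≤ (fx P (orb T B)).ncard := by
    have : 0 < (fx P (orb T B)).ncard := by
      rw [Set.ncard_pos]; exact ⟨B, self_mem_orb _ _, c.le_stab hPB⟩
    exact this
  have hDA := c.Dsub ih hD hA hP hPA (c.orb_sub hA hB.1 hB.2.1) (INV_orb _ _)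
  rw [D_eq hs] at hDA
  rw [D_eq hs3] at i1
  set f := (fx P (orb A B)).ncard
  set g := (fx P (orb T B)).ncard
  have hnuA : 0 < nu (Nat.card P) A := nu_pos hPA
  have hp2 := (Fact.out : p.Prime).two_le
  have hp0 : 0 < p := by omega
  have key : f * (g + p * s3) * (p + i) = (f + p * s) * g * i := by
    apply Nat.eq_of_mul_eq_mul_right hnuA
    rw [hs] at f1
    rw [hs3] at f2
    calc f * (g + p * s3) * (p + i) * nu (Nat.card P) A
        = (g + p * s3) * (p + i) * (f * nu (Nat.card P) A) := by ring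
      _ = (g + p * s3) * (p + i) * ((f + p * s) * nu (Nat.card P) (mt p A B)) := by rw [f1]
      _ = (p + i) * (f + p * s) * ((g + p * s3) * nu (Nat.card P) (mt p A B)) := by ring
      _ = (p + i) * (f + p * s) * (g * nu (Nat.card P) T) := by rw [f2]
      _ = (f + p * s) * g * ((p + i) * nu (Nat.card P) T) := by ring
      _ = (f + p * s) * g * (i * nu (Nat.card P) A) := by rw [f3]
      _ = _ := by ring
  have hpz : (2 : ℤ) ≤ p := by exact_mod_cast hp2
  have key2 : (f : ℤ) * (g + s3 * (p + i)) = g * (i * s) := by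
    have k1 : (f : ℤ) * (g + p * s3) * (p + i) = (f + p * s) * g * i := by exact_mod_cast key
    have k2 : (p : ℤ) * ((f : ℤ) * (g + s3 * (p + i))) = p * (g * (i * s)) := by
      linear_combination k1
    exact mul_left_cancel₀ (by positivity) k2
  refine num1 (p := (p : ℤ)) (i := i) (f := f) (f3 := g) (s := s) (s3 := s3) hpz ?_ ?_ ?_ ?_ ?_ ?_
    key2 ?_
  · have : 1 ≤ i := by omega
    exact_mod_cast this
  · have : i + 1 ≤ p := by omega
    have h' : (i : ℤ) + 1 ≤ p := by exact_mod_cast this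
    linarith
  · exact_mod_cast hfle
  · exact_mod_cast hf3
  · exact_mod_cast hs31
  · have : (0 : ℤ) ≤ ((p : ℤ) - 1) * s3 - g := by
      by_contra hneg
      push Not at hneg
      have := mul_neg_of_pos_of_neg (show (0 : ℤ) < p by linarith) hneg
      linarith
    linarith
  · exact le_of_mul_le_mul_left hDA (by linarith)

end Ctx

end Cfsg.Agent.H33.SF
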