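import Cfsg.Agent.H33.SFAlpha

/-! The level theorem, first part (continued). -/

set_option autoImplicit false
set_option linter.unusedSectionVars false
set_option linter.unusedVariables false

namespace Cfsg.Agent.H33.SF

open scoped Pointwise

universe u
variable {G : Type u} [Group G] {p : ℕ} [Finite G] [Fact p.Prime]

theorem INV_sup {Ω : Type*} [MulAction G Ω] {T T' : Subgroup G} {S : Set Ω} (h : INV T S)
    (h' : INV T' S) : INV (T ⊔ T') S := by
  rw [INV_iff] at h h' ⊢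
  exact sup_le h h'

namespace Ctx
variable {K : Subgroup G} {Γ : Set (Subgroup G)} (c : Ctx p K Γ)
include c
variable (ih : ThB G p Γ.ncard)
include ih

theorem nofix (hD : LH p K Γ) {A P : Subgroup G} (hA : A ∈ Γ) (hP : Syl p P K) (hPA : P ≤ A)
    (h0 : ∀ Z ∈ Θ p Γ A, ¬ P ≤ Z) {B C : Subgroup G} (hB : B ∈ Θ p Γ A) (hC : C ∈ Θ p Γ A) :
    C ∈ orb P B := by
  by_contra hno
  have hPK := hP.1
  have hBC := c.bad_unique ih hD hA hB hC
  have hst : ∀ Z ∈ Θ p Γ A, ¬ P ≤ MulAction.stabilizer G Z := fun Z hZ h =>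
    h0 Z hZ (c.le_of_stab hZ.1 hPK hP.gen h)
  have hdis : Disjoint (orb P B) (orb P C) := by
    rw [Set.disjoint_left]
    intro z hz hz'
    exact hno (orb_trans hz (orb_symm hz'))
  have hsub : orb P B ∪ orb P C ⊆ orb A B := by
    apply Set.union_subset (orb_mono hPA B)
    rw [← SF.orb_eq hBC]; exact orb_mono hPA C
  have hc := Set.ncard_le_ncard hsub (Set.toFinite _)
  rw [Set.ncard_union_eq hdis (Set.toFinite _) (Set.toFinite _)] at hc
  have c1 := p_le_orb' hP.gen (hst B hB)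
  have c2 := p_le_orb' hP.gen (hst C hC)
  have hDA := c.Dsub ih hD hA hP hPA (c.orb_sub hA hB.1 hB.2.1) (INV_orb _ _)
  have hfx : fx P (orb A B) = ∅ := by
    rw [Set.eq_empty_iff_forall_notMem]
    rintro Z ⟨hZ, hZ'⟩
    rw [← c.Θ_eq ih hD hA hB] at hZ
    exact hst Z hZ hZ'
  have hDe : D p P (orb A B) = ((p : ℤ) - 1) * (orb A B).ncard := by
    unfold D W; rw [hfx]; simp
  have hp : (2 : ℤ) ≤ p := by exact_mod_cast (Fact.out : p.Prime).two_le
  have h2 : 2 * (p : ℤ) ≤ (orb A B).ncard := by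
    have : 2 * p ≤ (orb A B).ncard := by omega
    exact_mod_cast this
  rw [hDe] at hDA
  nlinarith

theorem TR (hD : LH p K Γ) {A P T : Subgroup G} (hA : A ∈ Γ) (hP : Syl p P K) (hPT : P ≤ T)
    (hT : Pt p A T) {B C : Subgroup G} (hB : B ∈ Θ p Γ A) (hC : C ∈ Θ p Γ A) :
    ∃ s ∈ st A T, s • B = C := by
  have hPA := hPT.trans hT.le
  by_cases h0 : ∃ Z ∈ Θ p Γ A, P ≤ Z
  · obtain ⟨Z, hZ, hPZ⟩ := h0
    have key : ∀ Z₁ ∈ Θ p Γ A, ∃ s ∈ st A T, s • Z = Z₁ := by
      intro Z₁ hZ₁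
      obtain ⟨a, ha, haZ⟩ := c.bad_unique ih hD hA hZ hZ₁
      have m2 : a⁻¹ • T ∈ orb A T := smul_mem_orb (A.inv_mem ha) T
      obtain ⟨x, hx, hx'⟩ := N4 (c.genA hA) hT (mt_le_left A Z) (O_mt A Z) (self_mem_orb A T) m2
        (c.NL ih hD hA hZ hP hPA hPZ hT) (c.NL ih hD hA hZ hP hPA hPZ (hT.of_orb m2))
      refine ⟨a * x, mem_st.2 ⟨A.mul_mem ha (mt_le_left _ _ hx), ?_⟩, ?_⟩
      · rw [mul_smul, hx', smul_inv_smul]
      · rw [mul_smul, cj_self (mt_le_right A Z hx), haZ]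
    obtain ⟨s1, hs1, hs1'⟩ := key B hB
    obtain ⟨s2, hs2, hs2'⟩ := key C hC
    refine ⟨s2 * s1⁻¹, (st A T).mul_mem hs2 ((st A T).inv_mem hs1), ?_⟩
    rw [mul_smul, ← hs1', inv_smul_smul, hs2']
  · push Not at h0
    obtain ⟨g, hg, hg'⟩ := c.nofix ih hD hA hP hPA h0 hB hC
    exact ⟨g, hT.le_st (hPT hg), hg'⟩

theorem CL1 (hD : LH p K Γ) {A P T T' C : Subgroup G} (hA : A ∈ Γ) (hP : Syl p P K) (hPT : P ≤ T)
    (hPT' : P ≤ T') (hT : Pt p A T) (hT' : T' ∈ orb A T) (hne : T ≠ T') (hC : C ∈ Θ p Γ A)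
    (hPC : P ≤ C) (h1 : Pt p T (mt p T C)) (h2 : Pt p T' (mt p T' C)) : ¬ mt p T T' ≤ C := by
  intro hle
  have hTp := hT.of_orb hT'
  have hPA := hPT.trans hT.le
  have gA := c.genA hA
  have sA := c.syl_le hP hA hPA
  have n1 : ¬ T ≤ T' := fun e => hne (SF.A gA hT hTp e)
  have n2 : ¬ T' ≤ T := fun e => hne (SF.A gA hTp hT e).symm
  have q1 : Pt p T (mt p T T') := M gA sA hTp hT.le hT.gen hPT hPT' n1
  have q2 : Pt p T' (mt p T' T) := M gA sA hT hTp.le hTp.gen hPT' hPT n2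
  have e1 : mt p T T' = mt p T C := SF.A hT.gen q1 h1 (le_mt (O_mt _ _) (mt_le_left _ _) hle)
  have e2 : mt p T' T = mt p T' C := SF.A hTp.gen q2 h2
    (le_mt (O_mt _ _) (mt_le_left _ _) (by rwa [mt_comm]))
  have l1 := c.NL ih hD hA hC hP hPA hPC hT
  have l2 := c.NL ih hD hA hC hP hPA hPC hTp
  obtain ⟨x, hx, hx'⟩ := N4 gA hT (mt_le_left A C) (O_mt A C) (self_mem_orb A T) hT' l1 l2
  have aux : ∀ S, S ≤ A → mt p (mt p A C) S = mt p S C := fun S hS =>
    le_antisymm (le_mt (O_mt _ _) (mt_le_right _ _) ((mt_le_left _ _).trans (mt_le_right _ _)))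
      (le_mt (O_mt _ _) (le_mt (O_mt _ _) ((mt_le_left _ _).trans hS) (mt_le_right _ _))
        (mt_le_left _ _))
  have e3 : x • mt p (mt p A C) T = mt p (mt p A C) T := by
    rw [cj_mt, cj_self hx, hx', aux T' hTp.le, aux T hT.le, ← e2, ← e1, mt_comm]
  have := M' gA sA hT (mt_le_left A C) (O_mt A C) (le_mt hP.gen hPA hPC) hPT l1 hx e3
  exact hne (this.symm.trans hx')

theorem CL2 (hD : LH p K Γ) {A P T T' C : Subgroup G} (hA : A ∈ Γ) (hP : Syl p P K) (hPT : P ≤ T)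
    (hPT' : P ≤ T') (hT : Pt p A T) (hT' : T' ∈ orb A T) (hne : T ≠ T') (hC : C ∈ Θ p Γ A)
    (hPC : P ≤ C) (h1 : ∀ X ∈ Θ p Γ A, Pt p T (mt p T X))
    (h2 : ∀ X ∈ Θ p Γ A, Pt p T' (mt p T' X))
    (hcard : (orb T' C).ncard = (orb T C).ncard)
    (hall : ∀ C' ∈ orb T' C, mt p T' C' = mt p T' C → C' ∈ orb T C) :
    ∀ X ∈ Θ p Γ A, X ∈ orb T C := by
  have hTp := hT.of_orb hT'
  have hPA := hPT.trans hT.le
  have gA := c.genA hA
  have hR : mt p T T' ≤ T' := mt_le_right _ _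
  have hPR : P ≤ mt p T T' := le_mt hP.gen hPT hPT'
  have hinv := c.Θ_invA hA
  have hsub : orb T' C ⊆ orb T C := by
    rintro X hX
    obtain ⟨t, ht, htX⟩ := id hX
    have hXΘ : X ∈ Θ p Γ A := by rw [← htX]; exact hinv t (hTp.le ht) C hC
    have hmX : mt p T' X = t • mt p T' C := by rw [cj_mt, cj_self ht, htX]
    have r1 : ¬ mt p T T' ≤ mt p T' C := fun h =>
      c.CL1 ih hD hA hP hPT hPT' hT hT' hne hC hPC (h1 C hC) (h2 C hC)
        (h.trans (mt_le_right _ _))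
    have r2 : ¬ mt p T T' ≤ t • mt p T' C := by
      intro h
      rw [← hmX] at h
      have h' := h.trans (mt_le_right _ _)
      exact c.CL1 ih hD hA hP hPT hPT' hT hT' hne hXΘ (hPR.trans h') (h1 X hXΘ) (h2 X hXΘ) h'
    obtain ⟨r, hr, hr'⟩ := N4 hTp.gen (h2 C hC) hR (O_mt _ _) (self_mem_orb _ _)
      (smul_mem_orb ht _) r1 r2
    have hrT' : r ∈ T' := hR hr
    have m1 : r⁻¹ • X ∈ orb T' C := smul_mem_of_mem_orb (T'.inv_mem hrT') hX
    have m2 : mt p T' (r⁻¹ • X) = mt p T' C := by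
      have : mt p T' (r⁻¹ • X) = r⁻¹ • mt p T' X := by rw [cj_mt, cj_self (T'.inv_mem hrT')]
      rw [this, hmX, ← hr', inv_smul_smul]
    have m3 := hall _ m1 m2
    have := smul_mem_of_mem_orb (mt_le_left T T' hr) m3
    rwa [smul_inv_smul] at this
  have heq : orb T' C = orb T C :=
    Set.eq_of_subset_of_ncard_le hsub (by rw [hcard]) (Set.toFinite _)
  have hI : INV (T ⊔ T') (orb T C) := INV_sup (INV_orb _ _) (heq ▸ INV_orb _ _)
  have hsup : T ⊔ T' = A := by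
    by_contra hneA
    have := A2 gA hT (sup_le hT.le hTp.le) hneA le_sup_left
    have h3 : T' ≤ T := by
      rw [← this]; exact le_O hTp.gen le_sup_right
    exact hne (SF.A gA hTp hT h3).symm
  rw [hsup] at hI
  intro X hX
  exact hI.orb_subset (self_mem_orb T C) (c.bad_unique ih hD hA hC hX)

theorem no_case3 (hD : LH p K Γ) {A B T C C' : Subgroup G} {g : G} (hA : A ∈ Γ) (hB : B ∈ Γ)
    (hBA : B ≠ A) (hTe : mt p A B = T) (hT : Pt p A T) (hC : C ∈ Θ p Γ A) (hC' : C' ∈ Θ p Γ A)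
    (hCC : C' ∉ orb T C) (hg : g ∈ st A T) (hgB : g • B ≠ B) : False := by
  obtain ⟨P, hPA', hPT⟩ := hT.syl
  have hPA := hPA'.1
  have hP := c.syl_of hA hPA'
  have gA := c.genA hA
  have hpp := (Fact.out : p.Prime)
  have hp2 := hpp.two_le
  have hpz : (2 : ℤ) ≤ p := by exact_mod_cast hp2
  have hsT := hPA'.of_le hPT hT.le
  have hinv := c.Θ_invA hA
  -- comparison of `T`-orbits
  have sameT : ∀ X ∈ Θ p Γ A, (orb T X).ncard = (orb T C).ncard ∧
      (fx P (orb T X)).ncard = (fx P (orb T C)).ncard := by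
    intro X hX
    obtain ⟨s, hs, hsX⟩ := c.TR ih hD hA hP hPT hT hC hX
    have e : s • T = T := (mem_st.1 hs).2
    have := conj_orb (g := s) (x := C) hsT (by rw [e]; exact hsT)
    rwa [e, hsX] at this
  have sameD : ∀ X ∈ Θ p Γ A, D p P (orb T X) = D p P (orb T C) := by
    intro X hX
    unfold D W; rw [(sameT X hX).1, (sameT X hX).2]
  have hnT : ∀ X ∈ Θ p Γ A, ¬ T ≤ X := by
    intro X hX hle
    have h1 : T ≤ mt p A X := le_mt hT.gen hT.le hle
    have h2 : mt p A X ≠ A := fun e => c.ne_of hA hX.1 hX.2.1 (by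
      rw [← e]; exact mt_le_right _ _)
    have h3 := A2 gA hT (mt_le_left A X) h2 h1
    rw [O_mt] at h3
    exact hX.2.2 (h3 ▸ hT)
  have hpos : ∀ X ∈ Θ p Γ A, 0 ≤ D p P (orb T X) := fun X hX =>
    (c.IH ih hA hX.1 hX.2.1 hT.le hT.gen hsT (hnT X hX)).1
  have hΘ : D p P (Θ p Γ A) ≤ p * (2 * p - 3) := c.Dsub ih hD hA hP hPA c.Θ_sub hinv
  have hΘ' : (p : ℤ) * (p - 1) ≤ D p P (Θ p Γ A) := by
    rw [c.Θ_eq ih hD hA hC]; exact c.D_bad ih hA hP hPA hC
  have hdis : Disjoint (orb T C) (orb T C') := by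
    rw [Set.disjoint_left]
    intro z hz hz'
    exact hCC (orb_trans hz (orb_symm hz'))
  have h2D : 2 * D p P (orb T C) ≤ p * (2 * p - 3) := by
    have h1 : D p P (orb T C ∪ orb T C') ≤ D p P (Θ p Γ A) := by
      refine D_le (hinv.mono hT.le) ((INV_orb _ _).union (INV_orb _ _)) ?_
        fun X hX => hpos X hX.1
      exact Set.union_subset ((hinv.mono hT.le).orb_subset hC) ((hinv.mono hT.le).orb_subset hC')
    rw [D_union p P hdis, sameD C' hC'] at h1
    linarith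
  have hlt : D p P (orb T C) < p * (p - 1) := by nlinarith
  have hPt : ∀ X ∈ Θ p Γ A, Pt p T (mt p T X) := fun X hX =>
    (c.IH ih hA hX.1 hX.2.1 hT.le hT.gen hsT (hnT X hX)).2 (by rw [sameD X hX]; exact hlt)
  obtain ⟨s, hs⟩ := long hP.2.1 ((INV_orb T C).mono hPT)
  have hDe := D_eq (P := P) hs
  -- `p ≠ 2`
  have hp3 : 3 ≤ p := by
    by_contra hlt3
    have hp : p = 2 := by omega
    have h0 : D p P (orb T C) ≤ 0 := by
      rw [hDe] at h2D ⊢
      subst hp
      push_cast at h2D ⊢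
      omega
    have := D_nonpos (p := p) (P := P) (hinv.mono hT.le)
      (fun X hX => by rw [sameD X hX]; exact h0)
    nlinarith
  -- another point `T'` fixed by `P`
  have hOst : O p (st A B) = T := by rw [c.O_st hB (c.le hA), hTe]
  obtain ⟨T', ⟨hT'o, hT's⟩, hT'ne⟩ : ∃ T' ∈ fx P (orb A T), T' ≠ T := by
    apply Set.exists_ne_of_one_lt_ncard
    have h1 := (small gA hPA' (x := B) (by rw [hOst]; exact hT)).2.2
    rw [hOst] at h1
    have hm : 2 ≤ (st A B).relIndex (st A T) := by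
      have h2 := ri_pos (st A B) (st A T)
      have h3 : (st A B).relIndex (st A T) ≠ 1 := by
        rw [Ne, Subgroup.relIndex_eq_one]; exact fun h => hgB (mem_st.1 (h hg)).2
      omega
    have hdis2 : Disjoint (orb A B) (Θ p Γ A) := by
      rw [Set.disjoint_left]
      intro z hz hz'
      have : B ∈ Θ p Γ A := hinv.orb_subset hz' (orb_symm hz)
      exact this.2.2 (by rw [hTe]; exact hT)
    have h4 := c.Dsub ih hD hA hP hPA (S := orb A B ∪ Θ p Γ A)
      (Set.union_subset (c.orb_sub hA hB hBA) c.Θ_sub) ((INV_orb _ _).union hinv)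
    rw [D_union p P hdis2, h1] at h4
    have h5 := hT.fx_card gA hPA'
    have h6 := (hT.card_lt gA).2
    by_contra hle
    push Not at hle
    have h7 : ((orb A T).ncard : ℤ) ≤ p + 1 := by
      have : (orb A T).ncard ≤ p + 1 := by omega
      exact_mod_cast this
    have hmz : (2 : ℤ) ≤ ((st A B).relIndex (st A T) : ℤ) := by exact_mod_cast hm
    have h8 : (2 : ℤ) * p * (p - 2) ≤
        ((st A B).relIndex (st A T) : ℤ) * p * (2 * p - 1 - (orb A T).ncard) := by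
      apply mul_le_mul
      · nlinarith
      · linarith
      · linarith
      · positivity
    have hpz3 : (3 : ℤ) ≤ p := by exact_mod_cast hp3
    nlinarith
  have hTp := hT.of_orb hT'o
  have hPT' : P ≤ T' := hTp.le_of_st gA hP.gen (le_inf hPA hT's)
  have hsT' := hPA'.of_le hPT' hTp.le
  -- a point of `Θ` fixed by `P`
  obtain ⟨X, hX, hPX⟩ : ∃ X ∈ Θ p Γ A, P ≤ X := by
    by_contra hno
    push Not at hno
    exact hCC (orb_mono hPT C (c.nofix ih hD hA hP hPA hno hC hC'))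
  have hPt' : ∀ Z ∈ Θ p Γ A, Pt p T' (mt p T' Z) := by
    obtain ⟨a, ha, rfl⟩ := hT'o
    intro Z hZ
    have h1 := (hPt (a⁻¹ • Z) (hinv _ (A.inv_mem ha) Z hZ)).cj a
    rwa [cj_mt, smul_inv_smul] at h1
  have same' : (orb T' X).ncard = (orb T X).ncard ∧
      (fx P (orb T' X)).ncard = (fx P (orb T X)).ncard := by
    obtain ⟨a, ha, rfl⟩ := hT'o
    have h0 := hinv _ (A.inv_mem ha) X hX
    have h1 := conj_orb (g := a) (x := a⁻¹ • X) hsT hsT'
    rw [smul_inv_smul] at h1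
    exact ⟨h1.1.trans ((sameT _ h0).1.trans (sameT X hX).1.symm),
      h1.2.trans ((sameT _ h0).2.trans (sameT X hX).2.symm)⟩
  obtain ⟨Z, hZo, hZm, hZn⟩ : ∃ Z ∈ orb T' X, mt p T' Z = mt p T' X ∧ Z ∉ orb T X := by
    by_contra hno
    push Not at hno
    have := c.CL2 ih hD hA hP hPT hPT' hT hT'o hT'ne.symm hX hPX hPt hPt' same'.1 hno
    exact hCC (orb_trans (orb_symm (this C hC)) (this C' hC'))
  have hZΘ : Z ∈ Θ p Γ A := (hinv.mono hTp.le).orb_subset hX hZo
  have hPZ : P ≤ Z := by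
    have : P ≤ mt p T' Z := by rw [hZm]; exact le_mt hP.gen hPT' hPX
    exact this.trans (mt_le_right _ _)
  -- claim 1
  have cl : ∀ Y ∈ Θ p Γ A, P ≤ Y → ¬ mt p T T' ≤ Y := fun Y hY hPY =>
    c.CL1 ih hD hA hP hPT hPT' hT hT'o hT'ne.symm hY hPY (hPt Y hY) (hPt' Y hY)
  have n1 : ¬ T ≤ T' := fun e => hT'ne (SF.A gA hT hTp e).symm
  have q1 : Pt p T (mt p T T') := M gA hPA' hTp hT.le hT.gen hPT hPT' n1
  -- claim 3
  have hQ : mt p (mt p A X) (mt p A Z) ≤ T' := by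
    have hXA := hX.2.1
    obtain ⟨a, ha, haZ⟩ := c.bad_unique ih hD hA hX hZΘ
    have haN : a • mt p A X = mt p A Z := by rw [cj_mt, cj_self ha, haZ]
    have hNN : mt p A X ≠ mt p A Z := by
      intro e
      have ha' : a ∈ st A (mt p A X) := mem_st.2 ⟨ha, haN.trans e.symm⟩
      have hsub : st A X ≤ st A (mt p A X) := by
        intro y hy
        rw [mem_st] at hy ⊢
        exact ⟨hy.1, by rw [cj_mt, cj_self hy.1, hy.2]⟩
      rcases c.bad_max ih hD hA hX _ hsub (st_le _ _) with h | h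
      · rw [h] at ha'
        have : Z = X := by rw [← haZ]; exact (mem_st.1 ha').2
        rw [this] at hZn
        exact hZn (self_mem_orb _ _)
      · -- `mt A X` normal in `A`
        have hle : A ≤ mt p A X := by
          conv_lhs => rw [← gA]
          refine O_le_of fun y hy hpy => ?_
          obtain ⟨k, hk, hk'⟩ := PQ (K := A) (M := P) (isPGroup_zpowers hpy)
            (by rwa [Subgroup.zpowers_le]) hPA'.2.2
          rw [Subgroup.zpowers_le] at hk'
          have h3 : k • P ≤ k • mt p A X := cj_le.2 (le_mt hP.gen hPA hPX)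
          rw [(mem_st.1 (by rw [h]; exact hk : k ∈ st A (mt p A X))).2] at h3
          exact h3 hk'
        exact c.ne_of hA hX.1 hXA (hle.trans (mt_le_right _ _))
    have hPN : P ≤ mt p A X := le_mt hP.gen hPA hPX
    have l1 := c.NL ih hD hA hX hP hPA hPX hTp
    have q3 : Pt p (mt p A X) (mt p (mt p A X) T') :=
      M gA hPA' hTp (mt_le_left _ _) (O_mt _ _) hPN hPT' l1
    have h1 : mt p (mt p A X) T' ≤ mt p (mt p A X) (mt p A Z) := by
      refine le_mt (O_mt _ _) (mt_le_left _ _) ?_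
      have h2 : mt p (mt p A X) T' ≤ mt p T' X :=
        le_mt (O_mt _ _) (mt_le_right _ _) ((mt_le_left _ _).trans (mt_le_right _ _))
      rw [← hZm] at h2
      exact le_mt (O_mt _ _) ((mt_le_left _ _).trans (mt_le_left _ _))
        (h2.trans (mt_le_right _ _))
    have h2 : mt p (mt p A X) (mt p A Z) ≠ mt p A X := by
      intro e
      have h3 : mt p A X ≤ mt p A Z := by rw [← e]; exact mt_le_right _ _
      rw [← haN] at h3
      exact hNN ((eq_of_le_cj (T' := T) h3).symm.trans haN)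
    have h3 := A2 (O_mt A X) q3 (mt_le_left _ _) h2 h1
    rw [O_mt] at h3
    rw [h3]; exact mt_le_right _ _
  -- Lemma T in `T`
  have r12 : mt p T X ≠ mt p T T' := fun e => cl X hX hPX (by rw [← e]; exact mt_le_right _ _)
  have r13 : mt p T T' ≠ mt p T Z := fun e => cl Z hZΘ hPZ (by rw [e]; exact mt_le_right _ _)
  have r23 : mt p T X ≠ mt p T Z := by
    intro e
    have h1 : mt p T X ≤ T' := by
      refine le_trans (le_mt (O_mt _ _) ?_ ?_) hQ
      · exact le_mt (O_mt _ _) ((mt_le_left _ _).trans hT.le) (mt_le_right _ _)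
      · rw [e]
        exact le_mt (O_mt _ _) ((mt_le_left _ _).trans hT.le) (mt_le_right _ _)
    exact r12 (SF.A hT.gen (hPt X hX) q1 (le_mt (O_mt _ _) (mt_le_left _ _) h1))
  have hmm : mt p (mt p T X) (mt p T T') ≤ mt p T Z := by
    refine le_mt (O_mt _ _) ((mt_le_left _ _).trans (mt_le_left _ _)) ?_
    have : mt p (mt p T X) (mt p T T') ≤ mt p T' X :=
      le_mt (O_mt _ _) ((mt_le_right _ _).trans (mt_le_right _ _))
        ((mt_le_left _ _).trans (mt_le_right _ _))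
    rw [← hZm] at this
    exact this.trans (mt_le_right _ _)
  have pX : P ≤ mt p T X := le_mt hP.gen hPT hPX
  have pT : P ≤ mt p T T' := le_mt hP.gen hPT hPT'
  have pZ : P ≤ mt p T Z := le_mt hP.gen hPT hPZ
  have huniq : fx P (orb T (mt p T X)) ⊆ {mt p T X} := by
    rintro Y ⟨hY, hY'⟩
    have hYp := (hPt X hX).of_orb hY
    have hPY : P ≤ Y := hYp.le_of_st hT.gen hP.gen (le_inf hPT hY')
    exact TII hT.gen hsT (hPt X hX) q1 (hPt Z hZΘ) pX pT pZ r12 r23 r13 hmm hY hPY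
  have hcard1 : (orb T (mt p T X)).ncard ≤ p + 1 := by
    have h1 := (hPt X hX).fx_card hT.gen hsT
    have h2 := Set.ncard_le_ncard huniq (Set.toFinite _)
    rw [Set.ncard_singleton] at h2
    omega
  -- numbers
  have hOT : O p (st T X) = mt p T X := c.O_st hX.1 (hT.le.trans (c.le hA))
  have hOT' : O p (st T' X) = mt p T' X := c.O_st hX.1 (hTp.le.trans (c.le hA))
  obtain ⟨u1, u2, u3⟩ := small hT.gen hsT (x := X) (by rw [hOT]; exact hPt X hX)
  obtain ⟨v1, v2, v3⟩ := small hTp.gen hsT' (x := X) (by rw [hOT']; exact hPt' X hX)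
  rw [hOT] at u1 u2 u3
  rw [hOT'] at v1 v2 v3
  have w1 := (hPt X hX).card_lt hT.gen
  have w2 := (hPt' X hX).card_lt hTp.gen
  have hm' : 2 ≤ (st T' X).relIndex (st T' (mt p T' X)) := by
    obtain ⟨t, ht, htZ⟩ := hZo
    have h2 := ri_pos (st T' X) (st T' (mt p T' X))
    have h3 : (st T' X).relIndex (st T' (mt p T' X)) ≠ 1 := by
      rw [Ne, Subgroup.relIndex_eq_one]
      intro h
      have h4 : t ∈ st T' (mt p T' X) := mem_st.2 ⟨ht, by rw [cj_mt, cj_self ht, htZ, hZm]⟩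
      have h5 := (mem_st.1 (h h4)).2
      rw [htZ] at h5
      rw [h5] at hZn
      exact hZn (self_mem_orb _ _)
    omega
  have hmm2 : (st T' X).relIndex (st T' (mt p T' X)) = (st T X).relIndex (st T (mt p T X)) := by
    have e1 := same'.1
    have e2 := same'.2
    rw [u1, v1] at e1
    rw [u2, v2] at e2
    obtain ⟨i, hi⟩ : ∃ i : ℕ, (orb T (mt p T X)).ncard = p + i :=
      ⟨_, (Nat.add_sub_cancel' w1.1.le).symm⟩
    obtain ⟨j, hj⟩ : ∃ j : ℕ, (orb T' (mt p T' X)).ncard = p + j :=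
      ⟨_, (Nat.add_sub_cancel' w2.1.le).symm⟩
    rw [hi, hj] at e1
    rw [hi, hj, Nat.add_sub_cancel_left, Nat.add_sub_cancel_left] at e2
    rw [mul_add, mul_add, e2] at e1
    exact Nat.eq_of_mul_eq_mul_right hpp.pos (Nat.add_right_cancel e1)
  rw [hmm2] at hm'
  have h9 : 2 * D p P (orb T X) ≤ p * (2 * p - 3) := by rw [sameD X hX]; exact h2D
  rw [u3] at h9
  have hmz : (2 : ℤ) ≤ ((st T X).relIndex (st T (mt p T X)) : ℤ) := by exact_mod_cast hm'
  have hvz : ((orb T (mt p T X)).ncard : ℤ) ≤ p + 1 := by exact_mod_cast hcard1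
  have hpz3 : (3 : ℤ) ≤ p := by exact_mod_cast hp3
  have h10 : (2 : ℤ) * p * (p - 2) ≤ ((st T X).relIndex (st T (mt p T X)) : ℤ) * p *
      (2 * p - 1 - (orb T (mt p T X)).ncard) := by
    apply mul_le_mul
    · nlinarith
    · linarith
    · linarith
    · positivity
  nlinarith

/-- a subgroup of `A` fixing a good point and transitive on the bad points -/
theorem HT (hD : LH p K Γ) {A B : Subgroup G} (hA : A ∈ Γ) (hB : B ∈ Γ) (hBA : B ≠ A)
    (hT : Pt p A (mt p A B)) {C : Subgroup G} (hC : C ∈ Θ p Γ A) :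
    ∃ H ≤ A, H ≤ MulAction.stabilizer G B ∧ ∀ X ∈ Θ p Γ A, X ∈ orb H C := by
  by_cases h1 : ∃ C' ∈ Θ p Γ A, C' ∉ orb (mt p A B) C
  · obtain ⟨C', hC', hCC⟩ := h1
    by_cases h2 : ∃ g ∈ st A (mt p A B), g • B ≠ B
    · obtain ⟨g, hg, hgB⟩ := h2
      exact (c.no_case3 ih hD hA hB hBA rfl hT hC hC' hCC hg hgB).elim
    · push Not at h2
      obtain ⟨P, hPA, hPT⟩ := hT.syl
      refine ⟨st A (mt p A B), st_le _ _, fun g hg => MulAction.mem_stabilizer_iff.2 (h2 g hg),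
        fun X hX => ?_⟩
      exact c.TR ih hD hA (c.syl_of hA hPA) hPT hT hC hX
  · push Not at h1
    exact ⟨mt p A B, mt_le_left _ _, c.le_stab (mt_le_right _ _), h1⟩

theorem disj (hD : LH p K Γ) {A B C : Subgroup G} (hA : A ∈ Γ) (hB : B ∈ Γ) (hBA : B ≠ A)
    (hT : Pt p A (mt p A B)) (hCA : C ∈ Θ p Γ A) (hCB : C ∈ Θ p Γ B) : False := by
  have hT' : Pt p B (mt p B A) := by
    by_contra h
    exact (c.bad_symm ih hD hB ⟨hA, hBA.symm, h⟩).2.2 hT
  obtain ⟨H, hHA, hHB, hH⟩ := c.HT ih hD hA hB hBA hT hCA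
  obtain ⟨H', hHB', hHA', hH'⟩ := c.HT ih hD hB hA hBA.symm hT' hCB
  have heq : Θ p Γ A = Θ p Γ B := by
    apply Set.Subset.antisymm
    · intro X hX
      obtain ⟨h, hh, rfl⟩ := hH X hX
      exact c.Θ_inv h (le_inf (hHA.trans (c.le hA)) hHB hh) C hCB
    · intro X hX
      obtain ⟨h, hh, rfl⟩ := hH' X hX
      exact c.Θ_inv h (le_inf (hHB'.trans (c.le hB)) hHA' hh) C hCA
  have hsub : st K A ≤ st K (Θ p Γ A) := by
    intro k hk
    rw [mem_st] at hk ⊢
    exact ⟨hk.1, by rw [c.Θ_smul_set hk.1, hk.2]⟩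
  rcases c.mx A hA _ hsub (st_le _ _) with h | h
  · have h1 : B ≤ st K (Θ p Γ A) := by
      intro b hb
      rw [mem_st]
      refine ⟨c.le hB hb, ?_⟩
      rw [heq, c.Θ_smul_set (c.le hB hb), cj_self hb]
    rw [h] at h1
    exact c.ne_of hB hA hBA.symm (c.le_of_stab hA (c.le hB) (c.genA hB)
      (h1.trans inf_le_right))
  · obtain ⟨k, hk, hkC⟩ := c.trans A hA C hCA.1
    have h1 : k • Θ p Γ A = Θ p Γ A := (mem_st.1 (by rw [h]; exact hk : k ∈ st K (Θ p Γ A))).2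
    rw [c.Θ_smul_set hk, hkC] at h1
    rw [← h1] at hCA
    exact hCA.2.1 rfl

/-- if there is a bad pair then all pairs are bad -/
theorem all_bad (hD : LH p K Γ) {A B : Subgroup G} (hA : A ∈ Γ) (hB : B ∈ Θ p Γ A) :
    ∀ A' ∈ Γ, ∀ B' ∈ Γ, B' ≠ A' → B' ∈ Θ p Γ A' := by
  have hE : ∀ X Y, X ∈ Γ → Y ∈ Θ p Γ X → insert Y (Θ p Γ Y) ⊆ insert X (Θ p Γ X) := by
    intro X Y hX hY
    have hY' := c.bad_symm ih hD hX hY
    intro Z hZ
    rcases hZ with rfl | hZ
    · exact Or.inr hY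
    · by_cases hZX : Z = X
      · exact Or.inl hZX
      · right
        by_contra hno
        have hg : Pt p X (mt p X Z) := by
          by_contra h; exact hno ⟨hZ.1, hZX, h⟩
        exact c.disj ih hD hX hZ.1 hZX hg hY (c.bad_symm ih hD hY.1 hZ)
  have hEq : insert B (Θ p Γ B) = insert A (Θ p Γ A) :=
    Set.Subset.antisymm (hE A B hA hB) (hE B A hB.1 (c.bad_symm ih hD hA hB))
  have hsmul : ∀ k ∈ K, ∀ X, k • (insert X (Θ p Γ X)) = insert (k • X) (Θ p Γ (k • X)) := by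
    intro k hk X
    rw [← c.Θ_smul_set hk]
    exact Set.image_insert_eq
  have hsub : st K A ≤ st K (insert A (Θ p Γ A)) := by
    intro k hk
    rw [mem_st] at hk ⊢
    exact ⟨hk.1, by rw [hsmul k hk.1, hk.2]⟩
  have hall : ∀ X ∈ Γ, insert X (Θ p Γ X) = insert A (Θ p Γ A) := by
    rcases c.mx A hA _ hsub (st_le _ _) with h | h
    · obtain ⟨k, hk, hkB⟩ := c.trans A hA B hB.1
      have h1 : k ∈ st K (insert A (Θ p Γ A)) := by
        rw [mem_st]
        exact ⟨hk, by rw [hsmul k hk, hkB, hEq]⟩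
      rw [h, mem_st] at h1
      exact absurd (hkB.symm.trans h1.2) hB.2.1
    · intro X hX
      obtain ⟨k, hk, rfl⟩ := c.trans A hA X hX
      rw [← hsmul k hk]
      exact (mem_st.1 (by rw [h]; exact hk : k ∈ st K (insert A (Θ p Γ A)))).2
  intro A' hA' B' hB' hne
  have h1 : B' ∈ insert A' (Θ p Γ A') := by
    rw [hall A' hA', ← hall B' hB']; exact Set.mem_insert _ _
  rcases h1 with h | h
  · exact absurd h hne
  · exact h

end Ctx

end Cfsg.Agent.H33.SF
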