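import Mathlib

/-! Subgroups generated by `p`-elements, conjugation action on subgroups. -/

set_option autoImplicit false

namespace Cfsg.Agent.H33.SF

open scoped Pointwise

universe u

section act
variable {G : Type u} [Group G]

/-- conjugation action of a group on its subgroups -/
scoped instance cjAct : MulAction G (Subgroup G) :=
  MulAction.compHom (Subgroup G) (MulAut.conj : G →* MulAut G)

theorem smul_sub_def (g : G) (H : Subgroup G) : g • H = MulAut.conj g • H := rfl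

theorem mem_cj {g x : G} {H : Subgroup G} : x ∈ g • H ↔ g⁻¹ * x * g ∈ H := by
  rw [smul_sub_def, Subgroup.mem_pointwise_smul_iff_inv_smul_mem]
  simp [← map_inv, MulAut.smul_def]

theorem cj_mem {g x : G} {H : Subgroup G} (hx : x ∈ H) : g * x * g⁻¹ ∈ g • H := by
  rw [mem_cj]; convert hx using 1; group

theorem cj_le {g : G} {H K : Subgroup G} : g • H ≤ g • K ↔ H ≤ K := by
  constructor
  · intro h x hx
    have := h (cj_mem (g := g) hx)
    rw [mem_cj] at this
    convert this using 1; group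
  · intro h x hx
    rw [mem_cj] at hx ⊢
    exact h hx

theorem cj_inf (g : G) (H K : Subgroup G) : g • (H ⊓ K) = g • H ⊓ g • K := by
  ext x; simp only [mem_cj, Subgroup.mem_inf]

theorem cj_self {g : G} {H : Subgroup G} (h : g ∈ H) : g • H = H := by
  ext x; rw [mem_cj]
  constructor
  · intro hx
    have := H.mul_mem (H.mul_mem h hx) (H.inv_mem h)
    convert this using 1; group
  · intro hx
    exact H.mul_mem (H.mul_mem (H.inv_mem h) hx) h

theorem cj_le_iff {g : G} {H K : Subgroup G} : g • H ≤ K ↔ H ≤ g⁻¹ • K := by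
  rw [← cj_le (g := g) (H := H) (K := g⁻¹ • K), smul_inv_smul]

theorem le_cj_iff {g : G} {H K : Subgroup G} : H ≤ g • K ↔ g⁻¹ • H ≤ K := by
  rw [← cj_le (g := g) (H := g⁻¹ • H) (K := K), smul_inv_smul]

theorem card_cj (g : G) (H : Subgroup G) : Nat.card ↥(g • H) = Nat.card ↥H := by
  rw [smul_sub_def]
  exact Nat.card_congr (Subgroup.equivSMul (MulAut.conj g) H).toEquiv.symm

variable {Ω : Type*} [MulAction G Ω]

/-- stabilizer inside `K` -/
def st (K : Subgroup G) (x : Ω) : Subgroup G := K ⊓ MulAction.stabilizer G x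

theorem mem_st {K : Subgroup G} {x : Ω} {g : G} : g ∈ st K x ↔ g ∈ K ∧ g • x = x := by
  simp [st, Subgroup.mem_inf, MulAction.mem_stabilizer_iff]

theorem st_le (K : Subgroup G) (x : Ω) : st K x ≤ K := inf_le_left

theorem st_mono {H K : Subgroup G} (h : H ≤ K) (x : Ω) : st H x ≤ st K x :=
  inf_le_inf_right _ h

theorem st_st {H K : Subgroup G} (h : H ≤ K) (x : Ω) : H ⊓ st K x = st H x := by
  ext g; simp only [Subgroup.mem_inf, mem_st]
  exact ⟨fun h' => ⟨h'.1, h'.2.2⟩, fun h' => ⟨h'.1, h h'.1, h'.2⟩⟩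

theorem cj_st (k : G) (K : Subgroup G) (x : Ω) : k • st K x = st (k • K) (k • x) := by
  ext g
  rw [mem_cj, mem_st, mem_st, mem_cj]
  refine and_congr_right fun _ => ?_
  rw [mul_smul, mul_smul, inv_smul_eq_iff]

theorem st_smul {k : G} {K : Subgroup G} (hk : k ∈ K) (x : Ω) : st K (k • x) = k • st K x := by
  rw [cj_st, cj_self hk]

/-- orbit -/
def orb (K : Subgroup G) (x : Ω) : Set Ω := {y | ∃ k ∈ K, k • x = y}

theorem mem_orb {K : Subgroup G} {x y : Ω} : y ∈ orb K x ↔ ∃ k ∈ K, k • x = y := Iff.rfl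

theorem self_mem_orb (K : Subgroup G) (x : Ω) : x ∈ orb K x := ⟨1, K.one_mem, one_smul _ _⟩

theorem smul_mem_orb {K : Subgroup G} {k : G} (hk : k ∈ K) (x : Ω) : k • x ∈ orb K x :=
  ⟨k, hk, rfl⟩

theorem orb_eq_orbit (K : Subgroup G) (x : Ω) : orb K x = MulAction.orbit ↥K x := by
  ext y
  constructor
  · rintro ⟨k, hk, rfl⟩
    exact ⟨⟨k, hk⟩, rfl⟩
  · rintro ⟨⟨k, hk⟩, rfl⟩
    exact ⟨k, hk, rfl⟩

theorem ncard_orb (K : Subgroup G) (x : Ω) : (orb K x).ncard = (st K x).relIndex K := by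
  rw [orb_eq_orbit, st, Subgroup.inf_relIndex_left, Subgroup.relIndex, ← MulAction.index_stabilizer]
  congr 1

theorem orb_symm {K : Subgroup G} {x y : Ω} (h : y ∈ orb K x) : x ∈ orb K y := by
  obtain ⟨k, hk, rfl⟩ := h
  exact ⟨k⁻¹, K.inv_mem hk, inv_smul_smul _ _⟩

theorem orb_trans {K : Subgroup G} {x y z : Ω} (h : y ∈ orb K x) (h' : z ∈ orb K y) :
    z ∈ orb K x := by
  obtain ⟨k, hk, rfl⟩ := h
  obtain ⟨l, hl, rfl⟩ := h'
  exact ⟨l * k, K.mul_mem hl hk, mul_smul _ _ _⟩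

theorem orb_eq {K : Subgroup G} {x y : Ω} (h : y ∈ orb K x) : orb K y = orb K x := by
  ext z
  exact ⟨fun hz => orb_trans h hz, fun hz => orb_trans (orb_symm h) hz⟩

theorem orb_mono {H K : Subgroup G} (h : H ≤ K) (x : Ω) : orb H x ⊆ orb K x := by
  rintro y ⟨k, hk, rfl⟩
  exact ⟨k, h hk, rfl⟩

theorem smul_mem_of_mem_orb {K : Subgroup G} {k : G} (hk : k ∈ K) {x y : Ω} (h : y ∈ orb K x) :
    k • y ∈ orb K x := orb_trans h (smul_mem_orb hk y)

end act

section pgen
variable {G : Type u} [Group G] (p : ℕ)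

/-- `p`-elements -/
def pel (g : G) : Prop := ∃ n : ℕ, g ^ p ^ n = 1

/-- subgroup generated by the `p`-elements -/
def O (K : Subgroup G) : Subgroup G := Subgroup.closure {g | g ∈ K ∧ pel p g}

/-- the meet -/
def mt (A B : Subgroup G) : Subgroup G := O p (A ⊓ B)

variable {p}

theorem pel_conj {g h : G} (hg : pel p g) : pel p (h * g * h⁻¹) := by
  obtain ⟨n, hn⟩ := hg
  exact ⟨n, by rw [conj_pow, hn]; simp⟩

theorem O_le (K : Subgroup G) : O p K ≤ K :=
  (Subgroup.closure_le _).2 fun _ h => h.1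

theorem mem_O {K : Subgroup G} {g : G} (h : g ∈ K) (hp : pel p g) : g ∈ O p K :=
  Subgroup.subset_closure ⟨h, hp⟩

theorem O_mono {H K : Subgroup G} (h : H ≤ K) : O p H ≤ O p K :=
  Subgroup.closure_mono fun _ hx => ⟨h hx.1, hx.2⟩

theorem O_idem (K : Subgroup G) : O p (O p K) = O p K :=
  le_antisymm (O_le _) ((Subgroup.closure_le _).2 fun _ h => mem_O (mem_O h.1 h.2) h.2)

theorem le_O {H K : Subgroup G} (hH : O p H = H) (h : H ≤ K) : H ≤ O p K := by
  rw [← hH]; exact O_mono h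

theorem O_le_of {K L : Subgroup G} (h : ∀ g ∈ K, pel p g → g ∈ L) : O p K ≤ L :=
  (Subgroup.closure_le _).2 fun g hg => h g hg.1 hg.2

theorem cj_O (g : G) (K : Subgroup G) : g • O p K = O p (g • K) := by
  have key : ∀ (g : G) (K : Subgroup G), g • O p K ≤ O p (g • K) := by
    intro g K
    rw [cj_le_iff]
    refine O_le_of fun x hx hpx => ?_
    rw [mem_cj]
    refine mem_O ?_ ?_
    · rw [mem_cj]; convert hx using 1; group
    · have := pel_conj (h := g) hpx
      simpa using this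
  refine le_antisymm (key g K) ?_
  rw [le_cj_iff]
  have := key g⁻¹ (g • K)
  rwa [inv_smul_smul] at this

theorem mt_le_left (A B : Subgroup G) : mt p A B ≤ A := (O_le _).trans inf_le_left
theorem mt_le_right (A B : Subgroup G) : mt p A B ≤ B := (O_le _).trans inf_le_right

theorem le_mt {H A B : Subgroup G} (hH : O p H = H) (hA : H ≤ A) (hB : H ≤ B) : H ≤ mt p A B :=
  le_O hH (le_inf hA hB)

theorem mt_comm (A B : Subgroup G) : mt p A B = mt p B A := by rw [mt, mt, inf_comm]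

theorem O_mt (A B : Subgroup G) : O p (mt p A B) = mt p A B := O_idem _

theorem cj_mt (g : G) (A B : Subgroup G) : g • mt p A B = mt p (g • A) (g • B) := by
  rw [mt, mt, cj_O, cj_inf]

theorem mt_of_le {A B : Subgroup G} (hA : O p A = A) (h : A ≤ B) : mt p A B = A := by
  rw [mt, inf_eq_left.2 h, hA]

theorem pel_of_isPGroup [Fact p.Prime] {Q : Subgroup G} (hQ : IsPGroup p Q) {g : G} (hg : g ∈ Q) :
    pel p g := by
  obtain ⟨n, hn⟩ := hQ ⟨g, hg⟩
  exact ⟨n, by simpa [Subtype.ext_iff] using hn⟩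

theorem O_of_isPGroup [Fact p.Prime] {Q : Subgroup G} (hQ : IsPGroup p Q) : O p Q = Q :=
  le_antisymm (O_le _) fun _ hg => mem_O hg (pel_of_isPGroup hQ hg)

theorem isPGroup_zpowers {g : G} (hg : pel p g) : IsPGroup p (Subgroup.zpowers g) := by
  obtain ⟨n, hn⟩ := hg
  rintro ⟨x, hx⟩
  obtain ⟨k, rfl⟩ := Subgroup.mem_zpowers_iff.1 hx
  refine ⟨n, ?_⟩
  ext
  simp only [Subgroup.coe_pow, Subgroup.coe_one]
  rw [← zpow_natCast, ← zpow_mul, mul_comm, zpow_mul, zpow_natCast, hn, one_zpow]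

variable [Finite G] [Fact p.Prime]
set_option linter.unusedSectionVars false

theorem ri_pos (A B : Subgroup G) : 0 < A.relIndex B :=
  Nat.pos_of_dvd_of_pos (Subgroup.relIndex_dvd_card A B) Nat.card_pos

theorem card_relIndex {A B : Subgroup G} (h : A ≤ B) :
    Nat.card A * A.relIndex B = Nat.card B := by
  have := Subgroup.relIndex_mul_relIndex ⊥ A B bot_le h
  rwa [Subgroup.relIndex_bot_left, Subgroup.relIndex_bot_left] at this

/-- small index -/
theorem IDX {K M : Subgroup G} (hK : O p K = K) (h : M.relIndex K < p) : K ≤ M := by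
  rw [← hK]
  refine O_le_of fun g hg hpg => ?_
  have hQ := isPGroup_zpowers hpg
  have hQK : Subgroup.zpowers g ≤ K := by rwa [Subgroup.zpowers_le]
  have h1 : M.relIndex (Subgroup.zpowers g) ≤ M.relIndex K :=
    Subgroup.relIndex_le_of_le_right hQK (ri_pos M K).ne'
  obtain ⟨n, hn⟩ := IsPGroup.iff_card.1 hQ
  have h2 : M.relIndex (Subgroup.zpowers g) ∣ p ^ n := hn ▸ Subgroup.relIndex_dvd_card _ _
  obtain ⟨m, -, hm⟩ := (Nat.dvd_prime_pow Fact.out).1 h2
  rcases Nat.eq_zero_or_pos m with h0 | h0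
  · rw [h0, pow_zero, Subgroup.relIndex_eq_one, Subgroup.zpowers_le] at hm
    exact hm
  · exfalso
    have : p ^ 1 ≤ p ^ m := Nat.pow_le_pow_right (Fact.out : p.Prime).pos h0
    rw [pow_one] at this
    omega

/-- a `p`-subgroup of `K` is conjugate into a subgroup of index prime to `p` -/
theorem PQ {K M Q : Subgroup G} (hQ : IsPGroup p Q) (hQK : Q ≤ K)
    (hd : ¬ p ∣ M.relIndex K) : ∃ k ∈ K, Q ≤ k • M := by
  let Q' : Subgroup K := Q.subgroupOf K
  have hQ' : IsPGroup p Q' := hQ.comap_of_injective K.subtype K.subtype_injective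
  have := hQ'.nonempty_fixed_point_of_prime_not_dvd_card (↥K ⧸ M.subgroupOf K)
    (by rw [← Subgroup.index_eq_card]; exact hd)
  obtain ⟨x, hx⟩ := this
  obtain ⟨k, rfl⟩ := QuotientGroup.mk_surjective x
  refine ⟨k, k.2, fun g hg => ?_⟩
  have h1 := hx ⟨⟨g, hQK hg⟩, hg⟩
  have h2 : ((⟨g, hQK hg⟩ * k : K) : ↥K ⧸ M.subgroupOf K) = (k : ↥K ⧸ M.subgroupOf K) := h1
  rw [eq_comm, QuotientGroup.eq] at h2
  rw [mem_cj]
  simpa [Subgroup.mem_subgroupOf, mul_assoc] using h2

end pgen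

end Cfsg.Agent.H33.SF
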