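import Cfsg.Agent.H33.SFAlpha2

/-! The level theorem, second part: all orbits of small type. -/

set_option autoImplicit false
set_option linter.unusedSectionVars false
set_option linter.unusedVariables false

namespace Cfsg.Agent.H33.SF

open scoped Pointwise

universe u
variable {G : Type u} [Group G] {p : ℕ} [Finite G] [Fact p.Prime]

/-- a subgroup without fixed points on a class of points -/
theorem trpt {K T H P : Subgroup G} (hK : O p K = K) (hP : Syl p P K) (h : Pt p K T) (hH : H ≤ K)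
    (hH' : O p H = H) (hPH : P ≤ H) (hPT : P ≤ T) (hn : ∀ T₁ ∈ orb K T, ¬ H ≤ T₁) :
    (orb H (mt p H T)).ncard = (orb K T).ncard := by
  have e1 : orb H T = orb K T := by
    apply Set.Subset.antisymm (orb_mono hH T)
    intro T' hT'
    exact N4 hK h hH hH' (self_mem_orb _ _) hT' (hn _ (self_mem_orb _ _)) (hn _ hT')
  have e2 : st H (mt p H T) = st H T := by
    apply le_antisymm
    · intro x hx
      rw [mem_st] at hx ⊢
      exact ⟨hx.1, M' hK hP h hH hH' hPH hPT (hn _ (self_mem_orb _ _)) hx.1 hx.2⟩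
    · intro x hx
      rw [mem_st] at hx ⊢
      exact ⟨hx.1, by rw [cj_mt, cj_self hx.1, hx.2]⟩
  rw [← e1, ncard_orb, ncard_orb, e2]

namespace Ctx
variable {K : Subgroup G} {Γ : Set (Subgroup G)} (c : Ctx p K Γ)

/-- all pairs are good -/
def Good (p : ℕ) (Γ : Set (Subgroup G)) : Prop :=
  ∀ A ∈ Γ, ∀ B ∈ Γ, B ≠ A → Pt p A (mt p A B)

/-- no three distinct collinear points -/
def C2 (p : ℕ) (Γ : Set (Subgroup G)) : Prop :=
  ∀ A ∈ Γ, ∀ B ∈ Γ, ∀ C ∈ Γ, A ≠ B → A ≠ C → B ≠ C → ¬ mt p A B ≤ C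

include c

/-- block argument -/
theorem BLK (E : Subgroup G → Set (Subgroup G)) (hsmul : ∀ k ∈ K, ∀ X ∈ Γ, k • E X = E (k • X))
    (hself : ∀ X ∈ Γ, X ∈ E X) {A B : Subgroup G} (hA : A ∈ Γ) (hB : B ∈ Γ) (hAB : A ≠ B)
    (he : E A = E B) : ∀ X ∈ Γ, X ∈ E A := by
  have hsub : st K A ≤ st K (E A) := by
    intro k hk
    rw [mem_st] at hk ⊢
    exact ⟨hk.1, by rw [hsmul k hk.1 A hA, hk.2]⟩
  rcases c.mx A hA _ hsub (st_le _ _) with h | h
  · obtain ⟨k, hk, hkB⟩ := c.trans A hA B hB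
    have h1 : k ∈ st K (E A) := by
      rw [mem_st]
      exact ⟨hk, by rw [hsmul k hk A hA, hkB, he]⟩
    rw [h, mem_st] at h1
    exact absurd (h1.2.symm.trans hkB) hAB
  · intro X hX
    obtain ⟨k, hk, rfl⟩ := c.trans A hA X hX
    have h1 : k • E A = E A := (mem_st.1 (by rw [h]; exact hk : k ∈ st K (E A))).2
    rw [← h1]
    exact ⟨A, hself A hA, rfl⟩

theorem smul_ne {A B X : Subgroup G} {x : G} (hx : x ∈ X) (h : A ≠ X) : x • A ≠ X := by
  intro e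
  apply h
  have : x • A = x • X := by rw [e, cj_self hx]
  exact smul_left_cancel _ this

theorem line (hG : Good p Γ) {A B C : Subgroup G} (hA : A ∈ Γ) (hB : B ∈ Γ) (hC : C ∈ Γ)
    (hAB : A ≠ B) (hAC : A ≠ C) (h : mt p A B ≤ C) : mt p A B = mt p A C :=
  SF.A (c.genA hA) (hG A hA B hB hAB.symm) (hG A hA C hC hAC.symm)
    (le_mt (O_mt _ _) (mt_le_left _ _) h)

/-- points on a line -/
theorem lset (hG : Good p Γ) {A B C C' : Subgroup G} (hA : A ∈ Γ) (hB : B ∈ Γ) (hAB : A ≠ B)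
    (hC : C ∈ Γ) (hC' : C' ∈ Γ) (hl : mt p A B ≤ C) (hl' : mt p A B ≤ C') (hne : C ≠ C') :
    mt p C C' = mt p A B := by
  by_cases hCA : C = A
  · subst hCA
    exact (c.line hG hA hB hC' hAB hne hl').symm
  · have e1 : mt p A B = mt p A C := c.line hG hA hB hC hAB (Ne.symm hCA) hl
    by_cases hCA' : C' = A
    · subst hCA'
      rw [e1, mt_comm]
    · rw [e1, mt_comm A C] at hl' ⊢
      exact (c.line hG hC hA hC' hCA hne hl').symm

theorem exists_conj_fix (hG : Good p Γ) {A B P : Subgroup G} (hA : A ∈ Γ) (hB : B ∈ Γ)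
    (hBA : B ≠ A) (hP : Syl p P K) (hPA : P ≤ A) : ∃ k ∈ A, P ≤ k • mt p A B :=
  (hG A hA B hB hBA).pgroup hP.2.1 hPA

/-- the case where all lines have size two -/
theorem no_C2 (hG : Good p Γ) (h2 : C2 p Γ)
    (hs : ∀ P, Syl p P K → (fx P Γ).ncard + 2 * p ≤ Γ.ncard) (hne : Γ.Nonempty) : False := by
  obtain ⟨X₀, hX₀⟩ := hne
  obtain ⟨P, hP, hPX⟩ := c.exists_syl hX₀
  have hp2 := (Fact.out : p.Prime).two_le
  have hf1 : 1 ≤ (fx P Γ).ncard := by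
    have : 0 < (fx P Γ).ncard := by
      rw [Set.ncard_pos]; exact ⟨X₀, hX₀, c.le_stab hPX⟩
    exact this
  have hcard := hs P hP
  -- stabilizers
  have m1 : ∀ X ∈ Γ, ∀ W ∈ Γ, W ≠ X → ∀ x ∈ X, x • mt p X W = mt p X W → x • W = W := by
    intro X hX W hW hWX x hx he
    by_contra hno
    refine h2 X hX W hW (x • W) (c.inv x (c.le hX hx) W hW) hWX.symm
      (Ne.symm (c.smul_ne (B := X) hx hWX)) (Ne.symm hno) ?_
    have : mt p X W = mt p X (x • W) := by rw [← he, cj_mt, cj_self hx]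
    rw [this]; exact mt_le_right _ _
  have key : ∀ X ∈ Γ, ∀ Y ∈ Γ, ∀ W ∈ Γ, X ≠ Y → W ≠ X → W ≠ Y → ∀ Z ∈ orb X W, Z ≠ Y →
      Z ∈ orb (mt p X Y) W := by
    rintro X hX Y hY W hW hXY hWX hWY Z ⟨x, hx, rfl⟩ hZY
    have hZ : x • W ∈ Γ := c.inv x (c.le hX hx) W hW
    have hZX : x • W ≠ X := c.smul_ne (B := X) hx hWX
    have r1 : ¬ mt p X Y ≤ mt p X W := fun h =>
      h2 X hX Y hY W hW hXY hWX.symm hWY.symm (h.trans (mt_le_right _ _))
    have e1 : x • mt p X W = mt p X (x • W) := by rw [cj_mt, cj_self hx]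
    have r2 : ¬ mt p X Y ≤ x • mt p X W := fun h => by
      rw [e1] at h
      exact h2 X hX Y hY _ hZ hXY hZX.symm hZY.symm (h.trans (mt_le_right _ _))
    obtain ⟨y, hy, hy'⟩ := N4 (c.genA hX) (hG X hX W hW hWX) (mt_le_left X Y) (O_mt _ _)
      (self_mem_orb _ _) (smul_mem_orb hx _) r1 r2
    have h3 := m1 X hX W hW hWX (x⁻¹ * y) (X.mul_mem (X.inv_mem hx) (mt_le_left _ _ hy))
      (by rw [mul_smul, hy', inv_smul_smul])
    refine ⟨y, hy, ?_⟩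
    rw [mul_smul, inv_smul_eq_iff] at h3
    exact h3
  have sym : ∀ X ∈ Γ, ∀ Y ∈ Γ, ∀ W ∈ Γ, W ≠ X → W ≠ Y → ∀ Z ∈ orb X W, Z ≠ Y →
      Z ∈ orb Y W := by
    intro X hX Y hY W hW hWX hWY Z hZ hZY
    by_cases hXY : X = Y
    · subst hXY; exact hZ
    · exact orb_mono (mt_le_right _ _) W (key X hX Y hY W hW hXY hWX hWY Z hZ hZY)
  -- the relation
  let E : Subgroup G → Set (Subgroup G) := fun A =>
    insert A {B | B ∈ Γ ∧ ∃ X ∈ Γ, X ≠ A ∧ X ≠ B ∧ B ∈ orb X A}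
  have hEsmul' : ∀ k ∈ K, ∀ X, k • E X ⊆ E (k • X) := by
    rintro k hk X _ ⟨B, hB, rfl⟩
    rcases hB with rfl | ⟨hB, Y, hY, h1, h2', y, hy, rfl⟩
    · exact Set.mem_insert _ _
    · right
      refine ⟨c.inv k hk _ hB, k • Y, c.inv k hk Y hY, fun e => h1 (smul_left_cancel _ e),
        fun e => h2' (smul_left_cancel _ e), k * y * k⁻¹, cj_mem hy, ?_⟩
      simp [mul_smul]
  have hEsmul : ∀ k ∈ K, ∀ X ∈ Γ, k • E X = E (k • X) := by
    intro k hk X hX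
    apply Set.Subset.antisymm (hEsmul' k hk X)
    intro B hB
    refine ⟨k⁻¹ • B, ?_, smul_inv_smul _ _⟩
    have := hEsmul' k⁻¹ (K.inv_mem hk) (k • X) ⟨B, hB, rfl⟩
    rwa [inv_smul_smul] at this
  have four : ∀ A B C : Subgroup G, ∃ V ∈ Γ, V ≠ A ∧ V ≠ B ∧ V ≠ C := by
    intro A B C
    by_contra hno
    push Not at hno
    have hsub : Γ ⊆ {A, B, C} := by
      intro V hV
      by_contra hV'
      simp only [Set.mem_insert_iff, Set.mem_singleton_iff, not_or] at hV'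
      exact hV'.2.2 (hno V hV hV'.1 hV'.2.1)
    have h1 := Set.ncard_le_ncard hsub (Set.toFinite _)
    have h2 := Set.ncard_insert_le A {B, C}
    have h3 := Set.ncard_insert_le B {C}
    rw [Set.ncard_singleton] at h3
    omega
  have hEsub : ∀ A ∈ Γ, ∀ B ∈ E A, E B ⊆ E A := by
    intro A hA B hB C hC
    rcases hB with rfl | ⟨hB, X, hX, hXA, hXB, hBX⟩
    · exact hC
    rcases hC with rfl | ⟨hC, Y, hY, hYB, hYC, hCY⟩
    · exact Or.inr ⟨hB, X, hX, hXA, hXB, hBX⟩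
    by_cases hCA : C = A
    · exact Or.inl hCA
    obtain ⟨V, hV, hVA, hVB, hVC⟩ := four A B C
    right
    refine ⟨hC, V, hV, hVA, hVC, ?_⟩
    have h1 := sym X hX V hV A hA hXA.symm hVA.symm B hBX hVB.symm
    have h2 := sym Y hY V hV B hB hYB.symm hVB.symm C hCY hVC.symm
    exact orb_trans h1 h2
  have hEsymm : ∀ A ∈ Γ, ∀ B ∈ E A, A ∈ E B := by
    intro A hA B hB
    rcases hB with rfl | ⟨hB, X, hX, hXA, hXB, hBX⟩
    · exact Set.mem_insert _ _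
    · exact Or.inr ⟨hA, X, hX, hXB, hXA, orb_symm hBX⟩
  -- nontrivial
  obtain ⟨X₁, hX₁, h10, -, -⟩ := four X₀ X₀ X₀
  obtain ⟨B, hB, hBX⟩ : ∃ B ∈ orb X₁ X₀, B ≠ X₀ := by
    by_contra hno
    push Not at hno
    apply c.not_stab hX₁ hX₀ h10.symm
    intro g hg
    exact MulAction.mem_stabilizer_iff.2 (hno _ (smul_mem_orb hg X₀))
  have hBΓ : B ∈ Γ := (c.inv_le hX₁).orb_subset hX₀ hB
  have hBX₁ : B ≠ X₁ := by
    obtain ⟨x, hx, rfl⟩ := hB
    exact c.smul_ne (B := X₁) hx h10.symm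
  have hBE : B ∈ E X₀ := Or.inr ⟨hBΓ, X₁, hX₁, h10, hBX₁.symm, hB⟩
  have hEE : E X₀ = E B :=
    Set.Subset.antisymm (hEsub B hBΓ X₀ (hEsymm X₀ hX₀ B hBE)) (hEsub X₀ hX₀ B hBE)
  have hall := c.BLK E hEsmul (fun X _ => Set.mem_insert _ _) hX₀ hBΓ hBX.symm hEE
  have hall2 : ∀ A ∈ Γ, ∀ C ∈ Γ, C ∈ E A := by
    intro A hA C hC
    exact hEsub A hA X₀ (hEsymm X₀ hX₀ A (hall A hA)) (hall C hC)
  -- `X₀` is transitive on the rest
  obtain ⟨W, hW, hWX⟩ : ∃ W ∈ Γ, W ≠ X₀ := ⟨X₁, hX₁, h10⟩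
  have htr : Γ \ {X₀} ⊆ orb X₀ W := by
    rintro Z ⟨hZ, hZX⟩
    rcases hall2 W hW Z hZ with h | ⟨-, Y, hY, hYW, hYZ, hZY⟩
    · rw [h]; exact self_mem_orb _ _
    · exact sym Y hY X₀ hX₀ W hW hYW.symm hWX Z hZY hZX
  have hst : st X₀ W = st X₀ (mt p X₀ W) := by
    apply le_antisymm
    · intro x hx
      rw [mem_st] at hx ⊢
      exact ⟨hx.1, by rw [cj_mt, cj_self hx.1, hx.2]⟩
    · intro x hx
      rw [mem_st] at hx ⊢
      exact ⟨hx.1, m1 X₀ hX₀ W hW hWX x hx.1 hx.2⟩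
  have hlt : (orb X₀ W).ncard < 2 * p := by
    rw [ncard_orb, hst]
    exact ((hG X₀ hX₀ W hW hWX).spec (c.genA hX₀)).2.1
  have h1 := Set.ncard_le_ncard htr (Set.toFinite _)
  have h2 := Set.ncard_sdiff_singleton_add_one hX₀ (Set.toFinite Γ)
  omega

end Ctx

end Cfsg.Agent.H33.SF
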