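import Cfsg.Agent.H33.SFBeta

/-! The level theorem, second part (continued): lines with three points. -/

set_option autoImplicit false
set_option linter.unusedSectionVars false
set_option linter.unusedVariables false

namespace Cfsg.Agent.H33.SF

open scoped Pointwise

universe u
variable {G : Type u} [Group G] {p : ℕ} [Finite G] [Fact p.Prime]

namespace Ctx
variable {K : Subgroup G} {Γ : Set (Subgroup G)} (c : Ctx p K Γ)

/-- the line of a subgroup -/
def ln (Γ : Set (Subgroup G)) (N : Subgroup G) : Set (Subgroup G) := {C | C ∈ Γ ∧ N ≤ C}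

include c

theorem ln_smul {N : Subgroup G} {k : G} (hk : k ∈ K) : (ln Γ (k • N)).ncard = (ln Γ N).ncard := by
  symm
  apply Set.ncard_congr (fun (C : Subgroup G) _ => k • C)
  · intro C hC
    exact ⟨c.inv k hk C hC.1, cj_le.2 hC.2⟩
  · intro C C' _ _ h; exact smul_left_cancel _ h
  · intro C hC
    refine ⟨k⁻¹ • C, ⟨c.inv _ (K.inv_mem hk) C hC.1, ?_⟩, smul_inv_smul _ _⟩
    rw [← cj_le (g := k), smul_inv_smul]; exact hC.2

open Classical in
/-- the counting lemma for lines -/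
theorem Ylem (hG : Good p Γ) {A₀ B₀ P : Subgroup G} (hA₀ : A₀ ∈ Γ) (hB₀ : B₀ ∈ Γ)
    (hAB : A₀ ≠ B₀) (hP : Syl p P K) (hPN : P ≤ mt p A₀ B₀)
    (hv : ∀ C ∈ ln Γ (mt p A₀ B₀), (orb C (mt p A₀ B₀)).ncard = p + 1) :
    (ln Γ (mt p A₀ B₀)).ncard * ((ln Γ (mt p A₀ B₀)).ncard - 2) + 2 ≤
      p * ((ln Γ (mt p A₀ B₀)).ncard - 1) := by
  set N := mt p A₀ B₀ with hN
  have hp2 := (Fact.out : p.Prime).two_le
  have hAl : A₀ ∈ ln Γ N := ⟨hA₀, mt_le_left _ _⟩
  have hBl : B₀ ∈ ln Γ N := ⟨hB₀, mt_le_right _ _⟩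
  have two : ∀ C ∈ ln Γ N, ∃ C' ∈ ln Γ N, C' ≠ C := by
    intro C hC
    by_cases h : C = A₀
    · exact ⟨B₀, hBl, by rw [h]; exact hAB.symm⟩
    · exact ⟨A₀, hAl, Ne.symm h⟩
  have L : ∀ C ∈ ln Γ N, ∀ C' ∈ ln Γ N, C ≠ C' → mt p C C' = N := fun C hC C' hC' hne =>
    c.lset hG hA₀ hB₀ hAB hC.1 hC'.1 hC.2 hC'.2 hne
  have hPt : ∀ C ∈ ln Γ N, Pt p C N := by
    intro C hC
    obtain ⟨C', hC', hne⟩ := two C hC
    rw [← L C hC C' hC' hne.symm]
    exact hG C hC.1 C' hC'.1 hne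
  have hPC : ∀ C ∈ ln Γ N, P ≤ C := fun C hC => hPN.trans hC.2
  -- uniqueness of the point fixed by `P` in the class of `N`
  have uniq : ∀ C ∈ ln Γ N, ∀ T ∈ orb C N, P ≤ T → T = N := by
    intro C hC T hT hPT
    have h1 := (hPt C hC).fx_card (c.genA hC.1) (c.syl_le hP hC.1 (hPC C hC))
    rw [hv C hC] at h1
    have h2 : (fx P (orb C N)).ncard = 1 := by omega
    obtain ⟨a, ha⟩ := Set.ncard_eq_one.1 h2
    have h3 : T ∈ fx P (orb C N) := ⟨hT, c.le_stab hPT⟩
    have h4 : N ∈ fx P (orb C N) := ⟨self_mem_orb _ _, c.le_stab hPN⟩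
    rw [ha, Set.mem_singleton_iff] at h3 h4
    rw [h3, h4]
  let Y : Set (Subgroup G) := {W | W ∈ Γ ∧ ¬ N ≤ W ∧ ∀ n ∈ N, ¬ P ≤ n • W}
  have hYΓ : ∀ W ∈ Y, W ∈ Γ := fun W hW => hW.1
  have hYC : ∀ W ∈ Y, ∀ C ∈ ln Γ N, W ≠ C := by
    rintro W hW C hC rfl
    exact hW.2.1 hC.2
  -- characterization of `Y`
  have Y1 : ∀ C ∈ ln Γ N, ∀ W ∈ Γ, W ≠ C → mt p C W ∈ orb C N → mt p C W ≠ N → W ∈ Y := by
    intro C hC W hW hWC hm hne
    refine ⟨hW, fun hle => hne (L C hC W ⟨hW, hle⟩ hWC.symm), fun n hn hPn => hne ?_⟩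
    have hnC : n ∈ C := hC.2 hn
    have h1 : mt p C (n • W) = n • mt p C W := by rw [cj_mt, cj_self hnC]
    have h2 : P ≤ n • mt p C W := by rw [← h1]; exact le_mt hP.gen (hPC C hC) hPn
    have h3 := uniq C hC _ (smul_mem_of_mem_orb hnC hm) h2
    rw [← inv_smul_smul n (mt p C W), h3, cj_self (N.inv_mem hn)]
  have Y2 : ∀ C ∈ ln Γ N, ∀ W ∈ Y, mt p C W ∈ orb C N ∧ mt p C W ≠ N := by
    intro C hC W hW
    have hWC := hYC W hW C hC
    have hne : mt p C W ≠ N := fun e => hW.2.1 (by rw [← e]; exact mt_le_right _ _)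
    refine ⟨?_, hne⟩
    by_contra hno
    have hPtW := hG C hC.1 W hW.1 hWC
    obtain ⟨k, hk, hPk⟩ := hPtW.pgroup hP.2.1 (hPC C hC)
    have gC := c.genA hC.1
    have r : ∀ a ∈ C, ¬ N ≤ a • mt p C W := by
      intro a ha hle
      have h1 := SF.A gC (hPt C hC) (hPtW.of_orb (smul_mem_orb ha _)) hle
      apply hno
      refine ⟨a⁻¹, C.inv_mem ha, ?_⟩
      rw [h1, inv_smul_smul]
    obtain ⟨n, hn, hn'⟩ := N4 gC hPtW (hPt C hC).le (hPt C hC).gen (self_mem_orb _ _)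
      (smul_mem_orb hk _) (by have := r 1 C.one_mem; rwa [one_smul] at this) (r k hk)
    apply hW.2.2 n hn
    rw [← hn'] at hPk
    refine hPk.trans ?_
    rw [cj_le]; exact mt_le_right _ _
  -- sizes of lines
  have size : ∀ C ∈ ln Γ N, ∀ W ∈ Y, (ln Γ (mt p C W)).ncard = (ln Γ N).ncard := by
    intro C hC W hW
    obtain ⟨k, hk, hk'⟩ := (Y2 C hC W hW).1
    rw [← hk']
    exact c.ln_smul (c.le hC.1 hk)
  have hL2 : 2 ≤ (ln Γ N).ncard := by
    have h1 : ({A₀, B₀} : Set (Subgroup G)) ⊆ ln Γ N := by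
      intro x hx
      rcases hx with rfl | hx
      · exact hAl
      · rw [Set.mem_singleton_iff] at hx; rw [hx]; exact hBl
    have h2 := Set.ncard_le_ncard h1 (Set.toFinite _)
    rwa [Set.ncard_pair hAB] at h2
  -- upper bound
  have upper : Y.ncard ≤ p * ((ln Γ N).ncard - 1) := by
    have h1 : Y ⊆ ⋃ T ∈ (Set.toFinite (orb A₀ N \ {N})).toFinset, (ln Γ T \ {A₀}) := by
      intro W hW
      have h := Y2 A₀ hAl W hW
      simp only [Set.mem_iUnion]
      refine ⟨mt p A₀ W, ?_, ⟨hW.1, mt_le_right _ _⟩, hYC W hW A₀ hAl⟩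
      rw [Set.Finite.mem_toFinset]
      exact ⟨h.1, h.2⟩
    have h2 := Set.ncard_le_ncard h1 (Set.toFinite _)
    have h3 := Finset.set_ncard_biUnion_le (Set.toFinite (orb A₀ N \ {N})).toFinset
      (fun T => ln Γ T \ {A₀})
    have h4 : ∀ T ∈ (Set.toFinite (orb A₀ N \ {N})).toFinset,
        (ln Γ T \ {A₀}).ncard ≤ (ln Γ N).ncard - 1 := by
      intro T hT
      rw [Set.Finite.mem_toFinset] at hT
      obtain ⟨k, hk, rfl⟩ := hT.1
      have hkN : A₀ ∈ ln Γ (k • N) := by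
        refine ⟨hA₀, ?_⟩
        have : k • N ≤ k • A₀ := cj_le.2 hAl.2
        rwa [cj_self hk] at this
      have h5 := Set.ncard_sdiff_singleton_add_one hkN (Set.toFinite _)
      rw [c.ln_smul (c.le hA₀ hk)] at h5
      omega
    have h5 := Finset.sum_le_card_nsmul _ _ _ h4
    have h6 : (Set.toFinite (orb A₀ N \ {N})).toFinset.card = p := by
      rw [← Set.ncard_eq_toFinset_card]
      have := Set.ncard_sdiff_singleton_add_one (self_mem_orb A₀ N) (Set.toFinite _)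
      rw [hv A₀ hAl] at this
      omega
    rw [h6, smul_eq_mul] at h5
    exact h2.trans (h3.trans h5)
  -- an element of `Y`
  obtain ⟨y, hy⟩ : Y.Nonempty := by
    have h1 : 1 < (orb A₀ N).ncard := by rw [hv A₀ hAl]; omega
    obtain ⟨T, hT, hTN⟩ := Set.exists_ne_of_one_lt_ncard h1 N
    obtain ⟨k, hk, rfl⟩ := hT
    have h2 : mt p A₀ (k • B₀) = k • N := by rw [hN, cj_mt, cj_self hk]
    refine ⟨k • B₀, Y1 A₀ hAl _ (c.inv k (c.le hA₀ hk) _ hB₀)
      (c.smul_ne (B := A₀) hk hAB.symm) ?_ ?_⟩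
    · rw [h2]; exact smul_mem_orb hk _
    · rw [h2]; exact hTN
  obtain ⟨g, hg, hgy⟩ : ∃ g ∈ P, g • y ≠ y := by
    by_contra hno
    push Not at hno
    apply hy.2.2 1 N.one_mem
    rw [one_smul]
    exact c.le_of_stab hy.1 (hP.1) hP.gen
      (fun g hg => MulAction.mem_stabilizer_iff.2 (hno g hg))
  have hgN : g ∈ N := hPN hg
  have hgyY : g • y ∈ Y := by
    refine ⟨c.inv g (hP.1 hg) y hy.1, fun hle => hy.2.1 ?_, fun n hn h => ?_⟩
    · have : g⁻¹ • N ≤ y := by rw [cj_le_iff, inv_inv]; exact hle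
      rwa [cj_self (N.inv_mem hgN)] at this
    · rw [← mul_smul] at h
      exact hy.2.2 _ (N.mul_mem hn hgN) h
  -- lower bound
  let Bk : Subgroup G → Set (Subgroup G) := fun C => (ln Γ (mt p C y) \ {C}) \ {y}
  have bY : ∀ C ∈ ln Γ N, Bk C ⊆ Y := by
    rintro C hC W ⟨⟨⟨hW, hle⟩, hWC⟩, hWy⟩
    have h1 : mt p C y = mt p C W :=
      c.line hG hC.1 hy.1 hW (hYC y hy C hC).symm (Ne.symm hWC) hle
    have h2 := Y2 C hC y hy
    rw [h1] at h2
    exact Y1 C hC W hW hWC h2.1 h2.2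
  have bcard : ∀ C ∈ ln Γ N, (Bk C).ncard = (ln Γ N).ncard - 2 := by
    intro C hC
    have h1 : C ∈ ln Γ (mt p C y) := ⟨hC.1, mt_le_left _ _⟩
    have h2 : y ∈ ln Γ (mt p C y) \ {C} := ⟨⟨hy.1, mt_le_right _ _⟩, hYC y hy C hC⟩
    have h3 := Set.ncard_sdiff_singleton_add_one h1 (Set.toFinite _)
    have h4 := Set.ncard_sdiff_singleton_add_one h2 (Set.toFinite _)
    rw [size C hC y hy] at h3
    show ((ln Γ (mt p C y) \ {C}) \ {y}).ncard = _
    omega
  have bdis : ∀ C ∈ ln Γ N, ∀ C' ∈ ln Γ N, C ≠ C' → Disjoint (Bk C) (Bk C') := by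
    intro C hC C' hC' hne
    rw [Set.disjoint_left]
    rintro W ⟨⟨⟨hW, hle⟩, hWC⟩, hWy⟩ ⟨⟨⟨-, hle'⟩, hWC'⟩, -⟩
    have hyC := hYC y hy C hC
    have hyC' := hYC y hy C' hC'
    have e1 : mt p y C = mt p y W :=
      c.line hG hy.1 hC.1 hW hyC (Ne.symm hWy) (by rw [mt_comm]; exact hle)
    have e2 : mt p y C' = mt p y W :=
      c.line hG hy.1 hC'.1 hW hyC' (Ne.symm hWy) (by rw [mt_comm]; exact hle')
    have h1 : mt p C y ≤ mt p C C' := by
      refine le_mt (O_mt _ _) (mt_le_left _ _) ?_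
      rw [mt_comm, e1, ← e2]; exact mt_le_right _ _
    rw [L C hC C' hC' hne] at h1
    have h2 := SF.A (c.genA hC.1) (hG C hC.1 y hy.1 hyC) (hPt C hC) h1
    exact (Y2 C hC y hy).2 h2
  have bg : ∀ C ∈ ln Γ N, g • y ∉ Bk C := by
    rintro C hC ⟨⟨⟨hW, hle⟩, hWC⟩, -⟩
    have hyC := hYC y hy C hC
    have h1 : mt p C y = mt p C (g • y) :=
      c.line hG hC.1 hy.1 hW hyC.symm (Ne.symm hWC) hle
    have hgC : g ∈ C := hC.2 hgN
    have h2 : g • mt p C y = mt p C y := by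
      rw [cj_mt, cj_self hgC]; exact h1.symm
    have h3 : g ∈ mt p C y := by
      have h4 := ((hG C hC.1 y hy.1 hyC).spec (c.genA hC.1)).2.2
      have h5 : g ∈ O p (st C (mt p C y)) :=
        mem_O (mem_st.2 ⟨hgC, h2⟩) (pel_of_isPGroup hP.2.1 hg)
      rwa [h4] at h5
    exact hgy (cj_self (mt_le_right _ _ h3))
  have lower : (ln Γ N).ncard * ((ln Γ N).ncard - 2) + 2 ≤ Y.ncard := by
    let S := (Set.toFinite (ln Γ N)).toFinset
    let U : Finset (Subgroup G) := S.biUnion fun C => (Set.toFinite (Bk C)).toFinset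
    have hU : U.card = (ln Γ N).ncard * ((ln Γ N).ncard - 2) := by
      rw [Finset.card_biUnion]
      · have : ∀ C ∈ S, (Set.toFinite (Bk C)).toFinset.card = (ln Γ N).ncard - 2 := by
          intro C hC
          rw [Set.Finite.mem_toFinset] at hC
          rw [← Set.ncard_eq_toFinset_card]
          exact bcard C hC
        rw [Finset.sum_congr rfl this, Finset.sum_const, smul_eq_mul]
        congr 1
        rw [Set.ncard_eq_toFinset_card _ (Set.toFinite _)]
      · intro C hC C' hC' hne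
        have hC1 : C ∈ ln Γ N := (Set.Finite.mem_toFinset _).1 hC
        have hC1' : C' ∈ ln Γ N := (Set.Finite.mem_toFinset _).1 hC'
        have := bdis C hC1 C' hC1' hne
        rw [Function.onFun, Finset.disjoint_left]
        intro z hz hz'
        rw [Set.Finite.mem_toFinset] at hz hz'
        exact Set.disjoint_left.1 this hz hz'
    have h1 : y ∉ U := by
      intro h
      rw [Finset.mem_biUnion] at h
      obtain ⟨C, -, h⟩ := h
      rw [Set.Finite.mem_toFinset] at h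
      exact h.2 rfl
    have h2 : g • y ∉ insert y U := by
      intro h
      rw [Finset.mem_insert] at h
      rcases h with h | h
      · exact hgy h
      · rw [Finset.mem_biUnion] at h
        obtain ⟨C, hC, h⟩ := h
        rw [Set.Finite.mem_toFinset] at h hC
        exact bg C hC h
    have h3 : (↑(insert (g • y) (insert y U)) : Set (Subgroup G)) ⊆ Y := by
      intro z hz
      rw [Finset.mem_coe, Finset.mem_insert, Finset.mem_insert] at hz
      rcases hz with rfl | rfl | hz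
      · exact hgyY
      · exact hy
      · rw [Finset.mem_biUnion] at hz
        obtain ⟨C, hC, h⟩ := hz
        rw [Set.Finite.mem_toFinset] at h hC
        exact bY C hC h
    have h4 := Set.ncard_le_ncard h3 (Set.toFinite _)
    rw [Set.ncard_coe_finset, Finset.card_insert_of_notMem h2, Finset.card_insert_of_notMem h1,
      hU] at h4
    omega
  exact lower.trans upper

end Ctx

end Cfsg.Agent.H33.SF
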