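import Cfsg.Agent.H33.SFBeta2

/-! The level theorem, second part (end). -/

set_option autoImplicit false
set_option linter.unusedSectionVars false
set_option linter.unusedVariables false

namespace Cfsg.Agent.H33.SF

open scoped Pointwise

universe u
variable {G : Type u} [Group G] {p : ℕ} [Finite G] [Fact p.Prime]

theorem ncard_orb_cj {Ω : Type*} [MulAction G Ω] (g : G) (T : Subgroup G) (x : Ω) :
    (orb (g • T) (g • x)).ncard = (orb T x).ncard := by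
  rw [ncard_orb, ncard_orb, ← cj_st, relIndex_cj]

theorem one_fix {K T P : Subgroup G} (hK : O p K = K) (h : Pt p K T) (hP : Syl p P K)
    (hPT : P ≤ T) (hu : ∀ T' ∈ orb K T, P ≤ T' → T' = T) : (orb K T).ncard = p + 1 := by
  have h1 := h.fx_card hK hP
  have h2 : fx P (orb K T) = {T} := by
    ext T'
    rw [mem_fx, Set.mem_singleton_iff]
    constructor
    · rintro ⟨hT', hs⟩
      exact hu T' hT' ((h.of_orb hT').le_of_st hK hP.gen (le_inf hP.1 hs))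
    · rintro rfl
      exact ⟨self_mem_orb _ _, fun g hg => MulAction.mem_stabilizer_iff.2 (cj_self (hPT hg))⟩
  rw [h2, Set.ncard_singleton] at h1
  omega

theorem uniq_of_card {K T P T' : Subgroup G} (hK : O p K = K) (h : Pt p K T) (hP : Syl p P K)
    (hPT : P ≤ T) (hc : (orb K T).ncard = p + 1) (hT' : T' ∈ orb K T) (hPT' : P ≤ T') :
    T' = T := by
  have h1 := h.fx_card hK hP
  rw [hc] at h1
  have h2 : (fx P (orb K T)).ncard = 1 := by omega
  obtain ⟨a, ha⟩ := Set.ncard_eq_one.1 h2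
  have h3 : T' ∈ fx P (orb K T) :=
    ⟨hT', fun g hg => MulAction.mem_stabilizer_iff.2 (cj_self (hPT' hg))⟩
  have h4 : T ∈ fx P (orb K T) :=
    ⟨self_mem_orb _ _, fun g hg => MulAction.mem_stabilizer_iff.2 (cj_self (hPT hg))⟩
  rw [ha, Set.mem_singleton_iff] at h3 h4
  rw [h3, h4]

theorem TTT {K P T₁ T₂ T₃ : Subgroup G} (hK : O p K = K) (hP : Syl p P K)
    (h1 : Pt p K T₁) (h2 : Pt p K T₂) (h3 : Pt p K T₃) (p1 : P ≤ T₁) (p2 : P ≤ T₂) (p3 : P ≤ T₃)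
    (n12 : T₁ ≠ T₂) (n13 : T₁ ≠ T₃) (n23 : T₂ ≠ T₃) (h : mt p T₁ T₂ ≤ T₃) :
    T₂ ∉ orb K T₁ ∧ T₃ ∉ orb K T₁ ∧ T₃ ∉ orb K T₂ ∧ (orb K T₁).ncard = p + 1 ∧
      (orb K T₂).ncard = p + 1 ∧ (orb K T₃).ncard = p + 1 := by
  have e1 := T0 hK hP h1 h2 h3 p1 p2 p3 n12 n13 h
  have e2 : mt p T₂ T₁ = mt p T₂ T₃ :=
    T0 hK hP h2 h1 h3 p2 p1 p3 n12.symm n23 (by rwa [mt_comm])
  have h' : mt p T₂ T₁ ≤ T₃ := by rwa [mt_comm]
  have h13 : mt p T₁ T₃ ≤ T₂ := by rw [← e1]; exact mt_le_right _ _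
  have h31 : mt p T₃ T₁ ≤ T₂ := by rw [mt_comm]; exact h13
  have h23 : mt p T₂ T₃ ≤ T₁ := by rw [← e2]; exact mt_le_right _ _
  refine ⟨TI hK hP h1 h2 h3 p1 p2 p3 n12 n13 n23 h, TI hK hP h1 h3 h2 p1 p3 p2 n13 n12 n23.symm h13,
    TI hK hP h2 h3 h1 p2 p3 p1 n23 n12.symm n13.symm h23, ?_, ?_, ?_⟩
  · exact one_fix hK h1 hP p1 fun T' hT' hPT' =>
      TII hK hP h1 h2 h3 p1 p2 p3 n12 n13 n23 h hT' hPT'
  · exact one_fix hK h2 hP p2 fun T' hT' hPT' =>
      TII hK hP h2 h1 h3 p2 p1 p3 n12.symm n23 n13 h' hT' hPT'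
  · exact one_fix hK h3 hP p3 fun T' hT' hPT' =>
      TII hK hP h3 h1 h2 p3 p1 p2 n13.symm n23.symm n12 h31 hT' hPT'

theorem arith_v {p v : ℕ} (h1 : p < v) (h3 : (v - p) * (p + 1) = v) (hp : 0 < p) :
    v = p + 1 := by
  obtain ⟨i, rfl⟩ : ∃ i, v = p + i := ⟨_, (Nat.add_sub_cancel' h1.le).symm⟩
  rw [Nat.add_sub_cancel_left] at h3
  have : i * p = 1 * p := by linarith
  have := Nat.eq_of_mul_eq_mul_right hp this
  omega

namespace Ctx
variable {K : Subgroup G} {Γ : Set (Subgroup G)} (c : Ctx p K Γ)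
include c

theorem orbT {X Y Y' : Subgroup G} (h : Y' ∈ orb X Y) : mt p X Y' ∈ orb X (mt p X Y) := by
  obtain ⟨x, hx, rfl⟩ := h
  exact ⟨x, hx, by rw [cj_mt, cj_self hx]⟩

theorem twoLines (ih : ThB G p Γ.ncard) (hD : LH p K Γ) (hG : Good p Γ) (hp3 : 3 ≤ p)
    {X Y₁ Y₂ Y₃ P : Subgroup G} (hX : X ∈ Γ) (h1 : Y₁ ∈ Γ) (h2 : Y₂ ∈ Γ) (h3 : Y₃ ∈ Γ)
    (hP : Syl p P K) (hPX : P ≤ X) (p1 : P ≤ Y₁) (p2 : P ≤ Y₂) (p3 : P ≤ Y₃)
    (x1 : Y₁ ≠ X) (x2 : Y₂ ≠ X) (x3 : Y₃ ≠ X) (y12 : Y₁ ≠ Y₂) (y13 : Y₁ ≠ Y₃) (y23 : Y₂ ≠ Y₃)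
    (hc : mt p Y₁ Y₂ ≤ Y₃) (hn : ¬ mt p X Y₁ ≤ Y₂) : False := by
  have gX := c.genA hX
  have sX := c.syl_le hP hX hPX
  have g1 := c.genA h1
  have s1 := c.syl_le hP h1 p1
  have t1 := hG X hX Y₁ h1 x1
  have t2 := hG X hX Y₂ h2 x2
  have t3 := hG X hX Y₃ h3 x3
  have pt1 : P ≤ mt p X Y₁ := le_mt hP.gen hPX p1
  have pt2 : P ≤ mt p X Y₂ := le_mt hP.gen hPX p2
  have pt3 : P ≤ mt p X Y₃ := le_mt hP.gen hPX p3
  have e12 := c.line hG h1 h2 h3 y12 y13 hc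
  have e21 := c.line hG h2 h1 h3 y12.symm y23 (by rwa [mt_comm])
  have n12 : mt p X Y₁ ≠ mt p X Y₂ := fun e => hn (by rw [e]; exact mt_le_right _ _)
  have n13 : mt p X Y₁ ≠ mt p X Y₃ := by
    intro e
    apply hn
    have : mt p X Y₁ ≤ mt p Y₁ Y₃ :=
      le_mt (O_mt _ _) (mt_le_right _ _) (by rw [e]; exact mt_le_right _ _)
    rw [← e12] at this
    exact this.trans (mt_le_right _ _)
  have n23 : mt p X Y₂ ≠ mt p X Y₃ := by
    intro e
    have h4 : mt p X Y₂ ≤ mt p Y₂ Y₃ :=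
      le_mt (O_mt _ _) (mt_le_right _ _) (by rw [e]; exact mt_le_right _ _)
    rw [← e21] at h4
    have h5 : mt p X Y₂ ≤ mt p X Y₁ := le_mt (O_mt _ _) (mt_le_left _ _)
      (h4.trans (mt_le_right _ _))
    exact n12 (SF.A gX t2 t1 h5).symm
  have hmm : mt p (mt p X Y₁) (mt p X Y₂) ≤ mt p X Y₃ := by
    refine le_mt (O_mt _ _) ((mt_le_left _ _).trans (mt_le_left _ _)) ?_
    exact (le_mt (O_mt _ _) ((mt_le_left _ _).trans (mt_le_right _ _))
      ((mt_le_right _ _).trans (mt_le_right _ _))).trans hc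
  obtain ⟨o12, o13, o23, v1, v2, v3⟩ := TTT gX sX t1 t2 t3 pt1 pt2 pt3 n12 n13 n23 hmm
  -- the defects
  have hpp := (Fact.out : p.Prime)
  have hpz3 : (3 : ℤ) ≤ p := by exact_mod_cast hp3
  have val : ∀ W ∈ Γ, W ≠ X → (orb X (mt p X W)).ncard = p + 1 →
      D p P (orb X W) = ((st X W).relIndex (st X (mt p X W)) : ℤ) * (p * (p - 2)) := by
    intro W hW hWX hv
    have h := (small gX sX (x := W) (by rw [c.O_st hW (c.le hX)]; exact hG X hX W hW hWX)).2.2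
    rw [c.O_st hW (c.le hX), hv] at h
    rw [h]; push_cast; ring
  have mpos : ∀ W, 1 ≤ ((st X W).relIndex (st X (mt p X W)) : ℤ) := by
    intro W
    exact_mod_cast ri_pos (st X W) (st X (mt p X W))
  have dis : ∀ {W W'}, mt p X W' ∉ orb X (mt p X W) → Disjoint (orb X W) (orb X W') := by
    intro W W' h
    rw [Set.disjoint_left]
    intro z hz hz'
    exact h (c.orbT (orb_trans hz (orb_symm hz')))
  have d12 := dis o12
  have d13 := dis o13
  have d23 := dis o23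
  have hS : Disjoint (orb X Y₁ ∪ orb X Y₂) (orb X Y₃) := Set.disjoint_union_left.2 ⟨d13, d23⟩
  have hsub : orb X Y₁ ∪ orb X Y₂ ∪ orb X Y₃ ⊆ Γ \ {X} :=
    Set.union_subset (Set.union_subset (c.orb_sub hX h1 x1) (c.orb_sub hX h2 x2))
      (c.orb_sub hX h3 x3)
  have hinv : INV X (orb X Y₁ ∪ orb X Y₂ ∪ orb X Y₃) :=
    ((INV_orb _ _).union (INV_orb _ _)).union (INV_orb _ _)
  have hDS : D p P (orb X Y₁ ∪ orb X Y₂ ∪ orb X Y₃) =
      (((st X Y₁).relIndex (st X (mt p X Y₁)) : ℤ) + (st X Y₂).relIndex (st X (mt p X Y₂)) +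
      (st X Y₃).relIndex (st X (mt p X Y₃))) * (p * (p - 2)) := by
    rw [D_union p P hS, D_union p P d12, val Y₁ h1 x1 v1, val Y₂ h2 x2 v2, val Y₃ h3 x3 v3]
    ring
  have hle := c.Dsub ih hD hX hP hPX hsub hinv
  rw [hDS] at hle
  have m1 := mpos Y₁
  have m2 := mpos Y₂
  have m3 := mpos Y₃
  have hp : p = 3 := by
    have : (p : ℤ) ≤ 3 := by
      have h5 : 3 * ((p : ℤ) * (p - 2)) ≤ _ :=
        (mul_le_mul_of_nonneg_right (by linarith : (3 : ℤ) ≤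
          ((st X Y₁).relIndex (st X (mt p X Y₁)) : ℤ) +
          (st X Y₂).relIndex (st X (mt p X Y₂)) +
          (st X Y₃).relIndex (st X (mt p X Y₃))) (by nlinarith)).trans hle
      have h6 : (p : ℤ) * (3 * (p - 2)) ≤ p * (2 * p - 3) := by linarith
      have h7 := le_of_mul_le_mul_left h6 (by linarith)
      linarith
    have : p ≤ 3 := by exact_mod_cast this
    omega
  have hpz : (p : ℤ) = 3 := by exact_mod_cast hp
  have mm : ((st X Y₁).relIndex (st X (mt p X Y₁)) : ℤ) = 1 ∧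
      ((st X Y₂).relIndex (st X (mt p X Y₂)) : ℤ) = 1 ∧
      ((st X Y₃).relIndex (st X (mt p X Y₃)) : ℤ) = 1 := by
    rw [hpz] at hle
    omega
  -- every orbit of this type is one of the three
  have hcl : ∀ W ∈ Γ, W ≠ X → (orb X (mt p X W)).ncard = p + 1 →
      W ∈ orb X Y₁ ∪ orb X Y₂ ∪ orb X Y₃ := by
    intro W hW hWX hv
    by_contra hno
    have hd : Disjoint (orb X Y₁ ∪ orb X Y₂ ∪ orb X Y₃) (orb X W) := by
      rw [Set.disjoint_left]
      intro z hz hz'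
      exact hno (hinv.orb_subset hz (orb_symm hz'))
    have h4 := c.Dsub ih hD hX hP hPX (Set.union_subset hsub (c.orb_sub hX hW hWX))
      (hinv.union (INV_orb _ _))
    rw [D_union p P hd, hDS, val W hW hWX hv, mm.1, mm.2.1, mm.2.2, hpz] at h4
    have := mpos W
    linarith
  have st1 : ∀ W, ((st X W).relIndex (st X (mt p X W)) : ℤ) = 1 →
      ∀ x ∈ X, x • mt p X W = mt p X W → x • W = W := by
    intro W hW x hx he
    have h4 : (st X W).relIndex (st X (mt p X W)) = 1 := by exact_mod_cast hW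
    rw [Subgroup.relIndex_eq_one] at h4
    exact (mem_st.1 (h4 (mem_st.2 ⟨hx, he⟩))).2
  have hU : ∀ W₁ ∈ Γ, W₁ ≠ X → ∀ W₂ ∈ Γ, W₂ ≠ X → (orb X (mt p X W₁)).ncard = p + 1 →
      mt p X W₁ = mt p X W₂ → W₁ = W₂ := by
    intro W₁ hW₁ hX₁ W₂ hW₂ hX₂ hv he
    have c1 := hcl W₁ hW₁ hX₁ hv
    have c2 := hcl W₂ hW₂ hX₂ (by rw [← he]; exact hv)
    -- they lie over the same point
    have fin : ∀ Y, ((st X Y).relIndex (st X (mt p X Y)) : ℤ) = 1 → W₁ ∈ orb X Y →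
        W₂ ∈ orb X Y → W₁ = W₂ := by
      rintro Y hY ⟨a, ha, rfl⟩ ⟨b, hb, rfl⟩
      have e : (a⁻¹ * b) • mt p X Y = mt p X Y := by
        have e3 : a • mt p X Y = b • mt p X Y := by
          rw [cj_mt, cj_mt, cj_self ha, cj_self hb, he]
        rw [mul_smul, ← e3, inv_smul_smul]
      have := st1 Y hY (a⁻¹ * b) (X.mul_mem (X.inv_mem ha) hb) e
      rw [mul_smul, inv_smul_eq_iff] at this
      exact this.symm
    have cross : ∀ {Y Y'}, W₁ ∈ orb X Y → W₂ ∈ orb X Y' → mt p X Y' ∈ orb X (mt p X Y) := by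
      intro Y Y' ha hb
      have a1 := c.orbT ha
      have a2 := c.orbT hb
      rw [he] at a1
      exact orb_trans a1 (orb_symm a2)
    rcases c1 with (c1 | c1) | c1 <;> rcases c2 with (c2 | c2) | c2
    · exact fin Y₁ mm.1 c1 c2
    · exact absurd (cross c1 c2) o12
    · exact absurd (cross c1 c2) o13
    · exact absurd (orb_symm (cross c1 c2)) o12
    · exact fin Y₂ mm.2.1 c1 c2
    · exact absurd (cross c1 c2) o23
    · exact absurd (orb_symm (cross c1 c2)) o13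
    · exact absurd (orb_symm (cross c1 c2)) o23
    · exact fin Y₃ mm.2.2 c1 c2
  -- transport to `Y₁`
  obtain ⟨k, hk, hkX⟩ := c.trans X hX Y₁ h1
  have hU1 : ∀ W₁ ∈ Γ, W₁ ≠ Y₁ → ∀ W₂ ∈ Γ, W₂ ≠ Y₁ → (orb Y₁ (mt p Y₁ W₁)).ncard = p + 1 →
      mt p Y₁ W₁ = mt p Y₁ W₂ → W₁ = W₂ := by
    intro W₁ hW₁ hX₁ W₂ hW₂ hX₂ hv he
    have hk' := K.inv_mem hk
    have hX' : k⁻¹ • Y₁ = X := by rw [← hkX, inv_smul_smul]
    have e1 : ∀ W, mt p X (k⁻¹ • W) = k⁻¹ • mt p Y₁ W := by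
      intro W; rw [cj_mt, hX']
    have := hU (k⁻¹ • W₁) (c.inv _ hk' _ hW₁) (fun e => hX₁ (smul_left_cancel _ (e.trans hX'.symm)))
      (k⁻¹ • W₂) (c.inv _ hk' _ hW₂) (fun e => hX₂ (smul_left_cancel _ (e.trans hX'.symm)))
      (by rw [e1, ← hX', ncard_orb_cj]; exact hv) (by rw [e1, e1, he])
    exact smul_left_cancel _ this
  -- the type of the line `Y₁Y₂`
  have nuXY : nu (Nat.card P) Y₁ = nu (Nat.card P) X := by rw [← hkX, nu_cj]
  have a1 := NU gX t1 sX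
  rw [v1, Nat.add_sub_cancel_left, one_mul] at a1
  have tp1 : Pt p Y₁ (mt p X Y₁) := by rw [mt_comm]; exact hG Y₁ h1 X hX x1.symm
  have hnu1 : 0 < nu (Nat.card P) (mt p X Y₁) := nu_pos pt1
  have w1 : (orb Y₁ (mt p X Y₁)).ncard = p + 1 := by
    have a2 := NU g1 tp1 s1
    rw [nuXY, a1, ← mul_assoc] at a2
    exact arith_v (tp1.card_lt g1).1 (Nat.eq_of_mul_eq_mul_right hnu1 a2) hpp.pos
  have tp2 : Pt p Y₁ (mt p Y₁ Y₂) := hG Y₁ h1 Y₂ h2 y12.symm
  have pp2 : P ≤ mt p Y₁ Y₂ := le_mt hP.gen p1 p2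
  -- `R` in `T₁`
  have b1 : ∀ T ∈ orb X (mt p X Y₂), ¬ mt p X Y₁ ≤ T := by
    intro T hT hle
    have := SF.A gX t1 (t2.of_orb hT) hle
    rw [← this] at hT
    exact o12 (orb_symm hT)
  have b2 := trpt gX sX t2 t1.le t1.gen pt1 pt2 b1
  have b3 : Pt p (mt p X Y₁) (mt p (mt p X Y₁) (mt p X Y₂)) :=
    M gX sX t2 t1.le t1.gen pt1 pt2 (b1 _ (self_mem_orb _ _))
  have b4 := NU t1.gen b3 (sX.of_le pt1 t1.le)
  rw [b2, v2, Nat.add_sub_cancel_left, one_mul] at b4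
  -- `R` in `T'`
  have c1 : ∀ T ∈ orb Y₁ (mt p X Y₁), ¬ mt p Y₁ Y₂ ≤ T := by
    intro T hT hle
    have h5 := SF.A g1 tp2 (tp1.of_orb hT) hle
    rw [← h5] at hT
    have := uniq_of_card g1 tp1 s1 pt1 w1 hT pp2
    exact hn (by rw [← this]; exact mt_le_right _ _)
  have c2 := trpt g1 s1 tp1 tp2.le tp2.gen pp2 pt1 c1
  have c3 : Pt p (mt p Y₁ Y₂) (mt p (mt p Y₁ Y₂) (mt p X Y₁)) :=
    M g1 s1 tp1 tp2.le tp2.gen pp2 pt1 (c1 _ (self_mem_orb _ _))
  have c4 := NU tp2.gen c3 (s1.of_le pp2 tp2.le)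
  rw [c2, w1, Nat.add_sub_cancel_left, one_mul] at c4
  have hR : mt p (mt p Y₁ Y₂) (mt p X Y₁) = mt p (mt p X Y₁) (mt p X Y₂) := by
    apply le_antisymm
    · refine le_mt (O_mt _ _) (mt_le_right _ _) ?_
      exact le_mt (O_mt _ _) ((mt_le_right _ _).trans (mt_le_left _ _))
        ((mt_le_left _ _).trans (mt_le_right _ _))
    · refine le_mt (O_mt _ _) ?_ (mt_le_left _ _)
      exact le_mt (O_mt _ _) ((mt_le_left _ _).trans (mt_le_right _ _))
        ((mt_le_right _ _).trans (mt_le_right _ _))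
  rw [hR, ← b4] at c4
  have w2 : (orb Y₁ (mt p Y₁ Y₂)).ncard = p + 1 := by
    have a2 := NU g1 tp2 s1
    rw [nuXY, a1, c4, ← mul_assoc] at a2
    exact arith_v (tp2.card_lt g1).1 (Nat.eq_of_mul_eq_mul_right hnu1 a2) hpp.pos
  exact y23 (hU1 Y₂ h2 y12.symm Y₃ h3 y13.symm w2 e12)

theorem good_final (ih : ThB G p Γ.ncard) (hD : LH p K Γ) (hG : Good p Γ)
    (hs : ∀ P, Syl p P K → (fx P Γ).ncard + 2 * p ≤ Γ.ncard) (hne : Γ.Nonempty) :
    5 ≤ p ∧ Γ.ncard = 2 * p + 3 ∧ ∀ P, Syl p P K → (fx P Γ).ncard = 3 := by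
  have hpp := (Fact.out : p.Prime)
  have hp2 := hpp.two_le
  by_cases hC2 : C2 p Γ
  · exact (c.no_C2 hG hC2 hs hne).elim
  unfold C2 at hC2
  push Not at hC2
  obtain ⟨A, hA, B, hB, C, hC, hAB, hAC, hBC, hle⟩ := hC2
  obtain ⟨P, hPA, hPN⟩ := (hG A hA B hB hAB.symm).syl
  have hP := c.syl_of hA hPA
  have pA := hPA.1
  have pB : P ≤ B := hPN.trans (mt_le_right _ _)
  have pC : P ≤ C := hPN.trans hle
  have hAl : A ∈ ln Γ (mt p A B) := ⟨hA, mt_le_left _ _⟩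
  have hBl : B ∈ ln Γ (mt p A B) := ⟨hB, mt_le_right _ _⟩
  have hCl : C ∈ ln Γ (mt p A B) := ⟨hC, hle⟩
  have hl3 : 3 ≤ (ln Γ (mt p A B)).ncard := by
    have h1 : ({A, B, C} : Set (Subgroup G)) ⊆ ln Γ (mt p A B) := by
      intro x hx
      rcases hx with rfl | rfl | hx
      · exact hAl
      · exact hBl
      · rw [Set.mem_singleton_iff] at hx; rw [hx]; exact hCl
    have h2 := Set.ncard_le_ncard h1 (Set.toFinite _)
    have h3 : ({A, B, C} : Set (Subgroup G)).ncard = 3 := by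
      rw [Set.ncard_insert_of_notMem, Set.ncard_pair hBC]
      simp [hAB, hAC]
    rwa [h3] at h2
  have two : ∀ X ∈ ln Γ (mt p A B), ∃ X' ∈ ln Γ (mt p A B), X' ≠ X := by
    intro X hX
    by_cases h : X = A
    · exact ⟨B, hBl, by rw [h]; exact hAB.symm⟩
    · exact ⟨A, hAl, Ne.symm h⟩
  have hPtN : ∀ X ∈ ln Γ (mt p A B), Pt p X (mt p A B) := by
    intro X hX
    obtain ⟨X', hX', hne⟩ := two X hX
    rw [← c.lset hG hA hB hAB hX.1 hX'.1 hX.2 hX'.2 hne.symm]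
    exact hG X hX.1 X' hX'.1 hne
  -- `p = 2`
  rcases Nat.lt_or_ge p 3 with hp | hp3
  · exfalso
    have hp : p = 2 := by omega
    have h1 := c.Ylem hG hA hB hAB hP hPN (by
      intro X hX
      have := (hPtN X hX).card_lt (c.genA hX.1)
      omega)
    obtain ⟨l, hl⟩ : ∃ l, (ln Γ (mt p A B)).ncard = l + 3 :=
      ⟨_, (Nat.sub_add_cancel hl3).symm⟩
    rw [hl, hp] at h1
    have e1 : l + 3 - 2 = l + 1 := by omega
    have e2 : l + 3 - 1 = l + 2 := by omega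
    rw [e1, e2] at h1
    nlinarith
  -- all fixed points of `P` are on the line
  have hF : ∀ X ∈ Γ, P ≤ X → X ∈ ln Γ (mt p A B) := by
    intro X hX hPX
    by_cases hXA : X = A
    · rw [hXA]; exact hAl
    by_cases hXB : X = B
    · rw [hXB]; exact hBl
    by_cases hXC : X = C
    · rw [hXC]; exact hCl
    by_contra hno
    refine c.twoLines ih hD hG hp3 hX hA hB hC hP hPX pA pB pC (Ne.symm hXA) (Ne.symm hXB)
      (Ne.symm hXC) hAB hAC hBC hle fun h => hno ⟨hX, ?_⟩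
    have := c.line hG hA hX hB (Ne.symm hXA) hAB (by rwa [mt_comm])
    rw [← this]; exact mt_le_right _ _
  have hv : ∀ X ∈ ln Γ (mt p A B), (orb X (mt p A B)).ncard = p + 1 := by
    intro X hX
    have hPX := hPN.trans hX.2
    refine one_fix (c.genA hX.1) (hPtN X hX) (c.syl_le hP hX.1 hPX) hPN ?_
    rintro T ⟨k, hk, rfl⟩ hPT
    obtain ⟨X', hX', hne⟩ := two X hX
    have e := c.lset hG hA hB hAB hX.1 hX'.1 hX.2 hX'.2 hne.symm
    have e2 : k • mt p A B = mt p X (k • X') := by rw [← e, cj_mt, cj_self hk]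
    have h1 : k • X' ∈ ln Γ (mt p A B) := by
      apply hF _ (c.inv k (c.le hX.1 hk) _ hX'.1)
      rw [e2] at hPT
      exact hPT.trans (mt_le_right _ _)
    have h2 : X ≠ k • X' := Ne.symm (c.smul_ne (B := X) hk hne)
    rw [e2]
    exact c.lset hG hA hB hAB hX.1 h1.1 hX.2 h1.2 h2
  have hY := c.Ylem hG hA hB hAB hP hPN hv
  -- the fixed points form the line
  have hfx : fx P Γ = ln Γ (mt p A B) := by
    ext X
    constructor
    · rintro ⟨hX, hXs⟩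
      exact hF X hX (c.le_of_stab hX hP.1 hP.gen hXs)
    · rintro hX
      exact ⟨hX.1, c.le_stab (hPN.trans hX.2)⟩
  -- counting
  have sA := c.syl_le hP hA pA
  have gA := c.genA hA
  have hcount : ((Γ \ {A}).ncard : ℤ) = (p + 1) * (fx P (Γ \ {A})).ncard := by
    have h0 : W 1 (p + 1) P (Γ \ {A}) = 0 := by
      refine orbind (T := A) (fun z => z = 0) rfl (fun x y hx hy => by rw [hx, hy]; rfl)
        (c.INV_diff hA) fun X hX => ?_
      have hPt := hG A hA X hX.1 hX.2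
      obtain ⟨k, hk, hPk⟩ := hPt.pgroup hP.2.1 pA
      have e1 : mt p A (k • X) = k • mt p A X := by rw [cj_mt, cj_self hk]
      have hkX : k • X ∈ ln Γ (mt p A B) := by
        apply hF _ (c.inv k (c.le hA hk) _ hX.1)
        exact hPk.trans (cj_le.2 (mt_le_right _ _))
      have e2 : mt p A (k • X) = mt p A B :=
        c.lset hG hA hB hAB hA hkX.1 (mt_le_left _ _) hkX.2
          (Ne.symm (c.smul_ne (B := A) hk hX.2))
      have e3 : (orb A (mt p A X)).ncard = p + 1 := by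
        have : mt p A B ∈ orb A (mt p A X) := ⟨k, hk, by rw [← e1, e2]⟩
        rw [← SF.orb_eq this]; exact hv A hAl
      have h := small gA sA (x := X) (by rw [c.O_st hX.1 (c.le hA)]; exact hPt)
      rw [c.O_st hX.1 (c.le hA), e3] at h
      show W 1 (p + 1) P (orb A X) = 0
      unfold W
      rw [h.1, h.2.1, Nat.add_sub_cancel_left]
      push_cast; ring
    unfold W at h0
    linarith
  have hA1 := Set.ncard_sdiff_singleton_add_one hA (Set.toFinite Γ)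
  have hfA : fx P (Γ \ {A}) = fx P Γ \ {A} := by
    ext X; simp only [mem_fx, Set.mem_sdiff, Set.mem_singleton_iff]; tauto
  have hA2 := Set.ncard_sdiff_singleton_add_one (show A ∈ fx P Γ from hfx ▸ hAl)
    (Set.toFinite (fx P Γ))
  rw [hfA] at hcount
  rw [← hfx] at hY hl3
  obtain ⟨s, hsl⟩ := long hP.2.1 (c.inv.mono hP.1)
  have hDe := D_eq (P := P) hsl
  have hDl := hD P hP
  have hs' := hs P hP
  set f' := (fx P Γ \ {A}).ncard with hf'
  have hcount' : (Γ \ {A}).ncard = (p + 1) * f' := by exact_mod_cast hcount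
  have hsf : s = f' := by
    rw [← hA1, ← hA2, hcount'] at hsl
    have : p * s = p * f' := by linarith
    exact Nat.eq_of_mul_eq_mul_left hpp.pos this
  have hs2 : 2 ≤ s := by omega
  have hpz3 : (3 : ℤ) ≤ p := by exact_mod_cast hp3
  have hsz2 : (2 : ℤ) ≤ s := by exact_mod_cast hs2
  have hineq : ((p : ℤ) - 2) * s ≤ 2 * p - 3 := by
    rw [hDe, ← hA2, ← hsf] at hDl
    have := le_of_mul_le_mul_left hDl (show (0 : ℤ) < p by linarith)
    push_cast at this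
    linarith
  have hnd : ¬ p ∣ Γ.ncard := by
    rw [← c.orb_eq hA, ncard_orb]
    exact hP.ndvd (pA.trans (c.A_le_st hA)) (st_le _ _)
  have hn3 : Γ.ncard = (p + 1) * s + 1 := by rw [← hA1, hcount', hsf]
  have hf3 : (fx P Γ).ncard = s + 1 := by rw [← hA2, hsf]
  -- `s = 2`
  have hss : s = 2 := by
    rcases Nat.lt_or_ge s 3 with h | h
    · omega
    · exfalso
      have hsz3 : (3 : ℤ) ≤ s := by exact_mod_cast h
      have hp : (p : ℤ) ≤ 3 := by nlinarith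
      have hp : p = 3 := by
        have : p ≤ 3 := by exact_mod_cast hp
        omega
      rw [hp] at hineq
      have hs3 : s = 3 := by
        have : (s : ℤ) ≤ 3 := by push_cast at hineq; linarith
        have : s ≤ 3 := by exact_mod_cast this
        omega
      rw [hf3, hs3, hp] at hY
      omega
  rw [hss] at hn3 hf3
  have hp5 : 5 ≤ p := by
    by_contra hlt
    have : p = 3 ∨ p = 4 := by omega
    rcases this with h | h
    · apply hnd
      rw [hn3, h]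
      exact ⟨3, by norm_num⟩
    · rw [h] at hpp
      exact absurd hpp (by norm_num)
  refine ⟨hp5, by rw [hn3]; ring, fun Q hQ => ?_⟩
  rw [fx_syl hP hQ c.inv, hf3]

end Ctx

end Cfsg.Agent.H33.SF
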