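import Cfsg.Agent.H33.SFPoint

/-! Counting fixed points of a Sylow subgroup. -/

set_option autoImplicit false
set_option linter.unusedSectionVars false
set_option linter.unusedVariables false

namespace Cfsg.Agent.H33.SF

open scoped Pointwise

universe u
variable {G : Type u} [Group G] {Ω : Type*} [MulAction G Ω]

/-- fixed points of `P` in `S` -/
def fx (P : Subgroup G) (S : Set Ω) : Set Ω := {x | x ∈ S ∧ P ≤ MulAction.stabilizer G x}

theorem mem_fx {P : Subgroup G} {S : Set Ω} {x : Ω} :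
    x ∈ fx P S ↔ x ∈ S ∧ P ≤ MulAction.stabilizer G x := Iff.rfl

theorem fx_subset (P : Subgroup G) (S : Set Ω) : fx P S ⊆ S := fun _ h => h.1

theorem fx_mono (P : Subgroup G) {S T : Set Ω} (h : S ⊆ T) : fx P S ⊆ fx P T :=
  fun _ hx => ⟨h hx.1, hx.2⟩

theorem fx_union (P : Subgroup G) (S T : Set Ω) : fx P (S ∪ T) = fx P S ∪ fx P T := by
  ext x; simp only [mem_fx, Set.mem_union]; tauto

theorem fx_empty (P : Subgroup G) : fx P (∅ : Set Ω) = ∅ := by
  ext x; simp [mem_fx]

/-- weighted count -/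
noncomputable def W (a b : ℤ) (P : Subgroup G) (S : Set Ω) : ℤ :=
  a * (S.ncard : ℤ) - b * ((fx P S).ncard : ℤ)

/-- the defect -/
noncomputable def D (p : ℕ) (P : Subgroup G) (S : Set Ω) : ℤ :=
  W ((p : ℤ) - 1) (2 * (p : ℤ) - 1) P S

/-- invariant sets -/
def INV (T : Subgroup G) (S : Set Ω) : Prop := ∀ t ∈ T, ∀ x ∈ S, t • x ∈ S

theorem INV_orb (K : Subgroup G) (x : Ω) : INV K (orb K x) :=
  fun _ ht _ hy => smul_mem_of_mem_orb ht hy

theorem INV.mono {T T' : Subgroup G} {S : Set Ω} (h : INV T S) (h' : T' ≤ T) : INV T' S :=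
  fun t ht x hx => h t (h' ht) x hx

theorem INV.diff {T : Subgroup G} {S S' : Set Ω} (h : INV T S) (h' : INV T S') :
    INV T (S \ S') := by
  intro t ht x hx
  refine ⟨h t ht x hx.1, fun hm => hx.2 ?_⟩
  have := h' t⁻¹ (T.inv_mem ht) _ hm
  rwa [inv_smul_smul] at this

theorem INV.union {T : Subgroup G} {S S' : Set Ω} (h : INV T S) (h' : INV T S') :
    INV T (S ∪ S') := by
  intro t ht x hx
  rcases hx with hx | hx
  · exact Or.inl (h t ht x hx)
  · exact Or.inr (h' t ht x hx)

theorem INV.orb_subset {T : Subgroup G} {S : Set Ω} (h : INV T S) {x : Ω} (hx : x ∈ S) :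
    orb T x ⊆ S := by
  rintro y ⟨t, ht, rfl⟩
  exact h t ht x hx

theorem INV_singleton {T : Subgroup G} {x : Ω} (h : T ≤ MulAction.stabilizer G x) :
    INV T ({x} : Set Ω) := by
  intro t ht y hy
  rw [Set.mem_singleton_iff] at hy ⊢
  subst hy
  exact MulAction.mem_stabilizer_iff.1 (h ht)

theorem orb_of_le_stab {T : Subgroup G} {x : Ω} (h : T ≤ MulAction.stabilizer G x) :
    orb T x = {x} := by
  apply Set.Subset.antisymm
  · exact (INV_singleton h).orb_subset (Set.mem_singleton _)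
  · rw [Set.singleton_subset_iff]; exact self_mem_orb _ _

section fin
variable [Finite Ω]

theorem W_union (a b : ℤ) (P : Subgroup G) {S T : Set Ω} (h : Disjoint S T) :
    W a b P (S ∪ T) = W a b P S + W a b P T := by
  unfold W
  rw [fx_union, Set.ncard_union_eq h (Set.toFinite _) (Set.toFinite _),
    Set.ncard_union_eq (h.mono (fx_subset _ _) (fx_subset _ _)) (Set.toFinite _) (Set.toFinite _)]
  push_cast; ring

theorem W_empty (a b : ℤ) (P : Subgroup G) : W a b P (∅ : Set Ω) = 0 := by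
  unfold W; rw [fx_empty]; simp

theorem W_diff (a b : ℤ) (P : Subgroup G) {S T : Set Ω} (h : T ⊆ S) :
    W a b P S = W a b P T + W a b P (S \ T) := by
  rw [← W_union a b P Set.disjoint_sdiff_right, Set.union_sdiff_cancel h]

theorem W_singleton (a b : ℤ) (P : Subgroup G) {x : Ω} (h : P ≤ MulAction.stabilizer G x) :
    W a b P ({x} : Set Ω) = a - b := by
  have : fx P ({x} : Set Ω) = {x} := by
    ext y
    simp only [mem_fx, Set.mem_singleton_iff]
    exact ⟨fun h => h.1, fun e => ⟨e, e ▸ h⟩⟩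
  unfold W
  rw [this, Set.ncard_singleton]; simp

theorem orbind {a b : ℤ} {P T : Subgroup G} (Q : ℤ → Prop) (h0 : Q 0)
    (hadd : ∀ x y, Q x → Q y → Q (x + y)) : ∀ {S : Set Ω}, INV T S →
    (∀ x ∈ S, Q (W a b P (orb T x))) → Q (W a b P S) := by
  suffices ∀ (n : ℕ) (S : Set Ω), S.ncard = n → INV T S →
      (∀ x ∈ S, Q (W a b P (orb T x))) → Q (W a b P S) from fun {S} h1 h2 => this _ S rfl h1 h2
  intro n
  induction n using Nat.strong_induction_on with
  | _ n ih =>
    intro S hS hinv hQ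
    rcases S.eq_empty_or_nonempty with rfl | ⟨x, hx⟩
    · rw [W_empty]; exact h0
    · have hsub := hinv.orb_subset hx
      rw [W_diff a b P hsub]
      refine hadd _ _ (hQ x hx) (ih _ ?_ _ rfl (hinv.diff (INV_orb _ _)) fun y hy => hQ y hy.1)
      rw [← hS]
      exact Set.ncard_lt_ncard ⟨Set.sdiff_subset, fun h => (h hx).2 (self_mem_orb _ _)⟩
        (Set.toFinite _)

theorem D_union (p : ℕ) (P : Subgroup G) {S T : Set Ω} (h : Disjoint S T) :
    D p P (S ∪ T) = D p P S + D p P T := W_union _ _ _ h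

theorem D_diff (p : ℕ) (P : Subgroup G) {S T : Set Ω} (h : T ⊆ S) :
    D p P S = D p P T + D p P (S \ T) := W_diff _ _ _ h

theorem D_singleton (p : ℕ) (P : Subgroup G) {x : Ω} (h : P ≤ MulAction.stabilizer G x) :
    D p P ({x} : Set Ω) = -p := by
  unfold D; rw [W_singleton _ _ _ h]; ring

theorem D_nonneg {p : ℕ} {P T : Subgroup G} {S : Set Ω} (h : INV T S)
    (h' : ∀ x ∈ S, 0 ≤ D p P (orb T x)) : 0 ≤ D p P S :=
  orbind (fun c => 0 ≤ c) le_rfl (fun _ _ => add_nonneg) h h'

theorem D_nonpos {p : ℕ} {P T : Subgroup G} {S : Set Ω} (h : INV T S)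
    (h' : ∀ x ∈ S, D p P (orb T x) ≤ 0) : D p P S ≤ 0 :=
  orbind (fun c => c ≤ 0) le_rfl (fun _ _ => add_nonpos) h h'

/-- monotonicity of the defect -/
theorem D_le {p : ℕ} {P T : Subgroup G} {S S' : Set Ω} (h : INV T S) (h1 : INV T S')
    (hss : S' ⊆ S) (h' : ∀ x ∈ S \ S', 0 ≤ D p P (orb T x)) : D p P S' ≤ D p P S := by
  rw [D_diff p P hss]
  have := D_nonneg (h.diff h1) h'
  linarith

variable {p : ℕ} [Finite G] [Fact p.Prime]

theorem W11_dvd {P : Subgroup G} (hP : IsPGroup p P) {S : Set Ω} (h : INV P S) :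
    (p : ℤ) ∣ W 1 1 P S := by
  refine orbind (fun c => (p : ℤ) ∣ c) (dvd_zero _) (fun _ _ => dvd_add) h fun x hx => ?_
  by_cases hfx : P ≤ MulAction.stabilizer G x
  · rw [orb_of_le_stab hfx, W_singleton _ _ _ hfx]; simp
  · have h1 : fx P (orb P x) = ∅ := by
      rw [Set.eq_empty_iff_forall_notMem]
      rintro y ⟨hy, hy'⟩
      have := orb_symm hy
      rw [orb_of_le_stab hy', Set.mem_singleton_iff] at this
      exact hfx (this ▸ hy')
    unfold W
    rw [h1, Set.ncard_empty, ncard_orb]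
    simp only [one_mul, Nat.cast_zero, sub_zero]
    obtain ⟨n, hn⟩ := IsPGroup.iff_card.1 hP
    have h2 : (st P x).relIndex P ∣ p ^ n := hn ▸ Subgroup.relIndex_dvd_card _ _
    obtain ⟨m, -, hm⟩ := (Nat.dvd_prime_pow Fact.out).1 h2
    rcases Nat.eq_zero_or_pos m with h0 | h0
    · rw [h0, pow_zero, Subgroup.relIndex_eq_one] at hm
      exact absurd (hm.trans inf_le_right) hfx
    · rw [hm]; exact Int.natCast_dvd_natCast.2 (dvd_pow_self p h0.ne')

/-- the number of long orbits -/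
theorem long {P : Subgroup G} (hP : IsPGroup p P) {S : Set Ω} (h : INV P S) :
    ∃ s : ℕ, S.ncard = (fx P S).ncard + p * s := by
  obtain ⟨c, hc⟩ := W11_dvd hP h
  have hle : (fx P S).ncard ≤ S.ncard := Set.ncard_le_ncard (fx_subset _ _) (Set.toFinite _)
  unfold W at hc
  have hp : (0 : ℤ) < p := by exact_mod_cast (Fact.out : p.Prime).pos
  have hc0 : 0 ≤ c := by
    by_contra hneg
    push Not at hneg
    have : (p : ℤ) * c < 0 := mul_neg_of_pos_of_neg hp hneg
    have h3 : ((fx P S).ncard : ℤ) ≤ (S.ncard : ℤ) := by exact_mod_cast hle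
    linarith
  obtain ⟨s, rfl⟩ := Int.eq_ofNat_of_zero_le hc0
  refine ⟨s, ?_⟩
  have : (S.ncard : ℤ) = (fx P S).ncard + p * s := by linarith
  exact_mod_cast this

theorem D_eq {P : Subgroup G} {S : Set Ω} {s : ℕ} (h : S.ncard = (fx P S).ncard + p * s) :
    D p P S = p * (((p : ℤ) - 1) * s - (fx P S).ncard) := by
  unfold D W
  rw [h]; push_cast; ring

theorem s_pos {P : Subgroup G} {S : Set Ω} {s : ℕ} (h : S.ncard = (fx P S).ncard + p * s)
    {x : Ω} (hx : x ∈ S) (hx' : ¬ P ≤ MulAction.stabilizer G x) : 1 ≤ s := by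
  have hlt : (fx P S).ncard < S.ncard :=
    Set.ncard_lt_ncard ⟨fx_subset _ _, fun h' => hx' (h' hx).2⟩ (Set.toFinite _)
  by_contra h0
  have : s = 0 := by omega
  subst this
  omega

end fin

section fixsec
variable {p : ℕ} [Finite G] [Fact p.Prime]

/-- the number of subgroups of order `c` -/
noncomputable def nu (c : ℕ) (A : Subgroup G) : ℕ := {Q : Subgroup G | Q ≤ A ∧ Nat.card Q = c}.ncard

theorem nu_cj (c : ℕ) (g : G) (A : Subgroup G) : nu c (g • A) = nu c A := by
  unfold nu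
  symm
  apply Set.ncard_congr (fun (Q : Subgroup G) _ => g • Q)
  · intro Q hQ; exact ⟨cj_le.2 hQ.1, by rw [card_cj]; exact hQ.2⟩
  · intro Q Q' _ _ h; exact smul_left_cancel _ h
  · intro Q hQ
    refine ⟨g⁻¹ • Q, ⟨?_, by rw [card_cj]; exact hQ.2⟩, smul_inv_smul _ _⟩
    rw [← le_cj_iff]; exact hQ.1

theorem nu_O {P : Subgroup G} (hP : IsPGroup p P) (A : Subgroup G) :
    nu (Nat.card P) (O p A) = nu (Nat.card P) A := by
  unfold nu
  congr 1
  ext Q
  simp only [Set.mem_ofPred_eq]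
  refine and_congr_left fun hQ => ⟨fun h => h.trans (O_le _), fun h => ?_⟩
  obtain ⟨n, hn⟩ := IsPGroup.iff_card.1 hP
  have : IsPGroup p Q := IsPGroup.of_card (n := n) (by rw [hQ, hn])
  exact le_O (O_of_isPGroup this) h

theorem nu_mt {P : Subgroup G} (hP : IsPGroup p P) (A B : Subgroup G) :
    nu (Nat.card P) (mt p A B) = nu (Nat.card P) (A ⊓ B) := nu_O hP _

theorem nu_pos {P K : Subgroup G} (hP : P ≤ K) : 0 < nu (Nat.card P) K := by
  unfold nu
  rw [Set.ncard_pos]
  exact ⟨P, hP, rfl⟩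

theorem syl_of_card {P Q K : Subgroup G} (hP : Syl p P K) (hQ : Q ≤ K)
    (hc : Nat.card Q = Nat.card P) : Syl p Q K := by
  obtain ⟨n, hn⟩ := IsPGroup.iff_card.1 hP.2.1
  refine ⟨hQ, IsPGroup.of_card (n := n) (by rw [hc, hn]), ?_⟩
  have h1 := card_relIndex hQ
  have h2 := card_relIndex hP.1
  rw [← h2, hc] at h1
  have := Nat.eq_of_mul_eq_mul_left Nat.card_pos h1
  rw [this]; exact hP.2.2

variable [Finite Ω]

theorem fx_cj {K P : Subgroup G} {S : Set Ω} (hS : INV K S) {k : G} (hk : k ∈ K) :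
    (fx (k • P) S).ncard = (fx P S).ncard := by
  symm
  apply Set.ncard_congr (fun x _ => k • x)
  · rintro x ⟨hx, hx'⟩
    refine ⟨hS k hk x hx, ?_⟩
    intro g hg
    rw [mem_cj] at hg
    have := MulAction.mem_stabilizer_iff.1 (hx' hg)
    rw [MulAction.mem_stabilizer_iff]
    rw [mul_smul, mul_smul, inv_smul_eq_iff] at this
    exact this
  · intro x y _ _ h; exact smul_left_cancel _ h
  · rintro y ⟨hy, hy'⟩
    refine ⟨k⁻¹ • y, ⟨hS k⁻¹ (K.inv_mem hk) y hy, ?_⟩, smul_inv_smul _ _⟩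
    intro g hg
    rw [MulAction.mem_stabilizer_iff]
    have := MulAction.mem_stabilizer_iff.1 (hy' (cj_mem (g := k) hg))
    rw [mul_smul, mul_smul] at this
    exact eq_inv_smul_iff.2 this

theorem fx_syl {K P Q : Subgroup G} (hP : Syl p P K) (hQ : Syl p Q K) {S : Set Ω}
    (hS : INV K S) : (fx Q S).ncard = (fx P S).ncard := by
  obtain ⟨k, hk, rfl⟩ := hP.conj hQ
  exact fx_cj hS hk

theorem D_syl {K P Q : Subgroup G} (hP : Syl p P K) (hQ : Syl p Q K) {S : Set Ω}
    (hS : INV K S) : D p Q S = D p P S := by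
  unfold D W; rw [fx_syl hP hQ hS]

open Classical in
theorem FIX {K P : Subgroup G} (hP : Syl p P K) (x : Ω) :
    (fx P (orb K x)).ncard * nu (Nat.card P) K
      = (orb K x).ncard * nu (Nat.card P) (st K x) := by
  have hs : ({Q : Subgroup G | Q ≤ K ∧ Nat.card Q = Nat.card P}).Finite := Set.toFinite _
  have ht : (orb K x).Finite := Set.toFinite _
  have key := Finset.card_mul_eq_card_mul (s := hs.toFinset) (t := ht.toFinset)
    (fun (Q : Subgroup G) (y : Ω) => Q ≤ MulAction.stabilizer G y)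
    (m := (fx P (orb K x)).ncard) (n := nu (Nat.card P) (st K x)) ?_ ?_
  · rw [← Set.ncard_eq_toFinset_card, ← Set.ncard_eq_toFinset_card] at key
    rw [mul_comm]
    exact key
  · intro Q hQ
    rw [Set.Finite.mem_toFinset] at hQ
    have hQs := syl_of_card hP hQ.1 hQ.2
    rw [← fx_syl hP hQs (INV_orb K x), Set.ncard_eq_toFinset_card _ (Set.toFinite _)]
    congr 1
    ext y
    simp [Finset.bipartiteAbove, mem_fx]
  · intro y hy
    rw [Set.Finite.mem_toFinset] at hy
    obtain ⟨k, hk, rfl⟩ := hy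
    rw [← nu_cj _ k, ← st_smul hk, nu, Set.ncard_eq_toFinset_card _ (Set.toFinite _)]
    congr 1
    ext Q
    simp only [Finset.bipartiteBelow, Finset.mem_filter, Set.Finite.mem_toFinset,
      Set.mem_ofPred_eq, st, le_inf_iff]
    tauto

/-- nontrivial orbits of a `p`-generated group contain points moved by the Sylow subgroup -/
theorem moved {K P : Subgroup G} (hK : O p K = K) (hP : Syl p P K) {x : Ω}
    (hx : ¬ K ≤ MulAction.stabilizer G x) : ∃ y ∈ orb K x, ¬ P ≤ MulAction.stabilizer G y := by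
  by_contra hno
  push Not at hno
  apply hx
  rw [← hK]
  refine O_le_of fun g hg hpg => ?_
  obtain ⟨k, hk, h'⟩ := PQ (K := K) (M := P) (isPGroup_zpowers hpg)
    (by rwa [Subgroup.zpowers_le]) hP.2.2
  rw [Subgroup.zpowers_le, mem_cj] at h'
  have := MulAction.mem_stabilizer_iff.1 (hno (k⁻¹ • x) (smul_mem_orb (K.inv_mem hk) x) h')
  rw [smul_smul, mul_assoc, mul_assoc, mul_inv_cancel, mul_one, mul_smul,
    smul_left_cancel_iff] at this
  exact MulAction.mem_stabilizer_iff.2 this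

theorem orb_long {K P : Subgroup G} (hK : O p K = K) (hP : Syl p P K) {x : Ω}
    (hx : ¬ K ≤ MulAction.stabilizer G x) :
    ∃ s : ℕ, 1 ≤ s ∧ (orb K x).ncard = (fx P (orb K x)).ncard + p * s := by
  obtain ⟨s, hs⟩ := long hP.2.1 ((INV_orb K x).mono hP.1)
  obtain ⟨y, hy, hy'⟩ := moved hK hP hx
  exact ⟨s, s_pos hs hy hy', hs⟩

theorem p_le_orb' {K : Subgroup G} (hK : O p K = K) {x : Ω}
    (hx : ¬ K ≤ MulAction.stabilizer G x) : p ≤ (orb K x).ncard := by
  rw [ncard_orb]
  by_contra hlt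
  push Not at hlt
  exact hx ((IDX hK hlt).trans inf_le_right)

end fixsec

section pts
variable {p : ℕ} [Finite G] [Fact p.Prime]

theorem Pt.not_le_stab {K T : Subgroup G} (hK : O p K = K) (h : Pt p K T) :
    ¬ K ≤ MulAction.stabilizer G T := by
  intro hle
  exact h.not_le (h.le_of_st hK hK (le_inf le_rfl hle))

/-- fixed points on the set of conjugates of a point -/
theorem Pt.fx_card {K T P : Subgroup G} (hK : O p K = K) (h : Pt p K T) (hP : Syl p P K) :
    (fx P (orb K T)).ncard + p = (orb K T).ncard := by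
  obtain ⟨s, hs, hs'⟩ := orb_long hK hP (h.not_le_stab hK)
  have h2 := (h.spec hK).2.1
  rw [← ncard_orb] at h2
  have : s = 1 := by
    by_contra hne
    have : p * 2 ≤ p * s := Nat.mul_le_mul_left _ (by omega)
    omega
  subst this
  omega

theorem Pt.card_lt {K T : Subgroup G} (hK : O p K = K) (h : Pt p K T) :
    p < (orb K T).ncard ∧ (orb K T).ncard < 2 * p := by
  rw [ncard_orb]; exact ⟨(h.spec hK).1, (h.spec hK).2.1⟩

theorem NU {K T P : Subgroup G} (hK : O p K = K) (h : Pt p K T) (hP : Syl p P K) :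
    ((orb K T).ncard - p) * nu (Nat.card P) K = (orb K T).ncard * nu (Nat.card P) T := by
  have h1 := FIX hP T
  have h2 := h.fx_card hK hP
  have h3 : nu (Nat.card P) (st K T) = nu (Nat.card P) T := by
    rw [← nu_O hP.2.1, (h.spec hK).2.2]
  rw [h3] at h1
  rw [← h1]
  congr 1
  omega

variable [Finite Ω]

theorem st_le_st_O (K : Subgroup G) (x : Ω) : st K x ≤ st K (O p (st K x)) :=
  le_st_O (st_le _ _)

/-- numbers of a small type orbit -/
theorem small {K P : Subgroup G} (hK : O p K = K) (hP : Syl p P K) {x : Ω}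
    (h : Pt p K (O p (st K x))) :
    (orb K x).ncard = (st K x).relIndex (st K (O p (st K x))) * (orb K (O p (st K x))).ncard ∧
    (fx P (orb K x)).ncard =
      (st K x).relIndex (st K (O p (st K x))) * ((orb K (O p (st K x))).ncard - p) ∧
    D p P (orb K x) = (st K x).relIndex (st K (O p (st K x))) * p *
      (2 * p - 1 - (orb K (O p (st K x))).ncard) := by
  have h1 : (orb K x).ncard =
      (st K x).relIndex (st K (O p (st K x))) * (orb K (O p (st K x))).ncard := by
    rw [ncard_orb, ncard_orb]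
    exact (Subgroup.relIndex_mul_relIndex _ _ _ (st_le_st_O K x) (st_le _ _)).symm
  have h2 : (fx P (orb K x)).ncard =
      (st K x).relIndex (st K (O p (st K x))) * ((orb K (O p (st K x))).ncard - p) := by
    have e1 := FIX hP x
    have e2 := NU hK h hP
    rw [← nu_O hP.2.1 (st K x), h1, mul_assoc, ← e2, ← mul_assoc] at e1
    exact Nat.eq_of_mul_eq_mul_right (nu_pos hP.1) e1
  refine ⟨h1, h2, ?_⟩
  unfold D W
  rw [h2, h1]
  have := (h.card_lt hK).1
  push_cast [Nat.cast_sub this.le]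
  ring

theorem small_nonneg {K P : Subgroup G} (hK : O p K = K) (hP : Syl p P K) {x : Ω}
    (h : Pt p K (O p (st K x))) : 0 ≤ D p P (orb K x) := by
  rw [(small hK hP h).2.2]
  have := (h.card_lt hK).2
  have h2 : ((orb K (O p (st K x))).ncard : ℤ) + 1 ≤ 2 * p := by exact_mod_cast this
  apply mul_nonneg
  · positivity
  · linarith

end pts

end Cfsg.Agent.H33.SF
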