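import Cfsg.Agent.H33.SFMain

/-! Consequences of theorem B for Sylow numbers and orbit numbers. -/

set_option autoImplicit false
set_option linter.unusedSectionVars false
set_option linter.unusedVariables false

namespace Cfsg.Agent.H33.SF

open scoped Pointwise

universe u v
variable {G : Type u} [Group G] {p : ℕ} [Finite G] [Fact p.Prime]

theorem syl_map {A : Subgroup G} (S : Sylow p A) : Syl p ((S : Subgroup A).map A.subtype) A := by
  refine ⟨Subgroup.map_subtype_le _, S.isPGroup'.map _, ?_⟩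
  have : ((S : Subgroup A).map A.subtype).relIndex A = (S : Subgroup A).index := by
    rw [Subgroup.relIndex, Subgroup.subgroupOf,
      Subgroup.comap_map_eq_self_of_injective A.subtype_injective]
  rw [this]
  exact S.not_dvd_index

theorem nu_eq_sylow {A P : Subgroup G} (hP : Syl p P A) :
    nu (Nat.card P) A = Nat.card (Sylow p A) := by
  unfold nu
  rw [← Nat.card_coe_set_eq]
  symm
  refine Nat.card_congr (Equiv.ofBijective (fun S : Sylow p A =>
    (⟨(S : Subgroup A).map A.subtype, Subgroup.map_subtype_le _, (syl_map S).card hP⟩ :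
      ↥{Q : Subgroup G | Q ≤ A ∧ Nat.card Q = Nat.card P})) ⟨?_, ?_⟩)
  · intro S S' h
    have h' : (S : Subgroup A).map A.subtype = (S' : Subgroup A).map A.subtype :=
      congrArg Subtype.val h
    exact Sylow.ext (Subgroup.map_injective A.subtype_injective h')
  · rintro ⟨Q, hQ, hc⟩
    have hQs := syl_of_card hP hQ hc
    have h1 : IsPGroup p (Q.subgroupOf A) :=
      hQs.2.1.comap_of_injective A.subtype A.subtype_injective
    refine ⟨h1.toSylow hQs.2.2, ?_⟩
    apply Subtype.ext
    show (Q.subgroupOf A).map A.subtype = Q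
    rw [Subgroup.map_subgroupOf_eq_of_le hQ]

theorem syl_top (P : Sylow p G) : Syl p (P : Subgroup G) ⊤ :=
  ⟨le_top, P.isPGroup', by rw [Subgroup.relIndex_top_right]; exact P.not_dvd_index⟩

theorem card_sylow_top : Nat.card (Sylow p (⊤ : Subgroup G)) = Nat.card (Sylow p G) := by
  obtain ⟨P⟩ := (inferInstance : Nonempty (Sylow p G))
  rw [← nu_eq_sylow (syl_top P)]
  unfold nu
  rw [← Nat.card_coe_set_eq]
  symm
  refine Nat.card_congr (Equiv.ofBijective (fun S : Sylow p G =>
    (⟨(S : Subgroup G), le_top, (syl_top S).card (syl_top P)⟩ :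
      ↥{Q : Subgroup G | Q ≤ ⊤ ∧ Nat.card Q = Nat.card P})) ⟨?_, ?_⟩)
  · intro S S' h
    exact Sylow.ext (congrArg Subtype.val h)
  · rintro ⟨Q, hQ, hc⟩
    have hQs := syl_of_card (syl_top P) hQ hc
    have h3 := hQs.2.2
    rw [Subgroup.relIndex_top_right] at h3
    exact ⟨hQs.2.1.toSylow h3, rfl⟩

theorem sylow_number_bound (hgen : O p (⊤ : Subgroup G) = ⊤) (H : Subgroup G) (hH : H ≠ ⊤)
    (P : Sylow p G) (hP : (P : Subgroup G) ≤ H) :
    (2 * p - 1) * Nat.card (Sylow p ↥H) ≤ (p - 1) * Nat.card (Sylow p G) := by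
  have hp2 := (Fact.out : p.Prime).two_le
  set b : G ⧸ H := ((1 : G) : G ⧸ H) with hb
  have hstab : MulAction.stabilizer G b = H := MulAction.stabilizer_quotient H
  have hst : st (⊤ : Subgroup G) b = H := by rw [st, hstab, top_inf_eq]
  have hx : ¬ (⊤ : Subgroup G) ≤ MulAction.stabilizer G b := by
    rw [hstab]; exact fun h => hH (top_le_iff.1 h)
  have hPt := syl_top P
  have h1 := fixed_bound hgen hPt hx
  have f1 := FIX hPt b
  rw [hst, nu_eq_sylow hPt, card_sylow_top,
    nu_eq_sylow (hPt.of_le hP le_top)] at f1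
  have hn : 0 < (orb (⊤ : Subgroup G) b).ncard := by
    rw [Set.ncard_pos]; exact ⟨b, self_mem_orb _ _⟩
  unfold D W at h1
  set f := (fx (P : Subgroup G) (orb (⊤ : Subgroup G) b)).ncard
  set n := (orb (⊤ : Subgroup G) b).ncard
  have h2 : (2 * p - 1) * f ≤ (p - 1) * n := by
    have : (((2 * p - 1) * f : ℕ) : ℤ) ≤ (((p - 1) * n : ℕ) : ℤ) := by
      push_cast [Nat.cast_sub (show 1 ≤ 2 * p by omega), Nat.cast_sub (show 1 ≤ p by omega)]
      linarith
    exact_mod_cast this
  apply Nat.le_of_mul_le_mul_left _ hn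
  calc n * ((2 * p - 1) * Nat.card (Sylow p ↥H))
      = (2 * p - 1) * (n * Nat.card (Sylow p ↥H)) := by ring
    _ = (2 * p - 1) * f * Nat.card (Sylow p G) := by rw [← f1]; ring
    _ ≤ (p - 1) * n * Nat.card (Sylow p G) := Nat.mul_le_mul_right _ h2
    _ = _ := by ring

open Classical in
/-- orbit counting -/
theorem orbit_count {Ω : Type v} [MulAction G Ω] [Finite Ω] (P : Subgroup G) (hP : IsPGroup p P) :
    p * Nat.card (MulAction.orbitRel.Quotient ↥P Ω) ≤
      Nat.card Ω + (p - 1) * (fx P (Set.univ : Set Ω)).ncard := by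
  have hpp := (Fact.out : p.Prime)
  have := Fintype.ofFinite Ω
  have : Fintype (MulAction.orbitRel.Quotient ↥P Ω) := Fintype.ofFinite _
  have h1 : Nat.card Ω = ∑ ω : MulAction.orbitRel.Quotient ↥P Ω,
      Nat.card (MulAction.orbit ↥P (Quotient.out ω)) := by
    rw [Nat.card_congr (MulAction.selfEquivSigmaOrbits ↥P Ω), Nat.card_sigma]
  let F : Finset (MulAction.orbitRel.Quotient ↥P Ω) :=
    Finset.univ.filter fun ω => P ≤ MulAction.stabilizer G (Quotient.out ω)
  have hF : F.card ≤ (fx P (Set.univ : Set Ω)).ncard := by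
    rw [← Set.ncard_coe_finset]
    refine Set.ncard_le_ncard_of_injOn (fun ω => Quotient.out ω) ?_ ?_ (Set.toFinite _)
    · intro ω hω
      have : ω ∈ F := hω
      rw [Finset.mem_filter] at this
      exact ⟨Set.mem_univ _, this.2⟩
    · intro a _ b _ h
      exact Quotient.out_injective h
  have h2 : ∀ ω : MulAction.orbitRel.Quotient ↥P Ω,
      p ≤ Nat.card (MulAction.orbit ↥P (Quotient.out ω)) + (if ω ∈ F then p - 1 else 0) := by
    intro ω
    have e : Nat.card (MulAction.orbit ↥P (Quotient.out ω)) = (orb P (Quotient.out ω)).ncard := by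
      rw [orb_eq_orbit, Nat.card_coe_set_eq]
    rw [e]
    split_ifs with hω
    · have : 0 < (orb P (Quotient.out ω)).ncard := by
        rw [Set.ncard_pos]; exact ⟨_, self_mem_orb _ _⟩
      omega
    · have hno : ¬ P ≤ MulAction.stabilizer G (Quotient.out ω) := by
        intro h; exact hω (Finset.mem_filter.2 ⟨Finset.mem_univ _, h⟩)
      have := p_le_orb' (O_of_isPGroup hP) hno
      omega
  have h3 := Finset.sum_le_sum (s := Finset.univ) fun ω _ => h2 ω
  rw [Finset.sum_const, smul_eq_mul, Finset.sum_add_distrib, ← h1, Finset.sum_ite_mem,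
    Finset.univ_inter, Finset.sum_const, smul_eq_mul, Finset.card_univ,
    ← Nat.card_eq_fintype_card] at h3
  have h4 : F.card * (p - 1) ≤ (fx P (Set.univ : Set Ω)).ncard * (p - 1) :=
    Nat.mul_le_mul_right _ hF
  nlinarith

theorem orbit_bound {Ω : Type v} [MulAction G Ω] [FaithfulSMul G Ω] [Finite Ω]
    (htrans : MulAction.IsPretransitive G Ω) (hpG : p ∣ Nat.card G) (P : Sylow p G) :
    (2 * p - 1) * Nat.card (MulAction.orbitRel.Quotient ↥(P : Subgroup G) Ω) ≤
      p * Nat.card Ω := by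
  have hpp := (Fact.out : p.Prime)
  have hp2 := hpp.two_le
  set N : Subgroup G := O p ⊤ with hN
  have hNn : ∀ g : G, g • N = N := by
    intro g; rw [hN, cj_O, cj_self (Subgroup.mem_top g)]
  have hPt := syl_top P
  have hPN : (P : Subgroup G) ≤ N := le_O hPt.gen le_top
  have hPs : Syl p (P : Subgroup G) N := hPt.of_le hPN le_top
  have hnot : ∀ x : Ω, ¬ N ≤ MulAction.stabilizer G x := by
    intro x hle
    have hall : ∀ y : Ω, N ≤ MulAction.stabilizer G y := by
      intro y
      obtain ⟨g, rfl⟩ := MulAction.exists_smul_eq G x y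
      intro n hn
      have h1 : g⁻¹ * n * g ∈ N := by
        rw [← mem_cj, hNn]; exact hn
      have h2 := MulAction.mem_stabilizer_iff.1 (hle h1)
      rw [mul_smul, mul_smul, inv_smul_eq_iff] at h2
      exact MulAction.mem_stabilizer_iff.2 h2
    have hbot : N = ⊥ := by
      rw [eq_bot_iff]
      intro n hn
      rw [Subgroup.mem_bot]
      apply FaithfulSMul.eq_of_smul_eq_smul (α := Ω)
      intro y
      rw [one_smul]
      exact MulAction.mem_stabilizer_iff.1 (hall y hn)
    obtain ⟨g, hg⟩ := exists_prime_orderOf_dvd_card' p hpG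
    have hgN : g ∈ N := mem_O (Subgroup.mem_top g) ⟨1, by rw [pow_one, ← hg]; exact pow_orderOf_eq_one g⟩
    rw [hbot, Subgroup.mem_bot] at hgN
    rw [hgN, orderOf_one] at hg
    omega
  have hD : 0 ≤ D p (P : Subgroup G) (Set.univ : Set Ω) :=
    D_nonneg (T := N) (fun _ _ _ _ => Set.mem_univ _) fun x _ =>
      fixed_bound (O_idem _) hPs (hnot x)
  have hc := orbit_count (p := p) (Ω := Ω) (P : Subgroup G) P.isPGroup'
  unfold D W at hD
  rw [Set.ncard_univ] at hD
  set f := (fx (P : Subgroup G) (Set.univ : Set Ω)).ncard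
  set n := Nat.card Ω
  set t := Nat.card (MulAction.orbitRel.Quotient ↥(P : Subgroup G) Ω)
  have hcz : (p : ℤ) * t ≤ n + (p - 1) * f := by
    have : ((p * t : ℕ) : ℤ) ≤ ((n + (p - 1) * f : ℕ) : ℤ) := by exact_mod_cast hc
    push_cast [Nat.cast_sub (show 1 ≤ p by omega)] at this
    exact this
  have hpz : (2 : ℤ) ≤ p := by exact_mod_cast hp2
  have hres : (2 * (p : ℤ) - 1) * t ≤ p * n := by
    have h1 : (p : ℤ) * ((2 * (p : ℤ) - 1) * t) ≤ p * (p * n) := by
      have a1 := mul_le_mul_of_nonneg_left hcz (show (0 : ℤ) ≤ 2 * p - 1 by linarith)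
      have a2 := mul_le_mul_of_nonneg_left hD (show (0 : ℤ) ≤ (p : ℤ) - 1 by linarith)
      nlinarith
    exact le_of_mul_le_mul_left h1 (by linarith)
  have : (((2 * p - 1) * t : ℕ) : ℤ) ≤ ((p * n : ℕ) : ℤ) := by
    push_cast [Nat.cast_sub (show 1 ≤ 2 * p by omega)]
    exact hres
  exact_mod_cast this

end Cfsg.Agent.H33.SF
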