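import Cfsg.Agent.H33.SFCount

/-! The inductive statement, imprimitive orbits, primitive contexts. -/

set_option autoImplicit false
set_option linter.unusedSectionVars false
set_option linter.unusedVariables false

namespace Cfsg.Agent.H33.SF

open scoped Pointwise

universe u

/-- the inductive statement -/
def ThB (G : Type u) [Group G] (p N : ℕ) : Prop :=
  ∀ (Ω : Type u) [MulAction G Ω] [Finite Ω] (K P : Subgroup G) (x : Ω),
    O p K = K → Syl p P K → (orb K x).ncard < N → ¬ K ≤ MulAction.stabilizer G x →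
    0 ≤ D p P (orb K x) ∧ (D p P (orb K x) < p * (p - 1) → Pt p K (O p (st K x)))

theorem ThB.mono {G : Type u} [Group G] {p N N' : ℕ} (h : ThB G p N) (hN : N' ≤ N) :
    ThB G p N' := fun Ω _ _ K P x h1 h2 h3 h4 => h Ω K P x h1 h2 (h3.trans_le hN) h4

variable {G : Type u} [Group G] {p : ℕ} [Finite G] [Fact p.Prime]

theorem imp_aux {Ω : Type u} [MulAction G Ω] [Finite Ω] {K P : Subgroup G} (hK : O p K = K)
    (hP : Syl p P K) {x : Ω} (hPx : P ≤ MulAction.stabilizer G x)
    (ih : ThB G p (orb K x).ncard) {B : Subgroup G}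
    (hxB : st K x ≤ B) (hBK : B ≤ K) (hne1 : B ≠ st K x) (hne2 : B ≠ K) :
    0 ≤ D p P (orb K x) ∧ (D p P (orb K x) < 2 * p * (p - 1) → Pt p K (O p (st K x))) := by
  have hp : 2 ≤ p := (Fact.out : p.Prime).two_le
  have hPst : P ≤ st K x := le_inf hP.1 hPx
  have hPB : P ≤ B := hPst.trans hxB
  have hsB : st B x = st K x := by
    apply le_antisymm (st_mono hBK x)
    intro g hg
    rw [mem_st]; exact ⟨hxB hg, (mem_st.1 hg).2⟩
  -- the action on `G ⧸ B`
  set b : G ⧸ B := ((1 : G) : G ⧸ B) with hb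
  have hstab : MulAction.stabilizer G b = B := MulAction.stabilizer_quotient B
  have hstb : st K b = B := by rw [st, hstab, inf_eq_right.2 hBK]
  have hnb : (orb K b).ncard = B.relIndex K := by rw [ncard_orb, hstb]
  have hKb : ¬ K ≤ MulAction.stabilizer G b := by
    rw [hstab]; exact fun h => hne2 (le_antisymm hBK h)
  have hm : 2 ≤ (st K x).relIndex B := by
    have h1 := ri_pos (st K x) B
    have h2 : (st K x).relIndex B ≠ 1 := by
      rw [Ne, Subgroup.relIndex_eq_one]; exact fun h => hne1 (le_antisymm h hxB)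
    omega
  have hn : (orb K x).ncard = (st K x).relIndex B * (orb K b).ncard := by
    rw [ncard_orb, hnb]; exact (Subgroup.relIndex_mul_relIndex _ _ _ hxB hBK).symm
  have hmB : (orb B x).ncard = (st K x).relIndex B := by rw [ncard_orb, hsB]
  obtain ⟨s, hs1, hs⟩ := orb_long hK hP hKb
  have hnb0 : 0 < (orb K b).ncard := by rw [hnb]; exact ri_pos _ _
  have hnbp : p ≤ (orb K b).ncard := by
    have : p * 1 ≤ p * s := Nat.mul_le_mul_left _ hs1
    omega
  have hlt : (orb K b).ncard < (orb K x).ncard := by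
    rw [hn]; nlinarith
  obtain ⟨i1, i2⟩ := ih (G ⧸ B) K P b hK hP hlt hKb
  -- counting
  have f1 := FIX hP x
  have f2 := FIX hP b
  have f3 := FIX (hP.of_le hPB hBK) x
  rw [hstb] at f2 i2
  rw [hsB, hmB] at f3
  have hnuK : 0 < nu (Nat.card P) K := nu_pos hP.1
  have hff : (fx P (orb K x)).ncard = (fx P (orb B x)).ncard * (fx P (orb K b)).ncard := by
    apply Nat.eq_of_mul_eq_mul_right hnuK
    rw [f1, hn]
    calc (st K x).relIndex B * (orb K b).ncard * nu (Nat.card P) (st K x)
        = (orb K b).ncard * ((st K x).relIndex B * nu (Nat.card P) (st K x)) := by ring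
      _ = (orb K b).ncard * ((fx P (orb B x)).ncard * nu (Nat.card P) B) := by rw [f3]
      _ = (fx P (orb B x)).ncard * ((orb K b).ncard * nu (Nat.card P) B) := by ring
      _ = (fx P (orb B x)).ncard * ((fx P (orb K b)).ncard * nu (Nat.card P) K) := by rw [f2]
      _ = _ := by ring
  have hOB : O p (st K x) ≤ O p B := O_mono hxB
  have hpz : (2 : ℤ) ≤ p := by exact_mod_cast hp
  have hmz : (2 : ℤ) ≤ ((st K x).relIndex B : ℤ) := by exact_mod_cast hm
  have hDb : D p P (orb K b) = ((p : ℤ) - 1) * (orb K b).ncard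
      - (2 * p - 1) * (fx P (orb K b)).ncard := rfl
  have hDx : D p P (orb K x) = ((p : ℤ) - 1) * (orb K x).ncard
      - (2 * p - 1) * (fx P (orb K x)).ncard := rfl
  by_cases hc : O p B ≤ MulAction.stabilizer G x
  · -- the blocks over fixed points are fixed pointwise
    have hOe : O p B = O p (st K x) := by
      refine le_antisymm (le_O (O_idem _) ?_) hOB
      exact le_inf ((O_le _).trans hBK) hc
    have e1 : (fx P (orb B x)).ncard = (st K x).relIndex B := by
      rw [← nu_O hP.2.1 (st K x), ← hOe, nu_O hP.2.1] at f3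
      exact Nat.eq_of_mul_eq_mul_right (nu_pos hPB) f3
    have e2 : D p P (orb K x) = ((st K x).relIndex B : ℤ) * D p P (orb K b) := by
      rw [hDx, hDb, hff, hn, e1]; push_cast; ring
    rw [e2]
    refine ⟨mul_nonneg (by positivity) i1, fun hlt' => ?_⟩
    rw [← hOe]
    apply i2
    nlinarith
  · have e3 : 0 ≤ D p P (orb B x) := by
      refine D_nonneg (T := O p B) ((INV_orb B x).mono (O_le _)) fun y hy => ?_
      have hny : ¬ O p B ≤ MulAction.stabilizer G y := by
        intro hle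
        obtain ⟨c, hcB, rfl⟩ := hy
        apply hc
        intro g hg
        have h1 : c * g * c⁻¹ ∈ O p B := by
          have := cj_mem (g := c) hg
          rwa [cj_O, cj_self hcB] at this
        have h2 := MulAction.mem_stabilizer_iff.1 (hle h1)
        rw [MulAction.mem_stabilizer_iff]
        simpa [mul_smul] using h2
      have hle1 : (orb (O p B) y).ncard ≤ (orb B x).ncard := by
        refine Set.ncard_le_ncard ?_ (Set.toFinite _)
        exact ((INV_orb B x).mono (O_le _)).orb_subset hy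
      have hlt2 : (orb (O p B) y).ncard < (orb K x).ncard := by
        refine hle1.trans_lt ?_
        rw [hmB, hn]; nlinarith
      have hPO : P ≤ O p B := le_O hP.gen hPB
      exact (ih Ω (O p B) P y (O_idem _) (hP.of_le hPO ((O_le _).trans hBK)) hlt2 hny).1
    have e4 : (2 * (p : ℤ) - 1) * (fx P (orb B x)).ncard ≤
        ((p : ℤ) - 1) * ((st K x).relIndex B : ℤ) := by
      unfold D W at e3
      rw [hmB] at e3
      linarith
    have e5 : ((orb K b).ncard : ℤ) = (fx P (orb K b)).ncard + p * s := by exact_mod_cast hs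
    have hsz : (1 : ℤ) ≤ s := by exact_mod_cast hs1
    have e6 : 2 * (p : ℤ) * (p - 1) ≤ D p P (orb K x) := by
      rw [hDx, hff, hn]
      push_cast
      rw [e5]
      have g1 : (2 * (p : ℤ) - 1) * (((fx P (orb B x)).ncard : ℤ) * (fx P (orb K b)).ncard)
          ≤ ((p : ℤ) - 1) * ((st K x).relIndex B : ℤ) * (fx P (orb K b)).ncard := by
        have := mul_le_mul_of_nonneg_right e4
          (show (0 : ℤ) ≤ ((fx P (orb K b)).ncard : ℤ) by positivity)
        linarith
      have g2 : (2 : ℤ) * 1 ≤ ((st K x).relIndex B : ℤ) * s := by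
        apply mul_le_mul hmz hsz <;> positivity
      have g3 : (p : ℤ) * (p - 1) * (2 * 1) ≤
          (p : ℤ) * (p - 1) * (((st K x).relIndex B : ℤ) * s) := by
        apply mul_le_mul_of_nonneg_left g2
        apply mul_nonneg <;> linarith
      nlinarith
    refine ⟨le_trans ?_ e6, fun hlt' => absurd hlt' (not_lt.2 e6)⟩
    apply mul_nonneg <;> linarith

theorem IMP {Ω : Type u} [MulAction G Ω] [Finite Ω] {K P : Subgroup G} (hK : O p K = K)
    (hP : Syl p P K) {x : Ω}
    (ih : ThB G p (orb K x).ncard) {B : Subgroup G}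
    (hxB : st K x ≤ B) (hBK : B ≤ K) (hne1 : B ≠ st K x) (hne2 : B ≠ K) :
    0 ≤ D p P (orb K x) ∧ (D p P (orb K x) < 2 * p * (p - 1) → Pt p K (O p (st K x))) := by
  have hp : 2 ≤ p := (Fact.out : p.Prime).two_le
  have hpz : (2 : ℤ) ≤ p := by exact_mod_cast hp
  rcases (fx P (orb K x)).eq_empty_or_nonempty with h0 | ⟨y, hy, hy'⟩
  · have hn : (orb K x).ncard = (st K x).relIndex B * B.relIndex K := by
      rw [ncard_orb]; exact (Subgroup.relIndex_mul_relIndex _ _ _ hxB hBK).symm
    have hm : 2 ≤ (st K x).relIndex B := by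
      have h1 := ri_pos (st K x) B
      have h2 : (st K x).relIndex B ≠ 1 := by
        rw [Ne, Subgroup.relIndex_eq_one]; exact fun h => hne1 (le_antisymm h hxB)
      omega
    have hb : p ≤ B.relIndex K := by
      by_contra hlt
      push Not at hlt
      exact hne2 (le_antisymm hBK (IDX hK hlt))
    have hD : D p P (orb K x) = ((p : ℤ) - 1) * (orb K x).ncard := by
      unfold D W; rw [h0]; simp
    have h2p : 2 * p ≤ (orb K x).ncard := by rw [hn]; exact Nat.mul_le_mul hm hb
    have h2pz : 2 * (p : ℤ) ≤ (orb K x).ncard := by exact_mod_cast h2p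
    have e6 : 2 * (p : ℤ) * (p - 1) ≤ D p P (orb K x) := by
      rw [hD]; nlinarith
    refine ⟨le_trans ?_ e6, fun hlt' => absurd hlt' (not_lt.2 e6)⟩
    apply mul_nonneg <;> linarith
  · obtain ⟨k, hk, rfl⟩ := hy
    have hk' := K.inv_mem hk
    have hP' : Syl p (k⁻¹ • P) K := by
      have := hP.cj k⁻¹
      rwa [cj_self hk'] at this
    rw [← D_syl hP hP' (INV_orb K x)]
    refine imp_aux hK hP' ?_ ih hxB hBK hne1 hne2
    intro g hg
    rw [mem_cj] at hg
    have := MulAction.mem_stabilizer_iff.1 (hy' hg)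
    rw [MulAction.mem_stabilizer_iff]
    rw [inv_inv, mul_smul, mul_smul, inv_smul_smul, smul_left_cancel_iff] at this
    exact this

variable (p)

/-- primitive context: `Γ` is a class of `p`-generated subgroups of `K` on which `K` acts
primitively -/
structure Ctx (K : Subgroup G) (Γ : Set (Subgroup G)) : Prop where
  gen : O p K = K
  inv : INV K Γ
  trans : ∀ A ∈ Γ, ∀ B ∈ Γ, B ∈ orb K A
  ost : ∀ A ∈ Γ, O p (st K A) = A
  mx : ∀ A ∈ Γ, ∀ B, st K A ≤ B → B ≤ K → B = st K A ∨ B = K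
  ne : ∀ A ∈ Γ, ¬ K ≤ st K A
  syl : ∀ A ∈ Γ, ¬ p ∣ A.relIndex K

variable {p}

namespace Ctx
variable {K : Subgroup G} {Γ : Set (Subgroup G)} (c : Ctx p K Γ)
include c

theorem le {A : Subgroup G} (hA : A ∈ Γ) : A ≤ K := by
  rw [← c.ost A hA]; exact (O_le _).trans (st_le _ _)

theorem genA {A : Subgroup G} (hA : A ∈ Γ) : O p A = A := by
  rw [← c.ost A hA]; exact O_idem _

theorem le_of_stab {A H : Subgroup G} (hA : A ∈ Γ) (hH : H ≤ K) (hg : O p H = H)
    (h : H ≤ MulAction.stabilizer G A) : H ≤ A := by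
  have := le_O hg (le_inf hH h)
  rwa [← st, c.ost A hA] at this

theorem le_stab {A H : Subgroup G} (h : H ≤ A) : H ≤ MulAction.stabilizer G A :=
  fun g hg => MulAction.mem_stabilizer_iff.2 (cj_self (h hg))

theorem eq_of_le {A B : Subgroup G} (hA : A ∈ Γ) (hB : B ∈ Γ) (h : A ≤ B) : A = B :=
  eq_of_le_orb (c.trans A hA A hA) (c.trans A hA B hB) h

theorem orb_eq {A : Subgroup G} (hA : A ∈ Γ) : orb K A = Γ :=
  Set.Subset.antisymm (c.inv.orb_subset hA) fun B hB => c.trans A hA B hB

theorem O_st {A H : Subgroup G} (hA : A ∈ Γ) (hH : H ≤ K) : O p (st H A) = mt p H A := by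
  apply le_antisymm
  · refine le_mt (O_idem _) ((O_le _).trans (st_le _ _)) ?_
    exact c.le_of_stab hA ((O_le _).trans ((st_le _ _).trans hH)) (O_idem _)
      ((O_le _).trans inf_le_right)
  · refine le_O (O_mt _ _) (le_inf (mt_le_left _ _) ?_)
    exact c.le_stab (mt_le_right _ _)

theorem exists_syl {A : Subgroup G} (hA : A ∈ Γ) : ∃ P, Syl p P K ∧ P ≤ A :=
  exists_syl_le (c.le hA) (c.syl A hA)

theorem inv_le {A : Subgroup G} (hA : A ∈ Γ) : INV A Γ := c.inv.mono (c.le hA)

theorem stabA {A : Subgroup G} : A ≤ MulAction.stabilizer G A := c.le_stab le_rfl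

theorem not_stab {A B : Subgroup G} (hA : A ∈ Γ) (hB : B ∈ Γ) (h : B ≠ A) :
    ¬ A ≤ MulAction.stabilizer G B := fun hle =>
  h (c.eq_of_le hA hB (c.le_of_stab hB (c.le hA) (c.genA hA) hle)).symm

theorem INV_diff {A : Subgroup G} (hA : A ∈ Γ) : INV A (Γ \ {A}) :=
  (c.inv_le hA).diff (INV_singleton c.stabA)

theorem orb_sub {A B : Subgroup G} (hA : A ∈ Γ) (hB : B ∈ Γ) (h : B ≠ A) :
    orb A B ⊆ Γ \ {A} := (c.INV_diff hA).orb_subset ⟨hB, h⟩

theorem orb_lt {A B H : Subgroup G} (hA : A ∈ Γ) (hB : B ∈ Γ) (h : B ≠ A) (hH : H ≤ A) :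
    (orb H B).ncard < Γ.ncard := by
  refine Set.ncard_lt_ncard ⟨?_, fun h' => ?_⟩ (Set.toFinite _)
  · exact ((orb_mono hH B).trans (c.orb_sub hA hB h)).trans Set.sdiff_subset
  · exact (c.orb_sub hA hB h (orb_mono hH B (h' hA))).2 rfl

/-- induction hypothesis for subgroups of members -/
theorem IH (ih : ThB G p Γ.ncard) {A B H P : Subgroup G} (hA : A ∈ Γ) (hB : B ∈ Γ) (h : B ≠ A)
    (hH : H ≤ A) (hg : O p H = H) (hP : Syl p P H) (hn : ¬ H ≤ B) :
    0 ≤ D p P (orb H B) ∧ (D p P (orb H B) < p * (p - 1) → Pt p H (mt p H B)) := by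
  have := ih (Subgroup G) H P B hg hP (c.orb_lt hA hB h hH)
    (fun hle => hn (c.le_of_stab hB (hH.trans (c.le hA)) hg hle))
  rwa [c.O_st hB (hH.trans (c.le hA))] at this

theorem D_diff {A P : Subgroup G} (hA : A ∈ Γ) (hP : P ≤ A) :
    D p P (Γ \ {A}) = D p P Γ + p := by
  have := SF.D_diff p P (S := Γ) (T := {A}) (Set.singleton_subset_iff.2 hA)
  rw [D_singleton p P (c.le_stab hP)] at this
  linarith

theorem ne_of {A B : Subgroup G} (hA : A ∈ Γ) (hB : B ∈ Γ) (h : B ≠ A) : ¬ A ≤ B :=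
  fun hle => h (c.eq_of_le hA hB hle).symm

theorem syl_le {A P : Subgroup G} (hP : Syl p P K) (hA : A ∈ Γ) (h : P ≤ A) : Syl p P A :=
  hP.of_le h (c.le hA)

/-- a Sylow subgroup of a member is one of `K` -/
theorem syl_of {A P : Subgroup G} (hA : A ∈ Γ) (hP : Syl p P A) : Syl p P K := by
  obtain ⟨Q, hQ, hQA⟩ := c.exists_syl hA
  obtain ⟨k, hk, rfl⟩ := (c.syl_le hQ hA hQA).conj hP
  have := hQ.cj k
  rwa [cj_self (c.le hA hk)] at this

end Ctx

end Cfsg.Agent.H33.SF
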