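import Cfsg.Agent.H33.SFBeta3

/-! Theorem B: fixed points of Sylow subgroups. -/

set_option autoImplicit false
set_option linter.unusedSectionVars false
set_option linter.unusedVariables false

namespace Cfsg.Agent.H33.SF

open scoped Pointwise

universe u
variable {G : Type u} [Group G] {p : ℕ} [Finite G] [Fact p.Prime]

theorem Ctx.level {K : Subgroup G} {Γ : Set (Subgroup G)} (c : Ctx p K Γ)
    (ih : ThB G p Γ.ncard) (hD : Ctx.LH p K Γ)
    (hs : ∀ P, Syl p P K → (fx P Γ).ncard + 2 * p ≤ Γ.ncard) (hne : Γ.Nonempty) :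
    (∀ A ∈ Γ, ∀ B ∈ Γ, B ≠ A → Γ \ {A} = orb A B ∧
      ∀ C, st A B ≤ C → C ≤ A → C = st A B ∨ C = A) ∨
    (5 ≤ p ∧ Γ.ncard = 2 * p + 3 ∧ ∀ P, Syl p P K → (fx P Γ).ncard = 3) := by
  by_cases h : ∃ A ∈ Γ, ∃ B, B ∈ Ctx.Θ p Γ A
  · left
    obtain ⟨A, hA, B, hB⟩ := h
    have hall := c.all_bad ih hD hA hB
    intro A' hA' B' hB' hne'
    have h1 := hall A' hA' B' hB' hne'
    refine ⟨?_, c.bad_max ih hD hA' h1⟩
    rw [← c.Θ_eq ih hD hA' h1]
    exact Set.Subset.antisymm (fun X hX => hall A' hA' X hX.1 hX.2) c.Θ_sub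
  · right
    push Not at h
    refine c.good_final ih hD (fun A hA B hB hBA => ?_) hs hne
    by_contra hno
    exact h A hA B ⟨hB, hBA, hno⟩

theorem normal_all {K P N : Subgroup G} (hK : O p K = K) (hP : Syl p P K) (hPN : P ≤ N)
    (h : K ≤ st K N) : K ≤ N := by
  conv_lhs => rw [← hK]
  refine O_le_of fun y hy hpy => ?_
  obtain ⟨k, hk, hk'⟩ := PQ (K := K) (M := P) (isPGroup_zpowers hpy)
    (by rwa [Subgroup.zpowers_le]) hP.2.2
  rw [Subgroup.zpowers_le] at hk'
  have h3 : k • P ≤ k • N := cj_le.2 hPN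
  rw [(mem_st.1 (h hk)).2] at h3
  exact h3 hk'

/-- primitive actions give contexts -/
theorem PR {Ω : Type*} [MulAction G Ω] [Finite Ω] {K P : Subgroup G} (hK : O p K = K)
    (hP : Syl p P K) {x : Ω} (hPx : P ≤ MulAction.stabilizer G x)
    (hx : ¬ K ≤ MulAction.stabilizer G x)
    (hmax : ∀ B, st K x ≤ B → B ≤ K → B = st K x ∨ B = K) :
    Ctx p K (orb K (O p (st K x))) ∧
      (orb K (O p (st K x))).ncard = (orb K x).ncard ∧
      (fx P (orb K (O p (st K x)))).ncard = (fx P (orb K x)).ncard := by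
  have hPst : P ≤ st K x := le_inf hP.1 hPx
  have hPX : P ≤ O p (st K x) := le_O hP.gen hPst
  have hXK : O p (st K x) ≤ K := (O_le _).trans (st_le _ _)
  have e : st K (O p (st K x)) = st K x := by
    rcases hmax _ (st_le_st_O (p := p) K x) (st_le _ _) with h | h
    · exact h
    · exfalso
      have := normal_all hK hP hPX h.ge
      exact hx (this.trans ((O_le (p := p) _).trans inf_le_right))
  refine ⟨?_, ?_, ?_⟩
  · refine ⟨hK, INV_orb _ _, ?_, ?_, ?_, ?_, ?_⟩
    · intro A hA B hB
      exact orb_trans (orb_symm hA) hB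
    · rintro A ⟨k, hk, rfl⟩
      rw [st_smul hk, ← cj_O, e]
    · rintro A ⟨k, hk, rfl⟩ B h1 h2
      rw [st_smul hk, e] at h1 ⊢
      have h3 : st K x ≤ k⁻¹ • B := by rw [← cj_le_iff]; exact h1
      have h4 : k⁻¹ • B ≤ K := by
        have : k⁻¹ • B ≤ k⁻¹ • K := cj_le.2 h2
        rwa [cj_self (K.inv_mem hk)] at this
      rcases hmax _ h3 h4 with h | h
      · left; rw [← h, smul_inv_smul]
      · right
        have : k • K = B := by rw [← h, smul_inv_smul]
        rw [← this, cj_self hk]
    · rintro A ⟨k, hk, rfl⟩ hle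
      rw [st_smul hk, e, le_cj_iff, cj_self (K.inv_mem hk)] at hle
      exact hx (hle.trans inf_le_right)
    · rintro A ⟨k, hk, rfl⟩
      have : (k • O p (st K x)).relIndex K = (O p (st K x)).relIndex K := by
        have h5 := relIndex_cj k (O p (st K x)) K
        rwa [cj_self hk] at h5
      rw [this]
      exact hP.ndvd hPX hXK
  · rw [ncard_orb, ncard_orb, e]
  · have f1 := FIX hP x
    have f2 := FIX hP (O p (st K x))
    have : (orb K (O p (st K x))).ncard = (orb K x).ncard := by rw [ncard_orb, ncard_orb, e]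
    rw [e, this, ← f1] at f2
    exact Nat.eq_of_mul_eq_mul_right (nu_pos hP.1) f2

theorem Ctx.ndvd {K P : Subgroup G} {Γ : Set (Subgroup G)} (c : Ctx p K Γ) (hP : Syl p P K)
    (hf : 0 < (fx P Γ).ncard) : ¬ p ∣ Γ.ncard := by
  rw [Set.ncard_pos] at hf
  obtain ⟨A, hA, hA'⟩ := hf
  have := c.le_of_stab hA hP.1 hP.gen hA'
  rw [← c.orb_eq hA, ncard_orb]
  exact hP.ndvd (this.trans (c.A_le_st hA)) (st_le _ _)

/-- the tower -/
theorem tower {K P : Subgroup G} {Γ : Set (Subgroup G)} (c : Ctx p K Γ) (hP : Syl p P K)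
    (ih : ThB G p Γ.ncard) {s : ℕ} (hs : Γ.ncard = (fx P Γ).ncard + p * s) (hs2 : 2 ≤ s)
    (hd : (p - 1) * s ≤ (fx P Γ).ncard + (p - 2)) (hf : p ≤ (fx P Γ).ncard) : False := by
  have hpp := (Fact.out : p.Prime)
  have hp2 := hpp.two_le
  set n := Γ.ncard with hn
  set f := (fx P Γ).ncard with hff
  have hps : p * 2 ≤ p * s := Nat.mul_le_mul_left _ hs2
  have key : ∀ j, j ≤ p - 1 → ∃ (K' : Subgroup G) (Γ' : Set (Subgroup G)), Ctx p K' Γ' ∧
      Syl p P K' ∧ Γ'.ncard + j = n ∧ (fx P Γ').ncard + j = f ∧ ∀ i ≤ j, ¬ p ∣ n - i := by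
    intro j
    induction j with
    | zero =>
      intro _
      refine ⟨K, Γ, c, hP, rfl, rfl, fun i hi => ?_⟩
      have : i = 0 := by omega
      rw [this, Nat.sub_zero]
      exact c.ndvd hP (by omega)
    | succ j ihj =>
      intro hj
      obtain ⟨K', Γ', c', hP', h1, h2, h3⟩ := ihj (by omega)
      have hl : Γ'.ncard = (fx P Γ').ncard + p * s := by omega
      have hDe := D_eq (P := P) hl
      have hpz : (2 : ℤ) ≤ p := by exact_mod_cast hp2
      have hDle : D p P Γ' ≤ p * (2 * p - 4) := by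
        rw [hDe]
        apply mul_le_mul_of_nonneg_left _ (by linarith)
        have e1 : (((p - 1) * s : ℕ) : ℤ) ≤ ((f + (p - 2) : ℕ) : ℤ) := by exact_mod_cast hd
        push_cast [Nat.cast_sub (show 1 ≤ p by omega), Nat.cast_sub hp2] at e1
        have e2 : ((fx P Γ').ncard : ℤ) + j = f := by exact_mod_cast h2
        have e3 : (j : ℤ) + 2 ≤ p := by
          have : j + 2 ≤ p := by omega
          exact_mod_cast this
        linarith
      have hLH : Ctx.LH p K' Γ' := by
        intro Q hQ
        rw [D_syl hP' hQ c'.inv]; exact hDle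
      have hs' : ∀ Q, Syl p Q K' → (fx Q Γ').ncard + 2 * p ≤ Γ'.ncard := by
        intro Q hQ
        rw [fx_syl hP' hQ c'.inv, hl]; omega
      have hf2 : 1 < (fx P Γ').ncard := by omega
      obtain ⟨A, hA, hA'⟩ : (fx P Γ').Nonempty := by
        rw [← Set.ncard_pos]; omega
      obtain ⟨B, ⟨hB, hB'⟩, hBA⟩ := Set.exists_ne_of_one_lt_ncard hf2 A
      have hPA := c'.le_of_stab hA hP'.1 hP'.gen hA'
      have hPB := c'.le_of_stab hB hP'.1 hP'.gen hB'
      rcases c'.level (ih.mono (by omega)) hLH hs' ⟨A, hA⟩ with hlev | ⟨hp5, g1, g2⟩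
      · obtain ⟨l1, l2⟩ := hlev A hA B hB hBA
        have sA := c'.syl_le hP' hA hPA
        obtain ⟨c'', r1, r2⟩ := PR (c'.genA hA) sA hB' (c'.not_stab hA hB hBA) l2
        rw [← l1] at r1 r2
        have q1 := Set.ncard_sdiff_singleton_add_one hA (Set.toFinite Γ')
        have hfA : fx P (Γ' \ {A}) = fx P Γ' \ {A} := by
          ext X; simp only [mem_fx, Set.mem_sdiff, Set.mem_singleton_iff]; tauto
        have q2 := Set.ncard_sdiff_singleton_add_one (show A ∈ fx P Γ' from ⟨hA, hA'⟩)
          (Set.toFinite (fx P Γ'))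
        rw [hfA] at r2
        refine ⟨A, _, c'', sA, by omega, by omega, fun i hi => ?_⟩
        rcases Nat.lt_or_ge j i with hij | hij
        · have e4 : i = j + 1 := by omega
          have e5 : n - i = (orb A (O p (st A B))).ncard := by omega
          rw [e5]
          exact c''.ndvd sA (by omega)
        · exact h3 i hij
      · exfalso
        have g3 := g2 P hP'
        have e6 : s = 2 := by
          have : p * s = p * 2 := by omega
          exact Nat.eq_of_mul_eq_mul_left hpp.pos this
        apply h3 (j + 3 - p) (by omega)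
        have e7 : n - (j + 3 - p) = 3 * p := by omega
        rw [e7]
        exact ⟨3, by ring⟩
  obtain ⟨K', Γ', c', hP', h1, h2, h3⟩ := key (p - 1) le_rfl
  have hmod : n % p < p := Nat.mod_lt _ hpp.pos
  exact h3 (n % p) (by omega) (Nat.dvd_sub_mod n)

theorem thmB (N : ℕ) : ThB G p N := by
  induction N with
  | zero => intro Ω _ _ K P x _ _ h; exact absurd h (Nat.not_lt_zero _)
  | succ N ih =>
    intro Ω _ _ K P x hK hP hlt hx
    rcases Nat.lt_or_ge (orb K x).ncard N with h | h
    · exact ih Ω K P x hK hP h hx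
    have hN : (orb K x).ncard = N := by omega
    rw [← hN] at ih
    clear hN h hlt
    have hpp := (Fact.out : p.Prime)
    have hp2 := hpp.two_le
    have hpz : (2 : ℤ) ≤ p := by exact_mod_cast hp2
    rcases (fx P (orb K x)).eq_empty_or_nonempty with h0 | ⟨y, hy, hy'⟩
    · have hD : D p P (orb K x) = ((p : ℤ) - 1) * (orb K x).ncard := by
        unfold D W; rw [h0]; simp
      have h1 : (p : ℤ) ≤ (orb K x).ncard := by exact_mod_cast p_le_orb' hK hx
      have h2 : (p : ℤ) * (p - 1) ≤ D p P (orb K x) := by rw [hD]; nlinarith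
      exact ⟨le_trans (mul_nonneg (by linarith) (by linarith)) h2,
        fun h => absurd h (not_lt.2 h2)⟩
    -- we may assume that `P` fixes `x`
    obtain ⟨P', hP', hPx⟩ : ∃ P', Syl p P' K ∧ P' ≤ MulAction.stabilizer G x := by
      obtain ⟨k, hk, rfl⟩ := hy
      have hk' := K.inv_mem hk
      refine ⟨k⁻¹ • P, ?_, ?_⟩
      · have := hP.cj k⁻¹
        rwa [cj_self hk'] at this
      · intro g hg
        rw [mem_cj] at hg
        have := MulAction.mem_stabilizer_iff.1 (hy' hg)
        rw [MulAction.mem_stabilizer_iff]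
        rw [inv_inv, mul_smul, mul_smul, inv_smul_smul, smul_left_cancel_iff] at this
        exact this
    rw [← D_syl hP hP' (INV_orb K x)]
    clear hP hy'
    by_cases hB : ∃ B, st K x ≤ B ∧ B ≤ K ∧ B ≠ st K x ∧ B ≠ K
    · obtain ⟨B, h1, h2, h3, h4⟩ := hB
      obtain ⟨i1, i2⟩ := IMP hK hP' ih h1 h2 h3 h4
      refine ⟨i1, fun h => i2 (h.trans_le ?_)⟩
      nlinarith
    have hmax : ∀ B, st K x ≤ B → B ≤ K → B = st K x ∨ B = K := by
      intro B h1 h2
      by_contra hno
      push Not at hno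
      exact hB ⟨B, h1, h2, hno.1, hno.2⟩
    have hPst : P' ≤ st K x := le_inf hP'.1 hPx
    obtain ⟨c, r1, r2⟩ := PR hK hP' hPx hx hmax
    rcases Nat.lt_or_ge (orb K x).ncard (2 * p) with hlt | hge
    · have hpt : Pt p K (O p (st K x)) := by
        refine ⟨st K x, st_le _ _, ?_, ?_, rfl⟩
        · have h1 := p_le_orb' hK hx
          rw [ncard_orb] at h1
          have h2 : (st K x).relIndex K ≠ p := by
            intro he
            exact hP'.ndvd hPst (st_le _ _) (by rw [he])
          omega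
        · rw [← ncard_orb]; exact hlt
      exact ⟨small_nonneg hK hP' hpt, fun _ => hpt⟩
    · -- the main case
      have hDc : D p P' (orb K (O p (st K x))) = D p P' (orb K x) := by
        unfold D W; rw [r1, r2]
      have main : ¬ D p P' (orb K x) < p * (p - 1) := by
        intro hDlt
        obtain ⟨s, hs⟩ := long hP'.2.1 ((INV_orb K (O p (st K x))).mono hP'.1)
        have hDe := D_eq (P := P') hs
        have hPX : P' ≤ O p (st K x) := le_O hP'.gen hPst
        have hXΓ := self_mem_orb K (O p (st K x))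
        have hlow : 0 ≤ D p P' (orb K (O p (st K x)) \ {O p (st K x)}) := by
          refine D_nonneg (T := O p (st K x)) (c.INV_diff hXΓ) fun Y hY => ?_
          exact (c.IH (by rw [r1]; exact ih) hXΓ hY.1 hY.2 le_rfl (c.genA hXΓ)
            (c.syl_le hP' hXΓ hPX) (c.ne_of hXΓ hY.1 hY.2)).1
        rw [c.D_diff hXΓ hPX, hDe] at hlow
        rw [← hDc, hDe] at hDlt
        have u1 : ((p : ℤ) - 1) * s - (fx P' (orb K (O p (st K x)))).ncard < p - 1 :=
          lt_of_mul_lt_mul_left hDlt (by linarith)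
        have u2 : (-1 : ℤ) ≤ ((p : ℤ) - 1) * s - (fx P' (orb K (O p (st K x)))).ncard := by
          have : (p : ℤ) * (-1) ≤
              p * (((p : ℤ) - 1) * s - (fx P' (orb K (O p (st K x)))).ncard) := by linarith
          exact le_of_mul_le_mul_left this (by linarith)
        have hf0 : 0 < (fx P' (orb K (O p (st K x)))).ncard := by
          rw [Set.ncard_pos]; exact ⟨_, hXΓ, c.le_stab hPX⟩
        have hnd := c.ndvd hP' hf0
        set f := (fx P' (orb K (O p (st K x)))).ncard with hf
        set n := (orb K (O p (st K x))).ncard with hn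
        have hn2 : 2 * p ≤ n := by omega
        have hs1 : s ≠ 0 := by
          rintro rfl
          have : (f : ℤ) ≤ 1 := by push_cast at u2; linarith
          have : f ≤ 1 := by exact_mod_cast this
          omega
        have hs2 : s ≠ 1 := by
          rintro rfl
          have : (f : ℤ) ≤ p := by push_cast at u2; linarith
          have : f ≤ p := by exact_mod_cast this
          apply hnd
          have : n = 2 * p := by omega
          rw [this]; exact ⟨2, by ring⟩
        have hs3 : 2 ≤ s := by omega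
        have hd : (p - 1) * s ≤ f + (p - 2) := by
          have : (((p - 1) * s : ℕ) : ℤ) ≤ ((f + (p - 2) : ℕ) : ℤ) := by
            push_cast [Nat.cast_sub (show 1 ≤ p by omega), Nat.cast_sub hp2]
            linarith
          exact_mod_cast this
        have hfp : p ≤ f := by
          have : (p - 1) * 2 ≤ (p - 1) * s := Nat.mul_le_mul_left _ hs3
          omega
        exact tower c hP' (by rw [← hn, r1]; exact ih) hs hs3 hd hfp
      have h2 := not_lt.1 main
      exact ⟨le_trans (mul_nonneg (by linarith) (by linarith)) h2, fun h => absurd h main⟩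

/-- the fixed point bound for transitive actions of `p`-generated groups -/
theorem fixed_bound {Ω : Type*} [MulAction G Ω] [Finite Ω] {K P : Subgroup G} (hK : O p K = K)
    (hP : Syl p P K) {x : Ω} (hx : ¬ K ≤ MulAction.stabilizer G x) :
    0 ≤ D p P (orb K x) := by
  set b : G ⧸ MulAction.stabilizer G x := ((1 : G) : G ⧸ MulAction.stabilizer G x) with hb
  have hstab : MulAction.stabilizer G b = MulAction.stabilizer G x :=
    MulAction.stabilizer_quotient _
  have hst : st K b = st K x := by rw [st, hstab, st]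
  have h1 := (thmB ((orb K b).ncard + 1) (G ⧸ MulAction.stabilizer G x) K P b hK hP
    (Nat.lt_succ_self _) (by rw [hstab]; exact hx)).1
  have e1 : (orb K b).ncard = (orb K x).ncard := by rw [ncard_orb, ncard_orb, hst]
  have e2 : (fx P (orb K b)).ncard = (fx P (orb K x)).ncard := by
    have f1 := FIX hP x
    have f2 := FIX hP b
    rw [hst, e1, ← f1] at f2
    exact Nat.eq_of_mul_eq_mul_right (nu_pos hP.1) f2
  unfold D W at h1 ⊢
  rwa [e1, e2] at h1

end Cfsg.Agent.H33.SF
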