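import Cfsg.Agent.H33.SFBasic

/-! Points: subgroups `O p M` with `M` of index strictly between `p` and `2p`. -/

set_option autoImplicit false
set_option linter.unusedSectionVars false
set_option linter.unusedVariables false

namespace Cfsg.Agent.H33.SF

open scoped Pointwise

universe u
variable {G : Type u} [Group G] (p : ℕ)

/-- `P` is a Sylow `p`-subgroup of `K` -/
def Syl (P K : Subgroup G) : Prop := P ≤ K ∧ IsPGroup p P ∧ ¬ p ∣ P.relIndex K

/-- a point of `K` -/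
def Pt (K T : Subgroup G) : Prop :=
  ∃ M ≤ K, p < M.relIndex K ∧ M.relIndex K < 2 * p ∧ O p M = T

variable {p} [Finite G] [Fact p.Prime]

theorem ndvd_of_small {i : ℕ} (h1 : p < i) (h2 : i < 2 * p) : ¬ p ∣ i := by
  rintro ⟨c, rfl⟩
  rcases Nat.lt_or_ge c 2 with hc | hc
  · interval_cases c <;> omega
  · have : p * 2 ≤ p * c := Nat.mul_le_mul_left _ hc
    omega

theorem relIndex_cj (g : G) (M K : Subgroup G) : (g • M).relIndex (g • K) = M.relIndex K := by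
  rw [smul_sub_def, smul_sub_def]
  exact Subgroup.relIndex_pointwise_smul _ _ _

theorem Syl.of_le {P H K : Subgroup G} (h : Syl p P K) (hPH : P ≤ H) (hHK : H ≤ K) :
    Syl p P H := by
  refine ⟨hPH, h.2.1, fun hd => h.2.2 ?_⟩
  rw [← Subgroup.relIndex_mul_relIndex P H K hPH hHK]
  exact hd.mul_right _

theorem Syl.ndvd {P H K : Subgroup G} (h : Syl p P K) (hPH : P ≤ H) (hHK : H ≤ K) :
    ¬ p ∣ H.relIndex K := by
  intro hd
  apply h.2.2
  rw [← Subgroup.relIndex_mul_relIndex P H K hPH hHK]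
  exact hd.mul_left _

theorem Syl.cj {P K : Subgroup G} (h : Syl p P K) (g : G) : Syl p (g • P) (g • K) := by
  refine ⟨cj_le.2 h.1, ?_, by rw [relIndex_cj]; exact h.2.2⟩
  exact h.2.1.map (MulAut.conj g).toMonoidHom

theorem Syl.gen {P K : Subgroup G} (h : Syl p P K) : O p P = P := O_of_isPGroup h.2.1

theorem exists_syl (K : Subgroup G) : ∃ P, Syl p P K := by
  obtain ⟨S⟩ := (inferInstance : Nonempty (Sylow p K))
  refine ⟨(S : Subgroup K).map K.subtype, Subgroup.map_subtype_le _, S.isPGroup'.map _, ?_⟩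
  have : ((S : Subgroup K).map K.subtype).relIndex K = (S : Subgroup K).index := by
    rw [Subgroup.relIndex, Subgroup.subgroupOf,
      Subgroup.comap_map_eq_self_of_injective K.subtype_injective]
  rw [this]
  exact S.not_dvd_index

/-- a Sylow subgroup of `K` inside a subgroup of index prime to `p` -/
theorem exists_syl_le {M K : Subgroup G} (hM : M ≤ K) (hd : ¬ p ∣ M.relIndex K) :
    ∃ P, Syl p P K ∧ P ≤ M := by
  obtain ⟨P, hP⟩ := exists_syl (p := p) M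
  refine ⟨P, ⟨hP.1.trans hM, hP.2.1, ?_⟩, hP.1⟩
  rw [← Subgroup.relIndex_mul_relIndex P M K hP.1 hM]
  intro h
  rcases (Fact.out : p.Prime).dvd_mul.1 h with h | h
  · exact hP.2.2 h
  · exact hd h

theorem Syl.conj {P Q K : Subgroup G} (hP : Syl p P K) (hQ : Syl p Q K) :
    ∃ k ∈ K, Q = k • P := by
  obtain ⟨k, hk, h⟩ := PQ hQ.2.1 hQ.1 hP.2.2
  obtain ⟨l, hl, h'⟩ := PQ hP.2.1 hP.1 hQ.2.2
  have c1 := Subgroup.card_le_of_le h
  have c2 := Subgroup.card_le_of_le h'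
  rw [card_cj] at c1 c2
  refine ⟨k, hk, ?_⟩
  apply Subgroup.eq_of_le_of_card_ge h
  rw [card_cj]; exact c2

theorem Syl.card {P Q K : Subgroup G} (hP : Syl p P K) (hQ : Syl p Q K) :
    Nat.card P = Nat.card Q := by
  obtain ⟨k, hk, rfl⟩ := hP.conj hQ
  rw [card_cj]

theorem eq_of_le_cj {k : G} {T T' : Subgroup G} (h : T ≤ k • T) : k • T = T :=
  (Subgroup.eq_of_le_of_card_ge h (by rw [card_cj])).symm

theorem eq_of_cj_le {k : G} {T : Subgroup G} (h : k • T ≤ T) : k • T = T :=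
  Subgroup.eq_of_le_of_card_ge h (by rw [card_cj])

/-- two conjugate subgroups, one inside the other -/
theorem eq_of_le_orb {K T T₁ T₂ : Subgroup G} (h1 : T₁ ∈ orb K T) (h2 : T₂ ∈ orb K T)
    (h : T₁ ≤ T₂) : T₁ = T₂ := by
  obtain ⟨k, -, rfl⟩ := h1
  obtain ⟨l, -, rfl⟩ := h2
  exact Subgroup.eq_of_le_of_card_ge h (by rw [card_cj, card_cj])

theorem le_st_O {K M : Subgroup G} (hM : M ≤ K) : M ≤ st K (O p M) := by
  intro m hm
  rw [mem_st]
  exact ⟨hM hm, by rw [cj_O, cj_self hm]⟩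

theorem N2 {K M : Subgroup G} (hK : O p K = K) (hM : M ≤ K) (h1 : p < M.relIndex K)
    (h2 : M.relIndex K < 2 * p) {k : G} (hk : k ∈ K) (h : k • O p M = O p M) : k ∈ M := by
  by_contra hkM
  have hle := le_st_O (p := p) hM
  have hmul := Subgroup.relIndex_mul_relIndex M (st K (O p M)) K hle (st_le _ _)
  have hne : M.relIndex (st K (O p M)) ≠ 1 := by
    intro h'
    rw [Subgroup.relIndex_eq_one] at h'
    exact hkM (h' (mem_st.2 ⟨hk, h⟩))
  have hpos := ri_pos M (st K (O p M))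
  have hlt : (st K (O p M)).relIndex K < p := by
    by_contra hge
    push Not at hge
    have : 2 * p ≤ M.relIndex (st K (O p M)) * (st K (O p M)).relIndex K :=
      Nat.mul_le_mul (by omega) hge
    omega
  have hall := IDX hK hlt
  have : K ≤ M := by
    rw [← hK]
    refine O_le_of fun g hg hpg => ?_
    obtain ⟨l, hl, h'⟩ := PQ (K := K) (M := M) (isPGroup_zpowers hpg)
      (by rwa [Subgroup.zpowers_le]) (ndvd_of_small h1 h2)
    rw [Subgroup.zpowers_le, mem_cj] at h'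
    have h3 : l⁻¹ * g * l ∈ O p M := mem_O h' (by
      have := pel_conj (h := l⁻¹) hpg
      simpa using this)
    rw [← mem_cj, (mem_st.1 (hall hl)).2] at h3
    exact O_le _ h3
  rw [← Subgroup.relIndex_eq_one] at this
  have := (Fact.out : p.Prime).one_lt
  omega

theorem Pt.st_eq {K M : Subgroup G} (hK : O p K = K) (hM : M ≤ K) (h1 : p < M.relIndex K)
    (h2 : M.relIndex K < 2 * p) : st K (O p M) = M :=
  le_antisymm (fun k hk => N2 hK hM h1 h2 (mem_st.1 hk).1 (mem_st.1 hk).2) (le_st_O hM)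

theorem Pt.spec {K T : Subgroup G} (hK : O p K = K) (h : Pt p K T) :
    p < (st K T).relIndex K ∧ (st K T).relIndex K < 2 * p ∧ O p (st K T) = T := by
  obtain ⟨M, hM, h1, h2, rfl⟩ := h
  rw [Pt.st_eq hK hM h1 h2]
  exact ⟨h1, h2, rfl⟩

theorem Pt.le {K T : Subgroup G} (h : Pt p K T) : T ≤ K := by
  obtain ⟨M, hM, h1, h2, rfl⟩ := h
  exact (O_le _).trans hM

theorem Pt.gen {K T : Subgroup G} (h : Pt p K T) : O p T = T := by
  obtain ⟨M, hM, h1, h2, rfl⟩ := h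
  exact O_idem _

theorem Pt.not_le {K T : Subgroup G} (h : Pt p K T) : ¬ K ≤ T := by
  obtain ⟨M, hM, h1, h2, rfl⟩ := h
  intro h
  have := h.trans (O_le _)
  rw [← Subgroup.relIndex_eq_one] at this
  have := (Fact.out : p.Prime).one_lt
  omega

theorem Pt.cj {K T : Subgroup G} (h : Pt p K T) (g : G) : Pt p (g • K) (g • T) := by
  obtain ⟨M, hM, h1, h2, rfl⟩ := h
  exact ⟨g • M, cj_le.2 hM, by rwa [relIndex_cj], by rwa [relIndex_cj], (cj_O _ _).symm⟩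

theorem Pt.of_orb {K T T' : Subgroup G} (h : Pt p K T) (h' : T' ∈ orb K T) : Pt p K T' := by
  obtain ⟨k, hk, rfl⟩ := h'
  have := h.cj k
  rwa [cj_self hk] at this

theorem Pt.pgroup {K T Q : Subgroup G} (h : Pt p K T) (hQ : IsPGroup p Q) (hQK : Q ≤ K) :
    ∃ k ∈ K, Q ≤ k • T := by
  obtain ⟨M, hM, h1, h2, rfl⟩ := h
  obtain ⟨k, hk, h'⟩ := PQ (K := K) (M := M) hQ hQK (ndvd_of_small h1 h2)
  refine ⟨k, hk, ?_⟩
  rw [cj_O]
  exact le_O (O_of_isPGroup hQ) h'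

theorem Pt.syl {K T : Subgroup G} (h : Pt p K T) : ∃ P, Syl p P K ∧ P ≤ T := by
  obtain ⟨M, hM, h1, h2, rfl⟩ := h
  obtain ⟨P, hP, h'⟩ := exists_syl_le (p := p) hM (ndvd_of_small h1 h2)
  exact ⟨P, hP, le_O (O_of_isPGroup hP.2.1) h'⟩

/-- a `p`-generated subgroup stabilizing a point is inside it -/
theorem Pt.le_of_st {K T H : Subgroup G} (hK : O p K = K) (h : Pt p K T) (hH : O p H = H)
    (h' : H ≤ st K T) : H ≤ T := by
  have := le_O hH h'
  rwa [(h.spec hK).2.2] at this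

theorem Pt.le_st {K T : Subgroup G} (h : Pt p K T) : T ≤ st K T :=
  fun t ht => mem_st.2 ⟨h.le ht, cj_self ht⟩

theorem Pt.O_st {K T H : Subgroup G} (hK : O p K = K) (h : Pt p K T) (hH : H ≤ K) :
    O p (st H T) = mt p H T := by
  apply le_antisymm
  · refine le_mt (O_idem _) ((O_le _).trans (st_le _ _)) ?_
    exact h.le_of_st hK (O_idem _) ((O_le _).trans (st_mono hH _))
  · refine le_O (O_mt _ _) fun g hg => ?_
    rw [mem_st]
    exact ⟨mt_le_left _ _ hg, cj_self (mt_le_right _ _ hg)⟩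

theorem p_le_orb {K H T₁ : Subgroup G} (hK : O p K = K) (h : Pt p K T₁) (hH : H ≤ K)
    (hH' : O p H = H) (h1 : ¬ H ≤ T₁) : p ≤ (orb H T₁).ncard := by
  rw [ncard_orb]
  by_contra hlt
  push Not at hlt
  exact h1 (h.le_of_st hK hH' ((IDX hH' hlt).trans (st_mono hH _)))

theorem N4 {K T H T₁ T₂ : Subgroup G} (hK : O p K = K) (h : Pt p K T) (hH : H ≤ K)
    (hH' : O p H = H) (m1 : T₁ ∈ orb K T) (m2 : T₂ ∈ orb K T) (h1 : ¬ H ≤ T₁) (h2 : ¬ H ≤ T₂) :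
    ∃ x ∈ H, x • T₁ = T₂ := by
  by_contra hno
  have c1 := p_le_orb hK (h.of_orb m1) hH hH' h1
  have c2 := p_le_orb hK (h.of_orb m2) hH hH' h2
  have hdis : Disjoint (orb H T₁) (orb H T₂) := by
    rw [Set.disjoint_left]
    intro z hz hz'
    have : T₂ ∈ orb H T₁ := by
      have := orb_trans hz (orb_symm hz')
      exact this
    exact hno this
  have hsub : orb H T₁ ∪ orb H T₂ ⊆ orb K T := by
    rw [← orb_eq m1]
    apply Set.union_subset (orb_mono hH _)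
    have : T₂ ∈ orb K T₁ := by rw [orb_eq m1]; exact m2
    rw [← orb_eq this]
    exact orb_mono hH _
  have hc := Set.ncard_le_ncard hsub (Set.toFinite _)
  rw [Set.ncard_union_eq hdis (Set.toFinite _) (Set.toFinite _), ncard_orb K T] at hc
  have := (h.spec hK).2.1
  omega

theorem A2 {K T C : Subgroup G} (hK : O p K = K) (h : Pt p K T) (hC : C ≤ K) (hne : C ≠ K)
    (hT : T ≤ C) : O p C = T := by
  by_contra hcon
  have hTC : T ≤ O p C := le_O h.gen hT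
  have hnot : ∀ T₁ ∈ orb K T, ¬ O p C ≤ T₁ := by
    intro T₁ hT₁ hle
    have : T = T₁ := eq_of_le_orb (self_mem_orb _ _) hT₁ (hTC.trans hle)
    subst this
    exact hcon (le_antisymm hle hTC)
  apply hne
  apply le_antisymm hC
  rw [← hK]
  refine O_le_of fun g hg hpg => ?_
  obtain ⟨k, hk, h'⟩ := h.pgroup (isPGroup_zpowers hpg) (by rwa [Subgroup.zpowers_le])
  rw [Subgroup.zpowers_le] at h'
  obtain ⟨c, hc, hc'⟩ := N4 hK h ((O_le C).trans hC) (O_idem C) (self_mem_orb _ _)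
    (smul_mem_orb hk T) (hnot _ (self_mem_orb _ _)) (hnot _ (smul_mem_orb hk T))
  rw [← hc'] at h'
  have : c • T ≤ C := by
    have h3 : c • T ≤ c • O p C := cj_le.2 hTC
    rw [cj_self hc] at h3
    exact h3.trans (O_le _)
  exact this h'

theorem A {K T T' : Subgroup G} (hK : O p K = K) (h : Pt p K T) (h' : Pt p K T') (hle : T ≤ T') :
    T = T' := by
  rw [← h'.gen]
  exact (A2 hK h h'.le (fun e => h'.not_le e.ge) hle).symm

theorem MM {K T H P : Subgroup G} (hK : O p K = K) (hP : Syl p P K) (h : Pt p K T) (hH : H ≤ K)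
    (hH' : O p H = H) (hPH : P ≤ H) (hPT : P ≤ T) (hn : ¬ H ≤ T) :
    p < (st H T).relIndex H ∧ (st H T).relIndex H < 2 * p := by
  have c1 := p_le_orb hK h hH hH' hn
  rw [ncard_orb] at c1
  have c2 : (orb H T).ncard ≤ (orb K T).ncard :=
    Set.ncard_le_ncard (orb_mono hH _) (Set.toFinite _)
  rw [ncard_orb, ncard_orb] at c2
  have c3 := (h.spec hK).2.1
  have hPs : P ≤ st H T := fun g hg => mem_st.2 ⟨hPH hg, cj_self (hPT hg)⟩
  have c4 : (st H T).relIndex H ≠ p := by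
    intro he
    exact (hP.of_le hPH hH).ndvd hPs (st_le _ _) (by rw [he])
  omega

theorem M {K T H P : Subgroup G} (hK : O p K = K) (hP : Syl p P K) (h : Pt p K T) (hH : H ≤ K)
    (hH' : O p H = H) (hPH : P ≤ H) (hPT : P ≤ T) (hn : ¬ H ≤ T) : Pt p H (mt p H T) := by
  have := MM hK hP h hH hH' hPH hPT hn
  exact ⟨st H T, st_le _ _, this.1, this.2, h.O_st hK hH⟩

theorem M' {K T H P : Subgroup G} (hK : O p K = K) (hP : Syl p P K) (h : Pt p K T) (hH : H ≤ K)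
    (hH' : O p H = H) (hPH : P ≤ H) (hPT : P ≤ T) (hn : ¬ H ≤ T) {x : G} (hx : x ∈ H)
    (he : x • mt p H T = mt p H T) : x • T = T := by
  have h1 := MM hK hP h hH hH' hPH hPT hn
  rw [← h.O_st hK hH] at he
  exact (mem_st.1 (N2 hH' (st_le _ _) h1.1 h1.2 hx he)).2

/-- Lemma T, part 0 -/
theorem T0 {K P T₁ T₂ T₃ : Subgroup G} (hK : O p K = K) (hP : Syl p P K)
    (h1 : Pt p K T₁) (h2 : Pt p K T₂) (h3 : Pt p K T₃) (p1 : P ≤ T₁) (p2 : P ≤ T₂) (p3 : P ≤ T₃)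
    (n12 : T₁ ≠ T₂) (n13 : T₁ ≠ T₃) (h : mt p T₁ T₂ ≤ T₃) :
    mt p T₁ T₂ = mt p T₁ T₃ := by
  refine A h1.gen ?_ ?_ (le_mt (O_mt _ _) (mt_le_left _ _) h)
  · exact M hK hP h2 h1.le h1.gen p1 p2 fun e => n12 (A hK h1 h2 e)
  · exact M hK hP h3 h1.le h1.gen p1 p3 fun e => n13 (A hK h1 h3 e)

/-- Lemma T, part I -/
theorem TI {K P T₁ T₂ T₃ : Subgroup G} (hK : O p K = K) (hP : Syl p P K)
    (h1 : Pt p K T₁) (h2 : Pt p K T₂) (h3 : Pt p K T₃) (p1 : P ≤ T₁) (p2 : P ≤ T₂) (p3 : P ≤ T₃)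
    (n12 : T₁ ≠ T₂) (n13 : T₁ ≠ T₃) (n23 : T₂ ≠ T₃) (h : mt p T₁ T₂ ≤ T₃) :
    T₂ ∉ orb K T₁ := by
  intro hm
  have e1 := T0 hK hP h1 h2 h3 p1 p2 p3 n12 n13 h
  have e2 : mt p T₂ T₁ = mt p T₂ T₃ :=
    T0 hK hP h2 h1 h3 p2 p1 p3 n12.symm n23 (by rwa [mt_comm])
  have a1 : ¬ T₃ ≤ T₁ := fun e => n13 (A hK h3 h1 e).symm
  have a2 : ¬ T₃ ≤ T₂ := fun e => n23 (A hK h3 h2 e).symm
  obtain ⟨x, hx, hx'⟩ := N4 hK h1 h3.le h3.gen (self_mem_orb _ _) hm a1 a2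
  have e3 : x • mt p T₃ T₁ = mt p T₃ T₁ := by
    rw [cj_mt, cj_self hx, hx', mt_comm T₃ T₂, ← e2, mt_comm T₂ T₁, e1, mt_comm]
  have := M' hK hP h1 h3.le h3.gen p3 p1 a1 hx e3
  exact n12 (this.symm.trans hx')

/-- Lemma T, part II -/
theorem TII {K P T₁ T₂ T₃ : Subgroup G} (hK : O p K = K) (hP : Syl p P K)
    (h1 : Pt p K T₁) (h2 : Pt p K T₂) (h3 : Pt p K T₃) (p1 : P ≤ T₁) (p2 : P ≤ T₂) (p3 : P ≤ T₃)
    (n12 : T₁ ≠ T₂) (n13 : T₁ ≠ T₃) (n23 : T₂ ≠ T₃) (h : mt p T₁ T₂ ≤ T₃)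
    {T₁' : Subgroup G} (hm : T₁' ∈ orb K T₁) (p1' : P ≤ T₁') : T₁' = T₁ := by
  by_contra hne
  have h1' := h1.of_orb hm
  have e1 := T0 hK hP h1 h2 h3 p1 p2 p3 n12 n13 h
  have e2 : mt p T₂ T₁ = mt p T₂ T₃ :=
    T0 hK hP h2 h1 h3 p2 p1 p3 n12.symm n23 (by rwa [mt_comm])
  have c12 := TI hK hP h1 h2 h3 p1 p2 p3 n12 n13 n23 h
  have c13 : T₃ ∉ orb K T₁ := TI hK hP h1 h3 h2 p1 p3 p2 n13 n12 n23.symm
    (by rw [← e1]; exact mt_le_right _ _)
  -- `Z` has no fixed points on the classes of `T₂`, `T₃`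
  set Z := mt p T₁ T₁' with hZ
  have hPZ : P ≤ Z := le_mt hP.gen p1 p1'
  have hZK : Z ≤ K := (mt_le_left _ _).trans h1.le
  have hZg : O p Z = Z := O_mt _ _
  have key : ∀ T, Pt p K T → T ∉ orb K T₁ → ¬ Z ≤ T := by
    intro T hT hTo hle
    have a : T₁ ≠ T := fun e => hTo (e ▸ self_mem_orb _ _)
    have b : T₁' ≠ T := fun e => hTo (e ▸ hm)
    exact TI hK hP h1 h1' hT p1 p1' (hPZ.trans hle) (Ne.symm hne) a b hle hm
  have notmem : ∀ {T T' : Subgroup G}, T ∉ orb K T₁ → T' ∈ orb K T → T' ∉ orb K T₁ := by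
    intro T T' hT hT' h
    exact hT (orb_trans h (orb_symm hT'))
  have a1 : ¬ T₂ ≤ T₁ := fun e => n12 (A hK h2 h1 e).symm
  have a2 : ¬ T₂ ≤ T₁' := fun e => c12 ((A hK h2 h1' e).symm ▸ hm)
  obtain ⟨k, hk, hk'⟩ := N4 hK h1 h2.le h2.gen (self_mem_orb _ _) hm a1 a2
  have hkK : k ∈ K := h2.le hk
  have m3 : k • T₃ ∈ orb K T₃ := smul_mem_orb hkK T₃
  have h3' : Pt p K (k • T₃) := h3.of_orb m3
  -- the group `Z₂ = Z ∧ T₂`
  have z1 : mt p Z T₂ ≤ mt p T₁ T₂ :=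
    le_mt (O_mt _ _) ((mt_le_left _ _).trans (mt_le_left _ _)) (mt_le_right _ _)
  have z2 : mt p Z T₂ ≤ mt p T₁' T₂ :=
    le_mt (O_mt _ _) ((mt_le_left _ _).trans (mt_le_right _ _)) (mt_le_right _ _)
  have z3 : mt p Z T₂ ≤ T₃ := z1.trans h
  have z4 : mt p Z T₂ ≤ k • T₃ := by
    refine z2.trans ?_
    have : mt p T₁' T₂ = k • mt p T₁ T₂ := by rw [cj_mt, hk', cj_self hk]
    rw [this, cj_le]; exact h
  have hPz : P ≤ mt p Z T₂ := le_mt hP.gen hPZ p2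
  have q2 : Pt p Z (mt p Z T₂) := M hK hP h2 hZK hZg hPZ p2 (key T₂ h2 c12)
  have k3 := key T₃ h3 c13
  have k3' := key _ h3' (notmem c13 m3)
  have q3 : Pt p Z (mt p Z T₃) := M hK hP h3 hZK hZg hPZ p3 k3
  have q3' : Pt p Z (mt p Z (k • T₃)) := M hK hP h3' hZK hZg hPZ (hPz.trans z4) k3'
  have f1 : mt p Z T₂ = mt p Z T₃ := A hZg q2 q3 (le_mt (O_mt _ _) (mt_le_left _ _) z3)
  have f2 : mt p Z T₂ = mt p Z (k • T₃) := A hZg q2 q3' (le_mt (O_mt _ _) (mt_le_left _ _) z4)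
  obtain ⟨x, hx, hx'⟩ := N4 hK h3 hZK hZg (self_mem_orb _ _) m3 k3 k3'
  have e3 : x • mt p Z T₃ = mt p Z T₃ := by
    rw [cj_mt, cj_self hx, hx', ← f2, f1]
  have e4 := M' hK hP h3 hZK hZg hPZ p3 k3 hx e3
  have e5 : k • T₃ = T₃ := by rw [← hx', e4]
  have e6 : k • mt p T₂ T₁ = mt p T₂ T₁ := by
    rw [e2, cj_mt, cj_self hk, e5]
  have e7 := M' hK hP h1 h2.le h2.gen p2 p1 a1 hk e6
  exact hne (hk'.symm.trans e7)

end Cfsg.Agent.H33.SF
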