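import Cfsg.Agent.H33.FnMod
import Mathlib.LinearAlgebra.Eigenspace.Zero
import Mathlib.LinearAlgebra.Dual.Lemmas
import Mathlib.NumberTheory.Padics.PadicVal.Basic
import Cfsg.Prelude.Def_Transfer

set_option autoImplicit false
set_option linter.all false

/-! `Z_p wr Z_p` as a homomorphic image (helper33). -/

namespace Cfsg.Agent.H33

open Module

theorem finrank_gt_of_nilp {K V : Type*} [Field K] [AddCommGroup V] [Module K V] [FiniteDimensional K V]
    (D : Module.End K V) (hD : IsNilpotent D) {v : V} {m : ℕ} (h : (D ^ m) v ≠ 0) :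
    m < finrank K V := by
  by_contra hle
  push Not at hle
  have h1 := hD.charpoly_eq_X_pow_finrank
  have h2 := LinearMap.aeval_self_charpoly D
  rw [h1, map_pow, Polynomial.aeval_X] at h2
  apply h
  have h3 : D ^ m = 0 := by
    obtain ⟨k, hk⟩ := Nat.exists_eq_add_of_le hle
    rw [hk, pow_add, h2, zero_mul]
  rw [h3]; rfl

/-- the largest `T`-invariant submodule of `ker λ` -/
def coreS {p : ℕ} [Fact p.Prime] {V : Type*} [AddCommGroup V] [Module (ZMod p) V]
    (T : Module.End (ZMod p) V) (l : Module.Dual (ZMod p) V) : Submodule (ZMod p) V :=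
  ⨅ k : ℕ, LinearMap.ker (l ∘ₗ (T ^ k))

theorem mem_coreS {p : ℕ} [Fact p.Prime] {V : Type*} [AddCommGroup V] [Module (ZMod p) V]
    {T : Module.End (ZMod p) V} {l : Module.Dual (ZMod p) V} {v : V} :
    v ∈ coreS T l ↔ ∀ k : ℕ, l ((T ^ k) v) = 0 := by
  simp [coreS, Submodule.mem_iInf, LinearMap.mem_ker]

theorem card_quot_coreS {p : ℕ} [hp : Fact p.Prime] {V : Type*} [AddCommGroup V] [Module (ZMod p) V]
    [Finite V] (T : Module.End (ZMod p) V) (hT : T ^ p = 1) (l : Module.Dual (ZMod p) V) (v : V)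
    (hv : l (∑ i ∈ Finset.range p, (T ^ i) v) ≠ 0) : p ^ p ≤ Nat.card (V ⧸ coreS T l) := by
  set K := coreS T l with hK
  have hTK : ∀ w ∈ K, T w ∈ K := by
    intro w hw
    rw [hK, mem_coreS] at hw ⊢
    intro k
    have := hw (k + 1)
    rwa [pow_succ] at this
  set D : Module.End (ZMod p) V := T - 1 with hD
  have hDK : K ≤ K.comap D := by
    intro w hw
    rw [Submodule.mem_comap, hD, LinearMap.sub_apply]
    exact K.sub_mem (hTK w hw) hw
  set E : Module.End (ZMod p) (V ⧸ K) := K.mapQ K D hDK with hE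
  have hEp : ∀ (m : ℕ) (w : V), (E ^ m) (K.mkQ w) = K.mkQ ((D ^ m) w) := by
    intro m
    induction m with
    | zero => intro w; rfl
    | succ m ih =>
      intro w
      rw [pow_succ, pow_succ, Module.End.mul_apply, Module.End.mul_apply, ← ih]
      rfl
  have hDp : D ^ p = 0 := by
    have h1 : ((Polynomial.X : Polynomial (ZMod p)) - 1) ^ p = Polynomial.X ^ p - 1 := by
      have := sub_pow_char (p := p) (Polynomial.X : Polynomial (ZMod p)) (1 : Polynomial (ZMod p))
      rw [this, one_pow]
    have h2 := congrArg (Polynomial.aeval T) h1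
    rw [map_pow, map_sub, map_sub, map_one, map_pow, Polynomial.aeval_X, hT, sub_self] at h2
    exact h2
  have hEn : IsNilpotent E := by
    refine ⟨p, ?_⟩
    apply LinearMap.ext
    intro w
    obtain ⟨w, rfl⟩ := K.mkQ_surjective w
    rw [hEp, hDp]
    simp
  have hDp1 : (D ^ (p - 1)) v = ∑ i ∈ Finset.range p, (T ^ i) v := by
    have h1 := congrArg (Polynomial.aeval T) (geom_eq p)
    rw [map_sum, map_pow, map_sub, map_one, Polynomial.aeval_X] at h1
    simp only [map_pow, Polynomial.aeval_X] at h1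
    have h2 := congrArg (fun L : Module.End (ZMod p) V => L v) h1
    simp only [LinearMap.sum_apply] at h2
    exact h2.symm
  have hne : (E ^ (p - 1)) (K.mkQ v) ≠ 0 := by
    rw [hEp, hDp1]
    intro h
    have h1 : (∑ i ∈ Finset.range p, (T ^ i) v) ∈ K := by
      rwa [Submodule.mkQ_apply, Submodule.Quotient.mk_eq_zero] at h
    rw [hK, mem_coreS] at h1
    have h2 := h1 0
    rw [pow_zero] at h2
    exact hv h2
  have hfr := finrank_gt_of_nilp E hEn hne
  have hcard : Nat.card (V ⧸ K) = Nat.card (ZMod p) ^ finrank (ZMod p) (V ⧸ K) :=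
    Module.natCard_eq_pow_finrank
  rw [hcard, Nat.card_zmod]
  exact Nat.pow_le_pow_right hp.out.pos (by omega)

theorem factorization_factorial_sq {p : ℕ} [hp : Fact p.Prime] : ((p ^ 2).factorial).factorization p = p + 1 := by
  have h1 := sub_one_mul_padicValNat_factorial (p := p) (p ^ 2)
  have h2 : (p.digits (p ^ 2)).sum = 1 := by
    have h3 : p ^ 2 = p * (p * 1) := by ring
    have hp1 : 1 < p := hp.out.one_lt
    rw [h3, Nat.digits_base_mul hp1 (by positivity), Nat.digits_base_mul hp1 (by norm_num),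
      Nat.digits_of_lt p 1 one_ne_zero hp1]
    simp
  rw [h2] at h1
  rw [Nat.factorization_def _ hp.out]
  have h3 : p ^ 2 - 1 = (p - 1) * (p + 1) := by
    obtain ⟨k, hk⟩ : ∃ k, p = k + 1 := ⟨p - 1, by have := hp.out.pos; omega⟩
    rw [hk]
    simp only [Nat.add_sub_cancel]
    have : (k + 1) ^ 2 = k * (k + 1 + 1) + 1 := by ring
    omega
  rw [h3] at h1
  exact Nat.eq_of_mul_eq_mul_left (by have := hp.out.one_lt; omega) h1

theorem prod_list_range {A P : Type*} [AddCommGroup A] [Group P] (i : Multiplicative A →* P) (g : ℕ → A) (n : ℕ) :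
    ((List.range n).map (fun k => i (Multiplicative.ofAdd (g k)))).prod =
      i (Multiplicative.ofAdd (∑ k ∈ Finset.range n, g k)) := by
  induction n with
  | zero => simp
  | succ n ih =>
    rw [List.range_succ, List.map_append, List.prod_append, ih, Finset.sum_range_succ, ofAdd_add, map_mul]
    simp

theorem wreath_aux {P V : Type*} [Group P] [Finite P] [AddCommGroup V] [Finite V] {p : ℕ}
    [hp : Fact p.Prime] [Module (ZMod p) V] (hP : IsPGroup p P) (i : Multiplicative V →* P)
    (hi : Function.Injective i) (hidx : i.range.index = p) (T : Module.End (ZMod p) V) (y : P)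
    (hT : ∀ v : V, i (Multiplicative.ofAdd (T v)) = y⁻¹ * i (Multiplicative.ofAdd v) * y) (v : V)
    (hprod : ((List.range p).map (fun k => (y ^ k)⁻¹ * i (Multiplicative.ofAdd v) * y ^ k)).prod ≠ 1) (hn : i.range.Normal) :
    ∃ (Q : Sylow p (Equiv.Perm (Fin (p ^ 2)))) (f : P →* ↥(Q : Subgroup (Equiv.Perm (Fin (p ^ 2))))),
      Function.Surjective f := by
  classical
  have hTk : ∀ (k : ℕ) (a : V), i (Multiplicative.ofAdd ((T ^ k) a)) =
      (y ^ k)⁻¹ * i (Multiplicative.ofAdd a) * y ^ k := by
    intro k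
    induction k with
    | zero => intro a; simp
    | succ k ih =>
      intro a
      rw [pow_succ, Module.End.mul_apply, ih, hT, pow_succ']; group
  have hsum : (∑ i ∈ Finset.range p, (T ^ i) v) ≠ 0 := by
    intro h
    apply hprod
    have h1 := prod_list_range i (fun k => (T ^ k) v) p
    rw [h] at h1
    simp only [hTk] at h1
    rw [h1]; exact map_one _
  have hTp : T ^ p = 1 := by
    apply LinearMap.ext
    intro a
    have h1 := hTk p a
    obtain ⟨b, hb⟩ : y ^ p ∈ i.range := by
      have := Subgroup.pow_index_mem i.range y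
      rwa [hidx] at this
    have h2 : (y ^ p)⁻¹ * i (Multiplicative.ofAdd a) * y ^ p = i (Multiplicative.ofAdd a) := by
      rw [← hb, mul_assoc, ← map_mul, mul_comm (Multiplicative.ofAdd a) b, map_mul]; group
    rw [h2] at h1
    exact Multiplicative.ofAdd.injective (hi h1)
  obtain ⟨l, hl⟩ : ∃ l : Module.Dual (ZMod p) V, l (∑ i ∈ Finset.range p, (T ^ i) v) ≠ 0 := by
    by_contra hne
    push Not at hne
    exact hsum ((Module.forall_dual_apply_eq_zero_iff (ZMod p) _).1 hne)
  have hK := card_quot_coreS T hTp l v hl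
  -- the hyperplane
  let μ : Multiplicative V →* Multiplicative (ZMod p) := AddMonoidHom.toMultiplicative (l : V →+ ZMod p)
  have hμ : ∀ w : V, μ (Multiplicative.ofAdd w) = Multiplicative.ofAdd (l w) := fun w => rfl
  have hμs : Function.Surjective μ := by
    have h1 : Function.Surjective l := by
      apply LinearMap.surjective
      intro h; rw [h] at hl; exact hl rfl
    intro z
    obtain ⟨w, hw⟩ := h1 z.toAdd
    exact ⟨Multiplicative.ofAdd w, by rw [hμ, hw]; rfl⟩
  set B : Subgroup P := μ.ker.map i with hB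
  have hBle : B ≤ i.range := by
    rintro _ ⟨b, -, rfl⟩; exact ⟨b, rfl⟩
  have hBi : B.index = p ^ 2 := by
    rw [← Subgroup.relIndex_mul_index hBle, hidx]
    have h1 : B.relIndex i.range = p := by
      rw [hB, MonoidHom.range_eq_map, Subgroup.relIndex_map_map_of_injective _ _ hi,
        Subgroup.relIndex_top_right, Subgroup.index_ker, MonoidHom.range_eq_top.2 hμs]
      rw [Subgroup.card_top, Nat.card_congr Multiplicative.toAdd, Nat.card_zmod]
    rw [h1]; ring
  have hcard : Nat.card (P ⧸ B) = p ^ 2 := hBi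
  haveI : Fintype (P ⧸ B) := Fintype.ofFinite _
  let e : (P ⧸ B) ≃ Fin (p ^ 2) := Finite.equivFinOfCardEq hcard
  let ρ : P →* Equiv.Perm (Fin (p ^ 2)) := (e.permCongrHom : Equiv.Perm (P ⧸ B) ≃* _).toMonoidHom.comp
    (MulAction.toPermHom P (P ⧸ B))
  have hker : ρ.ker = B.normalCore := by
    rw [Subgroup.normalCore_eq_ker]
    ext g
    rw [MonoidHom.mem_ker, MonoidHom.mem_ker]
    constructor
    · intro h
      have : (e.permCongrHom : Equiv.Perm (P ⧸ B) ≃* _) (MulAction.toPermHom P (P ⧸ B) g) = 1 := h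
      exact (MulEquiv.map_eq_one_iff _).1 this
    · intro h
      change (e.permCongrHom : Equiv.Perm (P ⧸ B) ≃* _) (MulAction.toPermHom P (P ⧸ B) g) = 1
      rw [h, map_one]
  -- the core
  have hcore : Nat.card (B.normalCore) ≤ Nat.card (coreS T l) := by
    have h1 : ∀ c : B.normalCore, ∃ w : coreS T l, i (Multiplicative.ofAdd (w : V)) = c := by
      rintro ⟨c, hc⟩
      obtain ⟨w, -, hwc⟩ := B.normalCore_le hc
      refine ⟨⟨w.toAdd, ?_⟩, hwc⟩
      rw [mem_coreS]
      intro k
      have h2 : (y ^ k)⁻¹ * c * y ^ k ∈ B := by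
        have := B.normalCore_le ((B.normalCore_normal).conj_mem c hc (y ^ k)⁻¹)
        rwa [inv_inv] at this
      obtain ⟨w', hw', hwe⟩ := h2
      have h3 : w' = Multiplicative.ofAdd ((T ^ k) w.toAdd) := by
        apply hi
        rw [hTk, hwe, ← hwc]; rfl
      rw [SetLike.mem_coe, MonoidHom.mem_ker, h3, hμ] at hw'
      exact hw'
    choose f hf using h1
    apply Nat.card_le_card_of_injective f
    intro a b hab
    apply Subtype.ext
    rw [← hf a, ← hf b, hab]
  have hVcard : Nat.card P = Nat.card V * p := by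
    rw [← hidx, ← Subgroup.card_mul_index i.range]
    congr 1
    rw [← Nat.card_congr (MonoidHom.ofInjective hi).toEquiv]
    rfl
  have hVK : Nat.card V = Nat.card (coreS T l) * Nat.card (V ⧸ coreS T l) :=
    Submodule.card_eq_card_quotient_mul_card _
  have hidx2 : p ^ (p + 1) ≤ B.normalCore.index := by
    have h1 := Subgroup.card_mul_index B.normalCore
    rw [hVcard, hVK] at h1
    have hpos : 0 < Nat.card B.normalCore := Nat.card_pos
    have h2 : Nat.card B.normalCore * p ^ (p + 1) ≤ Nat.card B.normalCore * B.normalCore.index := by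
      rw [h1, pow_succ, ← mul_assoc]
      exact Nat.mul_le_mul_right p (Nat.mul_le_mul hcore hK)
    exact Nat.le_of_mul_le_mul_left h2 hpos
  have hrp : IsPGroup p ρ.range := by
    exact IsPGroup.of_surjective hP ρ.rangeRestrict ρ.rangeRestrict_surjective
  obtain ⟨Q, hQ⟩ := hrp.exists_le_sylow
  have hQc : Nat.card (Q : Subgroup (Equiv.Perm (Fin (p ^ 2)))) = p ^ (p + 1) := by
    rw [Sylow.card_eq_multiplicity, Nat.card_perm, Nat.card_fin, factorization_factorial_sq]
  have hrc : Nat.card ρ.range = B.normalCore.index := by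
    rw [← hker, Subgroup.index_ker]
  have hrange : ρ.range = (Q : Subgroup (Equiv.Perm (Fin (p ^ 2)))) := by
    apply Subgroup.eq_of_le_of_card_ge hQ
    rw [hQc, hrc]; exact hidx2
  refine ⟨Q, ρ.codRestrict _ (fun g => hQ ⟨g, rfl⟩), ?_⟩
  rintro ⟨q, hq⟩
  have hq' : q ∈ ρ.range := by rw [hrange]; exact hq
  obtain ⟨g, hg⟩ := hq'
  exact ⟨g, Subtype.ext hg⟩

theorem wreath_image {P : Type*} [Group P] [Finite P] {p : ℕ} [hp : Fact p.Prime] (hP : IsPGroup p P)
    (A : Subgroup P) [hAn : A.Normal] (hA : Cfsg.IsElementaryAbelian p A) (hidx : A.index = p) (x y : P)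
    (hx : x ∈ A) (hprod : ((List.range p).map (fun i => (y ^ i)⁻¹ * x * y ^ i)).prod ≠ 1) :
    ∃ (Q : Sylow p (Equiv.Perm (Fin (p ^ 2)))) (f : P →* ↥(Q : Subgroup (Equiv.Perm (Fin (p ^ 2))))),
      Function.Surjective f := by
  classical
  letI : CommGroup A := { (inferInstance : Group A) with mul_comm := hA.1.is_comm.comm }
  have hAp : ∀ a : A, a ^ p = 1 := fun a => Subtype.ext (hA.2 a a.2)
  letI : Module (ZMod p) (Additive A) := AddCommGroup.zmodModule (fun a => by
    have := hAp a.toMul
    exact congrArg Additive.ofMul this)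
  let τ : A →* A := (MulAut.conjNormal (H := A) y⁻¹).toMonoidHom
  have hτ : ∀ a : A, ((τ a : A) : P) = y⁻¹ * a * y := by
    intro a
    change y⁻¹ * (a : P) * y⁻¹⁻¹ = _
    rw [inv_inv]
  haveI : Finite (Additive A) := inferInstanceAs (Finite A)
  let i : Multiplicative (Additive A) →* P := A.subtype.comp (MulEquiv.multiplicativeAdditive A).toMonoidHom
  have hii : ∀ a : Additive A, i (Multiplicative.ofAdd a) = ((a.toMul : A) : P) := fun a => rfl
  have hi : Function.Injective i := by
    intro a b hab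
    exact Subtype.ext hab
  have hr : i.range = A := by
    ext z
    constructor
    · rintro ⟨a, rfl⟩; exact (a.toAdd.toMul).2
    · intro hz; exact ⟨Multiplicative.ofAdd (Additive.ofMul ⟨z, hz⟩), rfl⟩
  refine wreath_aux hP i hi (by rw [hr, hidx]) (AddMonoidHom.toZModLinearMap p (MonoidHom.toAdditive τ)) y
    ?_ (Additive.ofMul ⟨x, hx⟩) hprod (by rw [hr]; exact hAn)
  intro v
  rw [hii, hii]
  exact hτ v.toMul

end Cfsg.Agent.H33
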